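/-
Helper7 library: a group whose commuting graph is that of a group `M` carrying a family of
commuting sets with the properties in `Data` (as the elation groups of `PSL(3, 3)`) is
isomorphic to `M`. Abstract part.
-/
import Mathlib

set_option autoImplicit false

namespace Cfsg.Agent.Helper7.CGL

open Subgroup

/-- The data on the target group: a family of sets of `8` pairwise commuting elements with
centralisers of order `54`, containing all such sets. -/
structure Data (M : Type*) [Group M] [DecidableEq M] (ι : Type) where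
  /-- the family -/
  B : ι → Finset M
  card8 : ∀ i, (B i).card = 8
  ne_one : ∀ i, ∀ x ∈ B i, x ≠ 1
  cent : ∀ i, ∀ x ∈ B i, Nat.card (centralizer ({x} : Set M)) = 54
  comm : ∀ i, ∀ x ∈ B i, ∀ y ∈ B i, x * y = y * x
  classify : ∀ S : Finset M, S.card = 8 → (∀ x ∈ S, x ≠ 1) →
    (∀ x ∈ S, Nat.card (centralizer ({x} : Set M)) = 54) →
    (∀ x ∈ S, ∀ y ∈ S, x * y = y * x) → ∃ i, S = B i
  inj : Function.Injective B
  pair : ∀ i, ∀ t ∈ B i, ∃ j, t ∈ B j ∧ (B i ∩ B j).card = 2
  moves : ∀ y : M, y ≠ 1 → ∃ i, ∃ t ∈ B i, y * t ≠ t * y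
  small : ∀ x : M, x ≠ 1 → Nat.card (centralizer ({x} : Set M)) ^ 2 < Nat.card M
  aut : Nat.card {σ : Equiv.Perm ι //
    ∀ i j, (B (σ i) ∩ B (σ j)).Nonempty ↔ (B i ∩ B j).Nonempty} ≤ 2 * Nat.card M
  noIdx2 : ∀ K : Subgroup M, K.index ≠ 2

/-! ### General lemmas -/

theorem card_centralizer_conj {G : Type*} [Group G] (h x : G) :
    Nat.card (centralizer ({h * x * h⁻¹} : Set G)) = Nat.card (centralizer ({x} : Set G)) := by
  symm
  refine Nat.card_congr ((MulAut.conj h).toEquiv.subtypeEquiv fun y => ?_)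
  rw [mem_centralizer_singleton_iff, mem_centralizer_singleton_iff]
  show y * x = x * y ↔ h * y * h⁻¹ * (h * x * h⁻¹) = h * x * h⁻¹ * (h * y * h⁻¹)
  constructor
  · intro hh
    have e1 : h * y * h⁻¹ * (h * x * h⁻¹) = h * (y * x) * h⁻¹ := by group
    have e2 : h * x * h⁻¹ * (h * y * h⁻¹) = h * (x * y) * h⁻¹ := by group
    rw [e1, e2, hh]
  · intro hh
    have e1 : h * y * h⁻¹ * (h * x * h⁻¹) = h * (y * x) * h⁻¹ := by group
    have e2 : h * x * h⁻¹ * (h * y * h⁻¹) = h * (x * y) * h⁻¹ := by group
    rw [e1, e2] at hh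
    exact mul_left_cancel (mul_right_cancel hh)

theorem sq_comm_of_pair {G : Type*} [Group G] (I : Finset G) (hI : I.card = 2) (t k : G)
    (ht : t ∈ I) (hk : ∀ x ∈ I, k * x * k⁻¹ ∈ I) : k * k * t = t * (k * k) := by
  classical
  have hb := hk t ht
  have hc := hk _ hb
  have key : t = k * t * k⁻¹ ∨ t = k * (k * t * k⁻¹) * k⁻¹ ∨
      k * t * k⁻¹ = k * (k * t * k⁻¹) * k⁻¹ := by
    by_contra hcon
    rw [not_or, not_or] at hcon
    obtain ⟨h1, h2, h3⟩ := hcon
    have h3' : ({t, k * t * k⁻¹, k * (k * t * k⁻¹) * k⁻¹} : Finset G).card = 3 :=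
      Finset.card_eq_three.mpr ⟨_, _, _, h1, h2, h3, rfl⟩
    have hsub : ({t, k * t * k⁻¹, k * (k * t * k⁻¹) * k⁻¹} : Finset G) ⊆ I := by
      intro x hx
      simp only [Finset.mem_insert, Finset.mem_singleton] at hx
      rcases hx with rfl | rfl | rfl
      exacts [ht, hb, hc]
    have := Finset.card_le_card hsub
    omega
  have comm_case : t = k * t * k⁻¹ → k * k * t = t * (k * k) := by
    intro h
    have h' : k * t = t * k := by
      have : k * t * k⁻¹ * k = t * k := by rw [← h]
      simpa using this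
    calc k * k * t = k * (k * t) := by group
      _ = k * (t * k) := by rw [h']
      _ = k * t * k := by group
      _ = t * k * k := by rw [h']
      _ = t * (k * k) := by group
  rcases key with h | h | h
  · exact comm_case h
  · have : k * (k * t * k⁻¹) * k⁻¹ * (k * k) = t * (k * k) := by rw [← h]
    rw [← this]
    group
  · apply comm_case
    have := mul_left_cancel (mul_right_cancel h)
    exact this

theorem class_bound {G : Type*} [Group G] [Finite G] (K : Subgroup G) [K.Normal]
    (hK : ∀ x ∈ K, x * x = 1) (k : G) (hk : k ∈ K) :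
    Nat.card G ≤ Nat.card (centralizer ({k} : Set G)) ^ 2 := by
  have hcomm : ∀ x ∈ K, ∀ y ∈ K, x * y = y * x := by
    intro x hx y hy
    have h1 := hK x hx
    have h2 := hK y hy
    have h3 := hK (x * y) (K.mul_mem hx hy)
    have hx' : x⁻¹ = x := inv_eq_of_mul_eq_one_left h1
    have hy' : y⁻¹ = y := inv_eq_of_mul_eq_one_left h2
    have : (x * y)⁻¹ = x * y := inv_eq_of_mul_eq_one_left h3
    rw [mul_inv_rev, hx', hy'] at this
    exact this.symm
  have hmem : ∀ h : G, h * k * h⁻¹ ∈ centralizer ({k} : Set G) := by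
    intro h
    rw [mem_centralizer_singleton_iff]
    exact hcomm _ (Subgroup.Normal.conj_mem inferInstance k hk h) _ hk
  let φ : G ⧸ centralizer ({k} : Set G) → centralizer ({k} : Set G) :=
    Quotient.lift (fun h : G => (⟨h * k * h⁻¹, hmem h⟩ : centralizer ({k} : Set G))) (by
      intro a b hab
      have hab' : a⁻¹ * b ∈ centralizer ({k} : Set G) := QuotientGroup.leftRel_apply.mp hab
      rw [mem_centralizer_singleton_iff] at hab'
      apply Subtype.ext
      show a * k * a⁻¹ = b * k * b⁻¹
      have : b = a * (a⁻¹ * b) := by group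
      rw [this]
      calc a * k * a⁻¹ = a * (k * (a⁻¹ * b)) * (a⁻¹ * b)⁻¹ * a⁻¹ := by group
        _ = a * (a⁻¹ * b * k) * (a⁻¹ * b)⁻¹ * a⁻¹ := by rw [hab']
        _ = a * (a⁻¹ * b) * k * (a * (a⁻¹ * b))⁻¹ := by group)
  have hφ : Function.Injective φ := by
    intro a b
    refine Quotient.inductionOn₂ a b fun x y hxy => ?_
    apply Quotient.sound
    apply QuotientGroup.leftRel_apply.mpr
    rw [mem_centralizer_singleton_iff]
    have h1 : x * k * x⁻¹ = y * k * y⁻¹ := congrArg Subtype.val hxy
    calc x⁻¹ * y * k = x⁻¹ * (y * k * y⁻¹) * y := by group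
      _ = x⁻¹ * (x * k * x⁻¹) * y := by rw [h1]
      _ = k * (x⁻¹ * y) := by group
  have h1 : (centralizer ({k} : Set G)).index ≤ Nat.card (centralizer ({k} : Set G)) :=
    Nat.card_le_card_of_injective φ hφ
  have h2 := Subgroup.card_mul_index (centralizer ({k} : Set G))
  rw [← h2, pow_two]
  exact Nat.mul_le_mul_left _ h1

theorem noIdx2_of_equiv {G₁ G₂ : Type*} [Group G₁] [Group G₂] (e : G₁ ≃* G₂)
    (h : ∀ K : Subgroup G₂, K.index ≠ 2) : ∀ K : Subgroup G₁, K.index ≠ 2 := by
  intro K hK
  exact h (K.map (e : G₁ →* G₂)) ((Subgroup.index_map_equiv K e).trans hK)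

theorem eq_of_idx2 {P : Type*} [Group P] (A H' M' : Subgroup P) [Finite A] (hH : H' ≤ A)
    (hM : M' ≤ A) (hc : Nat.card H' = Nat.card M') (hA : Nat.card A ≤ 2 * Nat.card M')
    (hno : ∀ K : Subgroup M', K.index ≠ 2) : H' = M' := by
  have : Finite M' := Finite.of_injective _ (Subgroup.inclusion_injective hM)
  have : Finite H' := Finite.of_injective _ (Subgroup.inclusion_injective hH)
  by_contra hne
  have h1 : ¬ H' ≤ M' := fun h => hne (Subgroup.eq_of_le_of_card_ge h (le_of_eq hc.symm))
  have h2 : ¬ M' ≤ H' := fun h => hne (Subgroup.eq_of_le_of_card_ge h (le_of_eq hc)).symm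
  have hposM : 0 < Nat.card M' := Nat.card_pos
  have eM : Nat.card M' * M'.relIndex A = Nat.card A := by
    have := Subgroup.relIndex_mul_relIndex ⊥ M' A bot_le hM
    rwa [Subgroup.relIndex_bot_left, Subgroup.relIndex_bot_left] at this
  have eH : Nat.card H' * H'.relIndex A = Nat.card A := by
    have := Subgroup.relIndex_mul_relIndex ⊥ H' A bot_le hH
    rwa [Subgroup.relIndex_bot_left, Subgroup.relIndex_bot_left] at this
  have iM : M'.relIndex A = 2 := by
    have hle : M'.relIndex A ≤ 2 := by
      by_contra hcon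
      have : 3 ≤ M'.relIndex A := by omega
      nlinarith
    have hne0 : M'.relIndex A ≠ 0 := by
      intro h0
      rw [h0, mul_zero] at eM
      exact (Nat.card_pos (α := A)).ne' eM.symm
    have hne1 : M'.relIndex A ≠ 1 := by
      intro h1'
      exact h1 (hH.trans (Subgroup.relIndex_eq_one.mp h1'))
    omega
  have iH : H'.relIndex A = 2 := by
    have : Nat.card H' * H'.relIndex A = Nat.card M' * M'.relIndex A := by rw [eH, eM]
    rw [hc, iM] at this
    exact Nat.eq_of_mul_eq_mul_left hposM this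
  -- work inside `A`
  have iM₁ : (M'.subgroupOf A).index = 2 := iM
  have iH₁ : (H'.subgroupOf A).index = 2 := iH
  have : (H'.subgroupOf A).Normal := Subgroup.normal_of_index_eq_two iH₁
  have hsup : M'.subgroupOf A ⊔ H'.subgroupOf A = ⊤ := by
    have hd : (M'.subgroupOf A ⊔ H'.subgroupOf A).index ∣ (M'.subgroupOf A).index :=
      Subgroup.index_dvd_of_le le_sup_left
    rw [iM₁] at hd
    rcases (Nat.dvd_prime Nat.prime_two).mp hd with h | h
    · exact Subgroup.index_eq_one.mp h
    · exfalso
      have hcard : Nat.card ↥(M'.subgroupOf A ⊔ H'.subgroupOf A) =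
          Nat.card ↥(M'.subgroupOf A) := by
        have e1 := Subgroup.card_mul_index (M'.subgroupOf A ⊔ H'.subgroupOf A)
        have e2 := Subgroup.card_mul_index (M'.subgroupOf A)
        rw [h] at e1
        rw [iM₁] at e2
        omega
      have heq := Subgroup.eq_of_le_of_card_ge (le_sup_left : M'.subgroupOf A ≤ _)
        (le_of_eq hcard)
      have hle : H'.subgroupOf A ≤ M'.subgroupOf A := by
        rw [heq]
        exact le_sup_right
      apply h1
      intro x hx
      exact hle (show (⟨x, hH hx⟩ : A) ∈ H'.subgroupOf A from hx)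
  have hrel : (H'.subgroupOf A).relIndex (M'.subgroupOf A) = 2 := by
    rw [← Subgroup.relIndex_sup_right, hsup, Subgroup.relIndex_top_right, iH₁]
  have e : ↥(M'.subgroupOf A) ≃* ↥M' := Subgroup.subgroupOfEquivOfLe hM
  exact noIdx2_of_equiv e hno _ hrel

/-! ### The action on the family -/

section Act

variable {G M : Type*} [Group G] [Finite G] [Group M] [Finite M] [DecidableEq M] [DecidableEq G]
  {ι : Type} (D : Data M ι) (E : G ≃ M)

/-- the family in the group `G` -/
def BG (i : ι) : Finset G := (D.B i).map E.symm.toEmbedding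

theorem mem_BG {i : ι} {x : G} : x ∈ BG D E i ↔ E x ∈ D.B i := by
  rw [BG, Finset.mem_map_equiv, Equiv.symm_symm]

theorem BG_injective : Function.Injective (BG D E) := fun _ _ h =>
  D.inj (Finset.map_injective _ h)

theorem inter_iff (a b : ι) :
    (BG D E a ∩ BG D E b).Nonempty ↔ (D.B a ∩ D.B b).Nonempty := by
  rw [BG, BG, ← Finset.map_inter, Finset.map_nonempty]

/-- conjugation as an embedding -/
def cj (h : G) : G ↪ G := (MulAut.conj h).toEquiv.toEmbedding

theorem cj_apply (h x : G) : cj h x = h * x * h⁻¹ := rfl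

variable (hE1 : E 1 = 1) (hE : ∀ x y : G, x * y = y * x ↔ E x * E y = E y * E x)

include hE in
theorem card_cent (x : G) : Nat.card (centralizer ({x} : Set G)) =
    Nat.card (centralizer ({E x} : Set M)) := by
  refine Nat.card_congr (E.subtypeEquiv fun y => ?_)
  rw [mem_centralizer_singleton_iff, mem_centralizer_singleton_iff]
  exact hE y x

include hE1 hE in
theorem conj_ex (h : G) (i : ι) : ∃ j, BG D E j = (BG D E i).map (cj h) := by
  have key : ∃ j, ((BG D E i).map (cj h)).map E.toEmbedding = D.B j := by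
    apply D.classify
    · rw [Finset.card_map, Finset.card_map, BG, Finset.card_map, D.card8]
    · intro m hm
      obtain ⟨y, hy, rfl⟩ := Finset.mem_map.mp hm
      obtain ⟨x, hx, rfl⟩ := Finset.mem_map.mp hy
      intro h1
      have h2 : h * x * h⁻¹ = 1 := E.injective (h1.trans hE1.symm)
      have hx1 : x = 1 := by
        have : x = h⁻¹ * (h * x * h⁻¹) * h := by group
        rw [this, h2]
        group
      exact D.ne_one i _ ((mem_BG D E).mp hx) (by rw [hx1, hE1])
    · intro m hm
      obtain ⟨y, hy, rfl⟩ := Finset.mem_map.mp hm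
      obtain ⟨x, hx, rfl⟩ := Finset.mem_map.mp hy
      show Nat.card (centralizer ({E (h * x * h⁻¹)} : Set M)) = 54
      rw [← card_cent E hE, card_centralizer_conj, card_cent E hE,
        D.cent i _ ((mem_BG D E).mp hx)]
    · intro m hm m' hm'
      obtain ⟨y, hy, rfl⟩ := Finset.mem_map.mp hm
      obtain ⟨x, hx, rfl⟩ := Finset.mem_map.mp hy
      obtain ⟨y', hy', rfl⟩ := Finset.mem_map.mp hm'
      obtain ⟨x', hx', rfl⟩ := Finset.mem_map.mp hy'
      show E (h * x * h⁻¹) * E (h * x' * h⁻¹) = E (h * x' * h⁻¹) * E (h * x * h⁻¹)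
      rw [← hE]
      have hc := (hE x x').mpr (D.comm i _ ((mem_BG D E).mp hx) _ ((mem_BG D E).mp hx'))
      calc h * x * h⁻¹ * (h * x' * h⁻¹) = h * (x * x') * h⁻¹ := by group
        _ = h * (x' * x) * h⁻¹ := by rw [hc]
        _ = h * x' * h⁻¹ * (h * x * h⁻¹) := by group
  obtain ⟨j, hj⟩ := key
  refine ⟨j, ?_⟩
  rw [BG, ← hj, Finset.map_map]
  ext x
  simp

/-- the action of `G` on the index set -/
noncomputable def act (h : G) (i : ι) : ι := Classical.choose (conj_ex D E hE1 hE h i)

theorem act_spec (h : G) (i : ι) :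
    BG D E (act D E hE1 hE h i) = (BG D E i).map (cj h) :=
  Classical.choose_spec (conj_ex D E hE1 hE h i)

theorem act_one (i : ι) : act D E hE1 hE 1 i = i := by
  apply BG_injective D E
  rw [act_spec]
  ext x
  rw [Finset.mem_map]
  constructor
  · rintro ⟨y, hy, rfl⟩
    rw [cj_apply]
    simpa using hy
  · intro hx
    exact ⟨x, hx, by rw [cj_apply]; simp⟩

theorem act_mul (h h' : G) (i : ι) :
    act D E hE1 hE (h * h') i = act D E hE1 hE h (act D E hE1 hE h' i) := by
  apply BG_injective D E
  rw [act_spec, act_spec, act_spec, Finset.map_map]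
  congr 1
  ext x
  simp [cj, mul_assoc]

/-- the action as a homomorphism -/
noncomputable def rho : G →* Equiv.Perm ι :=
  letI : MulAction G ι :=
    { smul := act D E hE1 hE
      one_smul := act_one D E hE1 hE
      mul_smul := act_mul D E hE1 hE }
  MulAction.toPermHom G ι

theorem rho_apply (h : G) (i : ι) : rho D E hE1 hE h i = act D E hE1 hE h i := rfl

theorem rho_mem (h : G) (i j : ι) :
    (D.B (rho D E hE1 hE h i) ∩ D.B (rho D E hE1 hE h j)).Nonempty ↔
      (D.B i ∩ D.B j).Nonempty := by
  rw [rho_apply, rho_apply, ← inter_iff D E, act_spec, act_spec, ← Finset.map_inter,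
    Finset.map_nonempty, inter_iff]

theorem rho_injective : Function.Injective (rho D E hE1 hE) := by
  rw [injective_iff_map_eq_one]
  have hsq : ∀ k : G, rho D E hE1 hE k = 1 → k * k = 1 := by
    intro k hk
    have hfix : ∀ i, (BG D E i).map (cj k) = BG D E i := by
      intro i
      rw [← act_spec D E hE1 hE, ← rho_apply, hk]
      rfl
    have hc : ∀ i, ∀ t ∈ BG D E i, k * k * t = t * (k * k) := by
      intro i t ht
      obtain ⟨j, hj, hcard⟩ := D.pair i (E t) ((mem_BG D E).mp ht)
      refine sq_comm_of_pair (BG D E i ∩ BG D E j) ?_ t k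
        (Finset.mem_inter.mpr ⟨ht, (mem_BG D E).mpr hj⟩) ?_
      · rw [BG, BG, ← Finset.map_inter, Finset.card_map, hcard]
      · intro x hx
        rw [Finset.mem_inter] at hx ⊢
        constructor
        · rw [← hfix i]
          exact Finset.mem_map_of_mem (cj k) hx.1
        · rw [← hfix j]
          exact Finset.mem_map_of_mem (cj k) hx.2
    by_contra hne
    obtain ⟨i, t, ht, hmv⟩ := D.moves (E (k * k))
      (fun h => hne (E.injective (h.trans hE1.symm)))
    apply hmv
    have h1 := hc i (E.symm t) ((mem_BG D E).mpr (by rw [Equiv.apply_symm_apply]; exact ht))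
    have h2 := (hE _ _).mp h1
    rwa [Equiv.apply_symm_apply] at h2
  intro k hk
  by_contra hne
  have hb := class_bound (rho D E hE1 hE).ker
    (fun x hx => hsq x (MonoidHom.mem_ker.mp hx)) k (MonoidHom.mem_ker.mpr hk)
  have hs := D.small (E k) (fun h => hne (E.injective (h.trans hE1.symm)))
  rw [← card_cent E hE, ← Nat.card_congr E] at hs
  omega

end Act

/-- the automorphisms of the incidence relation of the family -/
def autGrp {M : Type*} [Group M] [DecidableEq M] {ι : Type} (D : Data M ι) :
    Subgroup (Equiv.Perm ι) where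
  carrier := {σ | ∀ i j, (D.B (σ i) ∩ D.B (σ j)).Nonempty ↔ (D.B i ∩ D.B j).Nonempty}
  one_mem' := fun _ _ => Iff.rfl
  mul_mem' := fun {σ τ} hσ hτ i j => (hσ (τ i) (τ j)).trans (hτ i j)
  inv_mem' := fun {σ} hσ i j => by
    have := hσ (σ⁻¹ i) (σ⁻¹ j)
    rw [Equiv.Perm.inv_def, Equiv.apply_symm_apply, Equiv.apply_symm_apply] at this
    exact this.symm

/-- the bijection of the groups given by an isomorphism of the commuting graphs -/
theorem equiv_of_graph {H M : Type*} [Group H] [Group M]
    (f : {h : H // h ≠ 1} ≃ {g : M // g ≠ 1})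
    (hf : ∀ x y : {h : H // h ≠ 1},
      (x : H) * y = y * x ↔ ((f x) : M) * (f y) = (f y) * (f x)) :
    ∃ E : H ≃ M, E 1 = 1 ∧ ∀ x y : H, x * y = y * x ↔ E x * E y = E y * E x := by
  classical
  let E : H ≃ M :=
    { toFun := fun x => if hx : x ≠ 1 then (f ⟨x, hx⟩ : M) else 1
      invFun := fun m => if hm : m ≠ 1 then (f.symm ⟨m, hm⟩ : H) else 1
      left_inv := by
        intro x
        by_cases hx : x ≠ 1
        · simp only [dif_pos hx]
          rw [dif_pos (f ⟨x, hx⟩).2]
          simp
        · have hx' : x = 1 := not_not.mp hx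
          simp [hx']
      right_inv := by
        intro m
        by_cases hm : m ≠ 1
        · simp only [dif_pos hm]
          rw [dif_pos (f.symm ⟨m, hm⟩).2]
          simp
        · have hm' : m = 1 := not_not.mp hm
          simp [hm'] }
  have hE1 : E 1 = 1 := by
    show (if hx : (1 : H) ≠ 1 then (f ⟨1, hx⟩ : M) else 1) = 1
    simp
  refine ⟨E, hE1, ?_⟩
  intro x y
  by_cases hx : x ≠ 1
  · by_cases hy : y ≠ 1
    · have ex : E x = (f ⟨x, hx⟩ : M) := dif_pos hx
      have ey : E y = (f ⟨y, hy⟩ : M) := dif_pos hy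
      rw [ex, ey]
      exact hf ⟨x, hx⟩ ⟨y, hy⟩
    · have hy' : y = 1 := not_not.mp hy
      rw [hy', hE1]
      simp
  · have hx' : x = 1 := not_not.mp hx
    rw [hx', hE1]
    simp

/-- A group with the commuting graph of a group carrying the data is isomorphic to it. -/
theorem main {H M : Type*} [Group H] [Finite H] [Group M] [Finite M] [DecidableEq M]
    {ι : Type} [Finite ι] (D : Data M ι)
    (f : {h : H // h ≠ 1} ≃ {g : M // g ≠ 1})
    (hf : ∀ x y : {h : H // h ≠ 1},
      (x : H) * y = y * x ↔ ((f x) : M) * (f y) = (f y) * (f x)) :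
    Nonempty (H ≃* M) := by
  classical
  obtain ⟨E, hE1, hE⟩ := equiv_of_graph f hf
  have hH := rho_injective D E hE1 hE
  have hM := rho_injective D (Equiv.refl M) rfl (fun _ _ => Iff.rfl)
  have hfin : Finite (autGrp D) := inferInstance
  have heq : (rho D E hE1 hE).range = (rho D (Equiv.refl M) rfl (fun _ _ => Iff.rfl)).range := by
    refine eq_of_idx2 (autGrp D) _ _ ?_ ?_ ?_ ?_ ?_
    · rintro _ ⟨h, rfl⟩
      exact fun i j => rho_mem D E hE1 hE h i j
    · rintro _ ⟨h, rfl⟩
      exact fun i j => rho_mem D (Equiv.refl M) rfl (fun _ _ => Iff.rfl) h i j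
    · rw [← Nat.card_congr (MonoidHom.ofInjective hH).toEquiv,
        ← Nat.card_congr (MonoidHom.ofInjective hM).toEquiv]
      exact Nat.card_congr E
    · rw [← Nat.card_congr (MonoidHom.ofInjective hM).toEquiv]
      exact D.aut
    · exact noIdx2_of_equiv (MonoidHom.ofInjective hM).symm D.noIdx2
  exact ⟨(MonoidHom.ofInjective hH).trans ((MulEquiv.subgroupCongr heq).trans
    (MonoidHom.ofInjective hM).symm)⟩

end Cfsg.Agent.Helper7.CGL
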