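/-
Helper7 library: a relation on `Fin n` given by a list of bit masks, its frames (four vertices,
pairwise unrelated with a common neighbour, no three with a common neighbour) and a
certificate that the vertices fixed by an automorphism fixing a frame are all the vertices.
Definitions only.
-/
import Mathlib

set_option autoImplicit false

namespace Cfsg.Agent.Helper7.CGL

/-- the relation given by a list of bit masks: `j` is in the row of `i` -/
def relB (rows : List ℕ) (i j : ℕ) : Bool := Nat.testBit (rows.getD i 0) j

/-- `a` and `b` are unrelated and have a common neighbour -/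
def ok2 (rows : List ℕ) (a b : ℕ) : Bool :=
  !(relB rows a b) && !(Nat.beq (Nat.land (rows.getD a 0) (rows.getD b 0)) 0)

/-- `a`, `b`, `c` have no common neighbour -/
def ok3 (rows : List ℕ) (a b c : ℕ) : Bool :=
  Nat.beq (Nat.land (Nat.land (rows.getD a 0) (rows.getD b 0)) (rows.getD c 0)) 0

/-- the frames -/
def frOK (rows : List ℕ) (a b c d : ℕ) : Bool :=
  ok2 rows a b && (ok2 rows a c && ok2 rows b c && ok3 rows a b c) &&
    (ok2 rows a d && ok2 rows b d && ok2 rows c d && ok3 rows a b d && ok3 rows a c d &&
      ok3 rows b c d)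

/-- the list of the frames -/
def framesL (rows : List ℕ) (n : ℕ) : List (ℕ × ℕ × ℕ × ℕ) :=
  (List.range n).flatMap fun a => ((List.range n).filter fun b => ok2 rows a b).flatMap fun b =>
    ((List.range n).filter fun c => ok2 rows a c && ok2 rows b c && ok3 rows a b c).flatMap
      fun c => ((List.range n).filter fun d => ok2 rows a d && ok2 rows b d && ok2 rows c d &&
        ok3 rows a b d && ok3 rows a c d && ok3 rows b c d).map fun d => (a, b, c, d)

/-- the rows only have bits below `n` -/
def rowsOK (rows : List ℕ) (n : ℕ) : Bool :=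
  (List.range n).all fun i => Nat.blt (rows.getD i 0) (Nat.pow 2 n)

/-- one step of the closure: if `i` and `j` are fixed and `m` is their only common neighbour,
then `m` is fixed -/
def stepM (rows : List ℕ) (n : ℕ) (s : ℕ × ℕ × ℕ) (mask : ℕ) : ℕ :=
  bif Nat.blt s.1 n && Nat.blt s.2.1 n && Nat.blt s.2.2 n && Nat.testBit mask s.1 &&
      Nat.testBit mask s.2.1 &&
      Nat.beq (Nat.land (rows.getD s.1 0) (rows.getD s.2.1 0)) (Nat.pow 2 s.2.2)
  then Nat.lor mask (Nat.pow 2 s.2.2) else mask

/-- the closure of a set of fixed vertices under a list of steps -/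
def closeM (rows : List ℕ) (n : ℕ) (steps : List (ℕ × ℕ × ℕ)) (mask : ℕ) : ℕ :=
  steps.foldl (fun m s => stepM rows n s m) mask

end Cfsg.Agent.Helper7.CGL
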