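/-
Helper7 library: kernel checks of the data for `SL(3, 3)`, part 1.
-/
import Cfsg.Agent.Helper7.CGLData

set_option autoImplicit false
set_option maxRecDepth 100000

namespace Cfsg.Agent.Helper7.CGL

theorem allC_eq : allC = dat.map dx := by decide +kernel

theorem reps_ok : reps.all okC = true := by decide +kernel

theorem dat_chk1 : dat1.all chkD = true := by decide +kernel

theorem dat_chk2 : dat2.all chkD = true := by decide +kernel

theorem dat_chk3 : dat3.all chkD = true := by decide +kernel

theorem dat_chk4 : dat4.all chkD = true := by decide +kernel

theorem dat_chk5 : dat5.all chkD = true := by decide +kernel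

theorem dat_chk6 : dat6.all chkD = true := by decide +kernel

theorem dat_chk7 : dat7.all chkD = true := by decide +kernel

theorem dat_chk8 : dat8.all chkD = true := by decide +kernel

theorem l_chk : ldat.all chkL = true := by decide +kernel

theorem l_comm : ldat.all (fun e => ldat.all fun e' =>
    (commC (dx e) (dx e') == (Nat.beq (lp e) (lp e') || Nat.beq (ll e) (ll e')))) = true := by
  decide +kernel

theorem l_cls : dat.all (fun e => !(Nat.beq (dk e) 2) || memL lxs (dx e)) = true := by
  decide +kernel

theorem lxs_incr : incr lxs 0 = true := by decide +kernel

theorem b_len : (List.range 26).all (fun i => Nat.beq (Bc i).length 8) = true := by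
  decide +kernel

theorem b_inj : (List.range 26).all (fun i => (List.range 26).all fun j =>
    Nat.beq i j || (Bc i).any fun x => !(memL (Bc j) x)) = true := by
  decide +kernel

theorem b_pair : (List.range 26).all (fun i => (Bc i).all fun x => (List.range 26).any fun j =>
    memL (Bc j) x && Nat.beq ((Bc i).filter fun y => memL (Bc j) y).length 2) = true := by
  decide +kernel

theorem b_rel : (List.range 26).all (fun i => (List.range 26).all fun j =>
    (relB rows26 i j == (Bc i).any fun x => memL (Bc j) x)) = true := by
  decide +kernel

theorem roots_chk : chkR roots 0 = true := by decide +kernel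

theorem roots_len : roots.length = 2809 := by decide +kernel

theorem rows_ok : rowsOK rows26 26 = true := by decide +kernel

theorem fr_ok : frOK rows26 0 1 4 8 = true := by decide +kernel

theorem close_ok : closeM rows26 26 steps26 (Nat.lor (Nat.lor (Nat.pow 2 0) (Nat.pow 2 1))
    (Nat.lor (Nat.pow 2 4) (Nat.pow 2 8))) = 2 ^ 26 - 1 := by decide +kernel

theorem frames_len : (framesL rows26 26).length = 11232 := by decide +kernel

theorem allC_len : allC.length = 5616 := by decide +kernel

end Cfsg.Agent.Helper7.CGL
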