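/-
Helper7 library: kernel checks of the data for `SL(3, 3)`, part 2: the centralisers of the
representatives of the classes.
-/
import Cfsg.Agent.Helper7.CGLData

set_option autoImplicit false
set_option maxRecDepth 100000

namespace Cfsg.Agent.Helper7.CGL

/-- the number of the entries of a list commuting with `r` -/
def cntC (l : List ℕ) (r : ℕ) : ℕ := (l.filter fun e => commC (dx e) r).length

/-- the first half of the elements -/
def datA : List ℕ := dat1 ++ dat2 ++ dat3 ++ dat4

/-- the second half of the elements -/
def datB : List ℕ := dat5 ++ dat6 ++ dat7 ++ dat8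

theorem cent_0_a : cntC datA 1548 = 5 := by decide +kernel

theorem cent_0_b : cntC datB 1548 = 3 := by decide +kernel

theorem cent_1_a : cntC datA 8109 = 4 := by decide +kernel

theorem cent_1_b : cntC datB 8109 = 2 := by decide +kernel

theorem cent_2_a : cntC datA 14670 = 30 := by decide +kernel

theorem cent_2_b : cntC datB 14670 = 24 := by decide +kernel

theorem cent_3_a : cntC datA 16857 = 5 := by decide +kernel

theorem cent_3_b : cntC datB 16857 = 4 := by decide +kernel

theorem cent_4_a : cntC datA 3978 = 6 := by decide +kernel

theorem cent_4_b : cntC datB 3978 = 2 := by decide +kernel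

theorem cent_5_a : cntC datA 10539 = 7 := by decide +kernel

theorem cent_5_b : cntC datB 10539 = 6 := by decide +kernel

theorem cent_6_a : cntC datA 17100 = 8 := by decide +kernel

theorem cent_6_b : cntC datB 17100 = 5 := by decide +kernel

theorem cent_7_a : cntC datA 6165 = 6 := by decide +kernel

theorem cent_7_b : cntC datB 6165 = 7 := by decide +kernel

theorem cent_8_a : cntC datA 12726 = 6 := by decide +kernel

theorem cent_8_b : cntC datB 12726 = 7 := by decide +kernel

theorem cent_9_a : cntC datA 19287 = 4 := by decide +kernel

theorem cent_9_b : cntC datB 19287 = 4 := by decide +kernel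

theorem cent_10_a : cntC datA 900 = 27 := by decide +kernel

theorem cent_10_b : cntC datB 900 = 21 := by decide +kernel

theorem cent_11_a : cntC datA 6643 = 2808 := by decide +kernel

theorem cent_11_b : cntC datB 6643 = 2808 := by decide +kernel

end Cfsg.Agent.Helper7.CGL
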