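/-
Helper7 library: kernel checks of the data for `SL(3, 3)`, part 3.
-/
import Cfsg.Agent.Helper7.CGLData

set_option autoImplicit false
set_option maxRecDepth 100000

namespace Cfsg.Agent.Helper7.CGL

theorem mv_chk1 : dat1.all chkMv = true := by decide +kernel

theorem mv_chk2 : dat2.all chkMv = true := by decide +kernel

theorem mv_chk3 : dat3.all chkMv = true := by decide +kernel

theorem mv_chk4 : dat4.all chkMv = true := by decide +kernel

theorem mv_chk5 : dat5.all chkMv = true := by decide +kernel

theorem mv_chk6 : dat6.all chkMv = true := by decide +kernel

theorem mv_chk7 : dat7.all chkMv = true := by decide +kernel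

theorem mv_chk8 : dat8.all chkMv = true := by decide +kernel


end Cfsg.Agent.Helper7.CGL
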