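/-
Helper7 library: the matrices of `SL(3, 3)` as numbers with nine ternary digits, with the
product, the determinant and the commutation computed on the numbers.
-/
import Mathlib

set_option autoImplicit false
set_option linter.unusedVariables false

namespace Cfsg.Agent.Helper7.CGL

open Subgroup

/-- the group `SL(3, 3)` -/
abbrev M3 : Type := Matrix.SpecialLinearGroup (Fin 3) (ZMod 3)

/-- the `k`-th ternary digit -/
def ent (c k : ℕ) : ℕ := c / 3 ^ k % 3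

/-- the number with the given nine ternary digits -/
def mk9 (a0 a1 a2 a3 a4 a5 a6 a7 a8 : ℕ) : ℕ :=
  a0 + 3 * a1 + 9 * a2 + 27 * a3 + 81 * a4 + 243 * a5 + 729 * a6 + 2187 * a7 + 6561 * a8

/-- an entry of a product -/
def e3 (a b a' b' a'' b'' : ℕ) : ℕ := (a * b + a' * b' + a'' * b'') % 3

/-- the product on the codes -/
def mulC (c d : ℕ) : ℕ :=
  mk9
    (e3 (ent c 0) (ent d 0) (ent c 1) (ent d 3) (ent c 2) (ent d 6))
    (e3 (ent c 0) (ent d 1) (ent c 1) (ent d 4) (ent c 2) (ent d 7))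
    (e3 (ent c 0) (ent d 2) (ent c 1) (ent d 5) (ent c 2) (ent d 8))
    (e3 (ent c 3) (ent d 0) (ent c 4) (ent d 3) (ent c 5) (ent d 6))
    (e3 (ent c 3) (ent d 1) (ent c 4) (ent d 4) (ent c 5) (ent d 7))
    (e3 (ent c 3) (ent d 2) (ent c 4) (ent d 5) (ent c 5) (ent d 8))
    (e3 (ent c 6) (ent d 0) (ent c 7) (ent d 3) (ent c 8) (ent d 6))
    (e3 (ent c 6) (ent d 1) (ent c 7) (ent d 4) (ent c 8) (ent d 7))
    (e3 (ent c 6) (ent d 2) (ent c 7) (ent d 5) (ent c 8) (ent d 8))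

/-- the determinant on the codes -/
def detC (c : ℕ) : ℕ :=
  (ent c 0 * ent c 4 * ent c 8 + ent c 1 * ent c 5 * ent c 6 +
      ent c 2 * ent c 3 * ent c 7 + 2 * (ent c 0 * ent c 5 * ent c 7 +
        ent c 1 * ent c 3 * ent c 8 + ent c 2 * ent c 4 * ent c 6)) % 3

/-- the codes of the elements of `SL(3, 3)` -/
def okC (c : ℕ) : Bool := Nat.blt c 19683 && Nat.beq (detC c) 1

/-- commutation on the codes -/
def commC (c d : ℕ) : Bool := Nat.beq (mulC c d) (mulC d c)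

/-- the matrix of a code -/
def matC (c : ℕ) : Matrix (Fin 3) (Fin 3) (ZMod 3) :=
  fun i j => ((ent c (3 * i.val + j.val) : ℕ) : ZMod 3)

/-- the code of a matrix -/
def codeOf (A : Matrix (Fin 3) (Fin 3) (ZMod 3)) : ℕ :=
  mk9 (A 0 0).val (A 0 1).val (A 0 2).val (A 1 0).val (A 1 1).val (A 1 2).val
    (A 2 0).val (A 2 1).val (A 2 2).val

theorem ent_lt (c k : ℕ) : ent c k < 3 := Nat.mod_lt _ (by norm_num)

theorem ent_eq (c k : ℕ) : ent c k = c / 3 ^ k % 3 := rfl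

theorem e3_lt (a b a' b' a'' b'' : ℕ) : e3 a b a' b' a'' b'' < 3 := Nat.mod_lt _ (by norm_num)

theorem mk9_eq (a0 a1 a2 a3 a4 a5 a6 a7 a8 : ℕ) : mk9 a0 a1 a2 a3 a4 a5 a6 a7 a8 =
    a0 + 3 * a1 + 9 * a2 + 27 * a3 + 81 * a4 + 243 * a5 + 729 * a6 + 2187 * a7 + 6561 * a8 :=
  rfl

theorem mk9_lt {a0 a1 a2 a3 a4 a5 a6 a7 a8 : ℕ} (h0 : a0 < 3) (h1 : a1 < 3) (h2 : a2 < 3)
    (h3 : a3 < 3) (h4 : a4 < 3) (h5 : a5 < 3) (h6 : a6 < 3) (h7 : a7 < 3) (h8 : a8 < 3) :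
    mk9 a0 a1 a2 a3 a4 a5 a6 a7 a8 < 19683 := by
  rw [mk9_eq]
  omega

theorem ent_mk9_0 {a0 a1 a2 a3 a4 a5 a6 a7 a8 : ℕ} (h0 : a0 < 3) (h1 : a1 < 3) (h2 : a2 < 3)
    (h3 : a3 < 3) (h4 : a4 < 3) (h5 : a5 < 3) (h6 : a6 < 3) (h7 : a7 < 3) (h8 : a8 < 3) :
    ent (mk9 a0 a1 a2 a3 a4 a5 a6 a7 a8) 0 = a0 := by
  have hp : (3 : ℕ) ^ 0 = 1 := by norm_num
  rw [ent_eq, mk9_eq, hp]
  omega

theorem ent_mk9_1 {a0 a1 a2 a3 a4 a5 a6 a7 a8 : ℕ} (h0 : a0 < 3) (h1 : a1 < 3) (h2 : a2 < 3)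
    (h3 : a3 < 3) (h4 : a4 < 3) (h5 : a5 < 3) (h6 : a6 < 3) (h7 : a7 < 3) (h8 : a8 < 3) :
    ent (mk9 a0 a1 a2 a3 a4 a5 a6 a7 a8) 1 = a1 := by
  have hp : (3 : ℕ) ^ 1 = 3 := by norm_num
  rw [ent_eq, mk9_eq, hp]
  omega

theorem ent_mk9_2 {a0 a1 a2 a3 a4 a5 a6 a7 a8 : ℕ} (h0 : a0 < 3) (h1 : a1 < 3) (h2 : a2 < 3)
    (h3 : a3 < 3) (h4 : a4 < 3) (h5 : a5 < 3) (h6 : a6 < 3) (h7 : a7 < 3) (h8 : a8 < 3) :
    ent (mk9 a0 a1 a2 a3 a4 a5 a6 a7 a8) 2 = a2 := by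
  have hp : (3 : ℕ) ^ 2 = 9 := by norm_num
  rw [ent_eq, mk9_eq, hp]
  omega

theorem ent_mk9_3 {a0 a1 a2 a3 a4 a5 a6 a7 a8 : ℕ} (h0 : a0 < 3) (h1 : a1 < 3) (h2 : a2 < 3)
    (h3 : a3 < 3) (h4 : a4 < 3) (h5 : a5 < 3) (h6 : a6 < 3) (h7 : a7 < 3) (h8 : a8 < 3) :
    ent (mk9 a0 a1 a2 a3 a4 a5 a6 a7 a8) 3 = a3 := by
  have hp : (3 : ℕ) ^ 3 = 27 := by norm_num
  rw [ent_eq, mk9_eq, hp]
  omega

theorem ent_mk9_4 {a0 a1 a2 a3 a4 a5 a6 a7 a8 : ℕ} (h0 : a0 < 3) (h1 : a1 < 3) (h2 : a2 < 3)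
    (h3 : a3 < 3) (h4 : a4 < 3) (h5 : a5 < 3) (h6 : a6 < 3) (h7 : a7 < 3) (h8 : a8 < 3) :
    ent (mk9 a0 a1 a2 a3 a4 a5 a6 a7 a8) 4 = a4 := by
  have hp : (3 : ℕ) ^ 4 = 81 := by norm_num
  rw [ent_eq, mk9_eq, hp]
  omega

theorem ent_mk9_5 {a0 a1 a2 a3 a4 a5 a6 a7 a8 : ℕ} (h0 : a0 < 3) (h1 : a1 < 3) (h2 : a2 < 3)
    (h3 : a3 < 3) (h4 : a4 < 3) (h5 : a5 < 3) (h6 : a6 < 3) (h7 : a7 < 3) (h8 : a8 < 3) :
    ent (mk9 a0 a1 a2 a3 a4 a5 a6 a7 a8) 5 = a5 := by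
  have hp : (3 : ℕ) ^ 5 = 243 := by norm_num
  rw [ent_eq, mk9_eq, hp]
  omega

theorem ent_mk9_6 {a0 a1 a2 a3 a4 a5 a6 a7 a8 : ℕ} (h0 : a0 < 3) (h1 : a1 < 3) (h2 : a2 < 3)
    (h3 : a3 < 3) (h4 : a4 < 3) (h5 : a5 < 3) (h6 : a6 < 3) (h7 : a7 < 3) (h8 : a8 < 3) :
    ent (mk9 a0 a1 a2 a3 a4 a5 a6 a7 a8) 6 = a6 := by
  have hp : (3 : ℕ) ^ 6 = 729 := by norm_num
  rw [ent_eq, mk9_eq, hp]
  omega

theorem ent_mk9_7 {a0 a1 a2 a3 a4 a5 a6 a7 a8 : ℕ} (h0 : a0 < 3) (h1 : a1 < 3) (h2 : a2 < 3)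
    (h3 : a3 < 3) (h4 : a4 < 3) (h5 : a5 < 3) (h6 : a6 < 3) (h7 : a7 < 3) (h8 : a8 < 3) :
    ent (mk9 a0 a1 a2 a3 a4 a5 a6 a7 a8) 7 = a7 := by
  have hp : (3 : ℕ) ^ 7 = 2187 := by norm_num
  rw [ent_eq, mk9_eq, hp]
  omega

theorem ent_mk9_8 {a0 a1 a2 a3 a4 a5 a6 a7 a8 : ℕ} (h0 : a0 < 3) (h1 : a1 < 3) (h2 : a2 < 3)
    (h3 : a3 < 3) (h4 : a4 < 3) (h5 : a5 < 3) (h6 : a6 < 3) (h7 : a7 < 3) (h8 : a8 < 3) :
    ent (mk9 a0 a1 a2 a3 a4 a5 a6 a7 a8) 8 = a8 := by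
  have hp : (3 : ℕ) ^ 8 = 6561 := by norm_num
  rw [ent_eq, mk9_eq, hp]
  omega

theorem mk9_ent {c : ℕ} (h : c < 19683) :
    mk9 (ent c 0) (ent c 1) (ent c 2) (ent c 3) (ent c 4) (ent c 5) (ent c 6) (ent c 7)
      (ent c 8) = c := by
  have hp0 : (3 : ℕ) ^ 0 = 1 := by norm_num
  have hp1 : (3 : ℕ) ^ 1 = 3 := by norm_num
  have hp2 : (3 : ℕ) ^ 2 = 9 := by norm_num
  have hp3 : (3 : ℕ) ^ 3 = 27 := by norm_num
  have hp4 : (3 : ℕ) ^ 4 = 81 := by norm_num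
  have hp5 : (3 : ℕ) ^ 5 = 243 := by norm_num
  have hp6 : (3 : ℕ) ^ 6 = 729 := by norm_num
  have hp7 : (3 : ℕ) ^ 7 = 2187 := by norm_num
  have hp8 : (3 : ℕ) ^ 8 = 6561 := by norm_num
  rw [mk9_eq, ent_eq, ent_eq, ent_eq, ent_eq, ent_eq, ent_eq, ent_eq, ent_eq, ent_eq,
    hp0, hp1, hp2, hp3, hp4, hp5, hp6, hp7, hp8]
  omega

theorem val_ent (c k : ℕ) : ((ent c k : ℕ) : ZMod 3).val = ent c k := by
  rw [ZMod.val_natCast]
  exact Nat.mod_eq_of_lt (ent_lt c k)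

theorem matC_apply (c : ℕ) (i j : Fin 3) :
    matC c i j = ((ent c (3 * i.val + j.val) : ℕ) : ZMod 3) := rfl

theorem codeOf_lt (A : Matrix (Fin 3) (Fin 3) (ZMod 3)) : codeOf A < 19683 :=
  mk9_lt (ZMod.val_lt _) (ZMod.val_lt _) (ZMod.val_lt _) (ZMod.val_lt _) (ZMod.val_lt _)
    (ZMod.val_lt _) (ZMod.val_lt _) (ZMod.val_lt _) (ZMod.val_lt _)

theorem matC_codeOf (A : Matrix (Fin 3) (Fin 3) (ZMod 3)) : matC (codeOf A) = A := by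
  have h := fun (i j : Fin 3) => ZMod.val_lt (A i j)
  ext i j
  rw [matC_apply, codeOf]
  fin_cases i <;> fin_cases j
  · show ((ent _ 0 : ℕ) : ZMod 3) = _
    rw [ent_mk9_0 (h _ _) (h _ _) (h _ _) (h _ _) (h _ _) (h _ _) (h _ _) (h _ _) (h _ _),
      ZMod.natCast_zmod_val]
    rfl
  · show ((ent _ 1 : ℕ) : ZMod 3) = _
    rw [ent_mk9_1 (h _ _) (h _ _) (h _ _) (h _ _) (h _ _) (h _ _) (h _ _) (h _ _) (h _ _),
      ZMod.natCast_zmod_val]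
    rfl
  · show ((ent _ 2 : ℕ) : ZMod 3) = _
    rw [ent_mk9_2 (h _ _) (h _ _) (h _ _) (h _ _) (h _ _) (h _ _) (h _ _) (h _ _) (h _ _),
      ZMod.natCast_zmod_val]
    rfl
  · show ((ent _ 3 : ℕ) : ZMod 3) = _
    rw [ent_mk9_3 (h _ _) (h _ _) (h _ _) (h _ _) (h _ _) (h _ _) (h _ _) (h _ _) (h _ _),
      ZMod.natCast_zmod_val]
    rfl
  · show ((ent _ 4 : ℕ) : ZMod 3) = _
    rw [ent_mk9_4 (h _ _) (h _ _) (h _ _) (h _ _) (h _ _) (h _ _) (h _ _) (h _ _) (h _ _),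
      ZMod.natCast_zmod_val]
    rfl
  · show ((ent _ 5 : ℕ) : ZMod 3) = _
    rw [ent_mk9_5 (h _ _) (h _ _) (h _ _) (h _ _) (h _ _) (h _ _) (h _ _) (h _ _) (h _ _),
      ZMod.natCast_zmod_val]
    rfl
  · show ((ent _ 6 : ℕ) : ZMod 3) = _
    rw [ent_mk9_6 (h _ _) (h _ _) (h _ _) (h _ _) (h _ _) (h _ _) (h _ _) (h _ _) (h _ _),
      ZMod.natCast_zmod_val]
    rfl
  · show ((ent _ 7 : ℕ) : ZMod 3) = _
    rw [ent_mk9_7 (h _ _) (h _ _) (h _ _) (h _ _) (h _ _) (h _ _) (h _ _) (h _ _) (h _ _),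
      ZMod.natCast_zmod_val]
    rfl
  · show ((ent _ 8 : ℕ) : ZMod 3) = _
    rw [ent_mk9_8 (h _ _) (h _ _) (h _ _) (h _ _) (h _ _) (h _ _) (h _ _) (h _ _) (h _ _),
      ZMod.natCast_zmod_val]
    rfl

theorem codeOf_matC {c : ℕ} (h : c < 19683) : codeOf (matC c) = c := by
  have e : codeOf (matC c) = mk9 (ent c 0) (ent c 1) (ent c 2) (ent c 3) (ent c 4) (ent c 5)
      (ent c 6) (ent c 7) (ent c 8) := by
    rw [codeOf]
    simp only [matC_apply]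
    rw [val_ent, val_ent, val_ent, val_ent, val_ent, val_ent, val_ent, val_ent, val_ent]
    rfl
  rw [e, mk9_ent h]

theorem mulC_lt (c d : ℕ) : mulC c d < 19683 :=
  mk9_lt (e3_lt _ _ _ _ _ _) (e3_lt _ _ _ _ _ _) (e3_lt _ _ _ _ _ _) (e3_lt _ _ _ _ _ _)
    (e3_lt _ _ _ _ _ _) (e3_lt _ _ _ _ _ _) (e3_lt _ _ _ _ _ _) (e3_lt _ _ _ _ _ _)
    (e3_lt _ _ _ _ _ _)

theorem cast_e3 (a b a' b' a'' b'' : ℕ) : ((e3 a b a' b' a'' b'' : ℕ) : ZMod 3) =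
    (a : ZMod 3) * b + (a' : ZMod 3) * b' + (a'' : ZMod 3) * b'' := by
  rw [e3, ZMod.natCast_mod]
  push_cast
  rfl

theorem matC_mulC (c d : ℕ) : matC (mulC c d) = matC c * matC d := by
  have h := fun (a b a' b' a'' b'' : ℕ) => e3_lt a b a' b' a'' b''
  ext i j
  rw [Matrix.mul_apply, Fin.sum_univ_three, matC_apply, mulC]
  simp only [matC_apply]
  fin_cases i <;> fin_cases j
  · show ((ent _ 0 : ℕ) : ZMod 3) = _
    rw [ent_mk9_0 (h _ _ _ _ _ _) (h _ _ _ _ _ _) (h _ _ _ _ _ _) (h _ _ _ _ _ _) (h _ _ _ _ _ _)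
      (h _ _ _ _ _ _) (h _ _ _ _ _ _) (h _ _ _ _ _ _) (h _ _ _ _ _ _), cast_e3]
    rfl
  · show ((ent _ 1 : ℕ) : ZMod 3) = _
    rw [ent_mk9_1 (h _ _ _ _ _ _) (h _ _ _ _ _ _) (h _ _ _ _ _ _) (h _ _ _ _ _ _) (h _ _ _ _ _ _)
      (h _ _ _ _ _ _) (h _ _ _ _ _ _) (h _ _ _ _ _ _) (h _ _ _ _ _ _), cast_e3]
    rfl
  · show ((ent _ 2 : ℕ) : ZMod 3) = _
    rw [ent_mk9_2 (h _ _ _ _ _ _) (h _ _ _ _ _ _) (h _ _ _ _ _ _) (h _ _ _ _ _ _) (h _ _ _ _ _ _)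
      (h _ _ _ _ _ _) (h _ _ _ _ _ _) (h _ _ _ _ _ _) (h _ _ _ _ _ _), cast_e3]
    rfl
  · show ((ent _ 3 : ℕ) : ZMod 3) = _
    rw [ent_mk9_3 (h _ _ _ _ _ _) (h _ _ _ _ _ _) (h _ _ _ _ _ _) (h _ _ _ _ _ _) (h _ _ _ _ _ _)
      (h _ _ _ _ _ _) (h _ _ _ _ _ _) (h _ _ _ _ _ _) (h _ _ _ _ _ _), cast_e3]
    rfl
  · show ((ent _ 4 : ℕ) : ZMod 3) = _
    rw [ent_mk9_4 (h _ _ _ _ _ _) (h _ _ _ _ _ _) (h _ _ _ _ _ _) (h _ _ _ _ _ _) (h _ _ _ _ _ _)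
      (h _ _ _ _ _ _) (h _ _ _ _ _ _) (h _ _ _ _ _ _) (h _ _ _ _ _ _), cast_e3]
    rfl
  · show ((ent _ 5 : ℕ) : ZMod 3) = _
    rw [ent_mk9_5 (h _ _ _ _ _ _) (h _ _ _ _ _ _) (h _ _ _ _ _ _) (h _ _ _ _ _ _) (h _ _ _ _ _ _)
      (h _ _ _ _ _ _) (h _ _ _ _ _ _) (h _ _ _ _ _ _) (h _ _ _ _ _ _), cast_e3]
    rfl
  · show ((ent _ 6 : ℕ) : ZMod 3) = _
    rw [ent_mk9_6 (h _ _ _ _ _ _) (h _ _ _ _ _ _) (h _ _ _ _ _ _) (h _ _ _ _ _ _) (h _ _ _ _ _ _)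
      (h _ _ _ _ _ _) (h _ _ _ _ _ _) (h _ _ _ _ _ _) (h _ _ _ _ _ _), cast_e3]
    rfl
  · show ((ent _ 7 : ℕ) : ZMod 3) = _
    rw [ent_mk9_7 (h _ _ _ _ _ _) (h _ _ _ _ _ _) (h _ _ _ _ _ _) (h _ _ _ _ _ _) (h _ _ _ _ _ _)
      (h _ _ _ _ _ _) (h _ _ _ _ _ _) (h _ _ _ _ _ _) (h _ _ _ _ _ _), cast_e3]
    rfl
  · show ((ent _ 8 : ℕ) : ZMod 3) = _
    rw [ent_mk9_8 (h _ _ _ _ _ _) (h _ _ _ _ _ _) (h _ _ _ _ _ _) (h _ _ _ _ _ _) (h _ _ _ _ _ _)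
      (h _ _ _ _ _ _) (h _ _ _ _ _ _) (h _ _ _ _ _ _) (h _ _ _ _ _ _), cast_e3]
    rfl

theorem det_matC (c : ℕ) : (matC c).det = ((detC c : ℕ) : ZMod 3) := by
  have h3 : (3 : ZMod 3) = 0 := by decide
  have e : ((detC c : ℕ) : ZMod 3) = (ent c 0 : ZMod 3) * ent c 4 * ent c 8 +
      (ent c 1 : ZMod 3) * ent c 5 * ent c 6 + (ent c 2 : ZMod 3) * ent c 3 * ent c 7 +
      2 * ((ent c 0 : ZMod 3) * ent c 5 * ent c 7 + (ent c 1 : ZMod 3) * ent c 3 * ent c 8 +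
        (ent c 2 : ZMod 3) * ent c 4 * ent c 6) := by
    rw [detC, ZMod.natCast_mod]
    push_cast
    rfl
  rw [e, Matrix.det_fin_three]
  have e0 : matC c 0 0 = (ent c 0 : ZMod 3) := rfl
  have e1 : matC c 0 1 = (ent c 1 : ZMod 3) := rfl
  have e2 : matC c 0 2 = (ent c 2 : ZMod 3) := rfl
  have e3' : matC c 1 0 = (ent c 3 : ZMod 3) := rfl
  have e4 : matC c 1 1 = (ent c 4 : ZMod 3) := rfl
  have e5 : matC c 1 2 = (ent c 5 : ZMod 3) := rfl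
  have e6 : matC c 2 0 = (ent c 6 : ZMod 3) := rfl
  have e7 : matC c 2 1 = (ent c 7 : ZMod 3) := rfl
  have e8 : matC c 2 2 = (ent c 8 : ZMod 3) := rfl
  rw [e0, e1, e2, e3', e4, e5, e6, e7, e8]
  linear_combination (-((ent c 0 : ZMod 3) * ent c 5 * ent c 7 +
    (ent c 1 : ZMod 3) * ent c 3 * ent c 8 + (ent c 2 : ZMod 3) * ent c 4 * ent c 6)) * h3

theorem detC_lt (c : ℕ) : detC c < 3 := Nat.mod_lt _ (by norm_num)

theorem det_matC_eq_one {c : ℕ} (h : detC c = 1) : (matC c).det = 1 := by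
  rw [det_matC, h]
  rfl

theorem detC_eq_one {c : ℕ} (h : (matC c).det = 1) : detC c = 1 := by
  rw [det_matC] at h
  have h2 := congrArg ZMod.val h
  rw [ZMod.val_natCast, Nat.mod_eq_of_lt (detC_lt c)] at h2
  rw [h2]
  rfl

/-- the code of an element -/
def cd (g : M3) : ℕ := codeOf g.1

/-- the element of a code of determinant one -/
def mkM (c : ℕ) (h : (matC c).det = 1) : M3 := ⟨matC c, h⟩

open Classical in
/-- the element of a code -/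
noncomputable def toM (c : ℕ) : M3 := if h : (matC c).det = 1 then mkM c h else 1

theorem toM_cd (g : M3) : toM (cd g) = g := by
  have h : (matC (cd g)).det = 1 := by
    rw [cd, matC_codeOf]
    exact g.2
  rw [toM, dif_pos h]
  exact Subtype.ext (matC_codeOf g.1)

theorem cd_lt (g : M3) : cd g < 19683 := codeOf_lt _

theorem okC_cd (g : M3) : okC (cd g) = true := by
  have h : (matC (cd g)).det = 1 := by
    rw [cd, matC_codeOf]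
    exact g.2
  rw [okC, Bool.and_eq_true]
  refine ⟨?_, ?_⟩
  · exact Nat.ble_eq_true_of_le (cd_lt g)
  · rw [detC_eq_one h]
    rfl

theorem okC_lt {c : ℕ} (h : okC c = true) : c < 19683 := by
  rw [okC, Bool.and_eq_true] at h
  exact Nat.le_of_ble_eq_true h.1

theorem okC_det {c : ℕ} (h : okC c = true) : (matC c).det = 1 := by
  rw [okC, Bool.and_eq_true] at h
  exact det_matC_eq_one (Nat.eq_of_beq_eq_true h.2)

theorem toM_val {c : ℕ} (h : okC c = true) : (toM c).1 = matC c := by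
  rw [toM, dif_pos (okC_det h)]
  rfl

theorem cd_toM {c : ℕ} (h : okC c = true) : cd (toM c) = c := by
  rw [cd, toM_val h, codeOf_matC (okC_lt h)]

theorem cd_injective : Function.Injective cd := fun g h e => by
  rw [← toM_cd g, ← toM_cd h, e]

theorem cd_mul (g h : M3) : cd (g * h) = mulC (cd g) (cd h) := by
  have e : matC (mulC (cd g) (cd h)) = (g * h).1 := by
    rw [matC_mulC, cd, cd, matC_codeOf, matC_codeOf]
    rfl
  rw [cd, ← e, codeOf_matC (mulC_lt _ _)]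

theorem comm_iff (g h : M3) : g * h = h * g ↔ commC (cd g) (cd h) = true := by
  rw [commC, ← cd_mul, ← cd_mul]
  constructor
  · intro e
    rw [e]
    exact Nat.beq_refl _
  · intro e
    exact cd_injective (Nat.eq_of_beq_eq_true e)

theorem cd_one : cd (1 : M3) = 6643 := by
  show codeOf (1 : Matrix (Fin 3) (Fin 3) (ZMod 3)) = 6643
  rw [codeOf]
  simp only [Matrix.one_apply_eq, Matrix.one_apply_ne, ne_eq, Fin.reduceEq, not_false_eq_true]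
  rfl

/-! ### Counting -/

/-- the codes of the elements -/
def allC : List ℕ := (List.range 19683).filter okC

theorem cd_mem_allC (g : M3) : cd g ∈ allC :=
  List.mem_filter.mpr ⟨List.mem_range.mpr (cd_lt g), okC_cd g⟩

theorem okC_of_mem_allC {c : ℕ} (h : c ∈ allC) : okC c = true := (List.mem_filter.mp h).2

theorem card_list (l : List ℕ) (hn : l.Nodup) : Nat.card {c : ℕ // c ∈ l} = l.length := by
  have e : {c : ℕ // c ∈ l} ≃ {c : ℕ // c ∈ l.toFinset} :=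
    Equiv.subtypeEquivRight fun c => List.mem_toFinset.symm
  rw [Nat.card_congr e, Nat.card_eq_fintype_card, Fintype.card_coe,
    List.toFinset_card_of_nodup hn]

theorem card_sub (p : ℕ → Bool) :
    Nat.card {g : M3 // p (cd g) = true} = (allC.filter p).length := by
  have hn : (allC.filter p).Nodup := (List.nodup_range.filter _).filter _
  rw [← card_list _ hn]
  refine Nat.card_congr
    { toFun := fun g => ⟨cd g.1, List.mem_filter.mpr ⟨cd_mem_allC g.1, g.2⟩⟩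
      invFun := fun c => ⟨toM c.1, ?_⟩
      left_inv := fun g => Subtype.ext (toM_cd g.1)
      right_inv := fun c => Subtype.ext
        (cd_toM (okC_of_mem_allC (List.mem_filter.mp c.2).1)) }
  rw [cd_toM (okC_of_mem_allC (List.mem_filter.mp c.2).1)]
  exact (List.mem_filter.mp c.2).2

theorem card_M3_eq : Nat.card M3 = allC.length := by
  have e : M3 ≃ {g : M3 // (fun _ : ℕ => true) (cd g) = true} :=
    (Equiv.subtypeUnivEquiv fun _ => rfl).symm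
  exact (Nat.card_congr e).trans ((card_sub _).trans (by rw [List.filter_true]))

theorem card_centralizer (g : M3) :
    Nat.card (centralizer ({g} : Set M3)) = (allC.filter fun c => commC c (cd g)).length := by
  rw [← card_sub]
  refine Nat.card_congr (Equiv.subtypeEquivRight fun y => ?_)
  rw [mem_centralizer_singleton_iff, ← comm_iff]

/-! ### Sets of elements from lists of codes -/

/-- the set of the elements with codes in a list -/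
noncomputable def F (l : List ℕ) : Finset M3 := (l.map toM).toFinset

theorem mem_F {l : List ℕ} (hl : ∀ c ∈ l, okC c = true) (x : M3) : x ∈ F l ↔ cd x ∈ l := by
  rw [F, List.mem_toFinset, List.mem_map]
  constructor
  · rintro ⟨c, hc, rfl⟩
    rwa [cd_toM (hl c hc)]
  · intro h
    exact ⟨cd x, h, toM_cd x⟩

theorem card_F {l : List ℕ} (hl : ∀ c ∈ l, okC c = true) (hn : l.Nodup) :
    (F l).card = l.length := by
  rw [F, List.toFinset_card_of_nodup, List.length_map]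
  refine List.Nodup.map_on (fun a ha b hb e => ?_) hn
  rw [← cd_toM (hl a ha), ← cd_toM (hl b hb), e]

end Cfsg.Agent.Helper7.CGL
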