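/-
Helper7 library: the elation groups of `SL(3, 3)` form a family as in `CGL.Data`; hence a
finite group with the commuting graph of `PSL(3, 3)` is isomorphic to `PSL(3, 3)`.
-/
import Cfsg.Agent.Helper7.CGLChk1
import Cfsg.Agent.Helper7.CGLChk2
import Cfsg.Agent.Helper7.CGLChk3
import Cfsg.Agent.Helper7.CGLAbs
import Cfsg.Agent.Helper52.CGLFIB
import Cfsg.Agent.Helper52.CGLIDX2
import Cfsg.Agent.Helper52.CGLA3

set_option autoImplicit false

namespace Cfsg.Agent.Helper7.CGL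

open Subgroup

/-! ### Lists -/

theorem mem_memL {l : List ℕ} {x : ℕ} : memL l x = true ↔ x ∈ l := by
  rw [memL, List.any_eq_true]
  constructor
  · rintro ⟨y, hy, h⟩
    rw [Nat.eq_of_beq_eq_true h]
    exact hy
  · intro h
    exact ⟨x, h, Nat.beq_refl x⟩

theorem incr_spec : ∀ (l : List ℕ) (a : ℕ), incr l a = true → (∀ x ∈ l, a < x) ∧ l.Nodup
  | [], a, _ => ⟨fun x hx => absurd hx List.not_mem_nil, List.nodup_nil⟩
  | b :: l, a, h => by
    rw [incr_cons, Bool.and_eq_true] at h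
    have hab : a < b := Nat.le_of_ble_eq_true h.1
    obtain ⟨h1, h2⟩ := incr_spec l b h.2
    refine ⟨?_, List.nodup_cons.mpr ⟨fun hb => lt_irrefl b (h1 b hb), h2⟩⟩
    intro x hx
    rcases List.mem_cons.mp hx with rfl | hx
    · exact hab
    · exact hab.trans (h1 x hx)

/-! ### The classes -/

theorem mem_dat (g : M3) : ∃ e ∈ dat, dx e = cd g := by
  have h := cd_mem_allC g
  rw [allC_eq, List.mem_map] at h
  exact h

theorem mem_dat_cases {e : ℕ} (he : e ∈ dat) :
    e ∈ dat1 ∨ e ∈ dat2 ∨ e ∈ dat3 ∨ e ∈ dat4 ∨ e ∈ dat5 ∨ e ∈ dat6 ∨ e ∈ dat7 ∨ e ∈ dat8 := by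
  have h := he
  unfold dat at h
  simp only [List.mem_append] at h
  rcases h with ((((((h | h) | h) | h) | h) | h) | h) | h
  · exact Or.inl h
  · exact Or.inr (Or.inl h)
  · exact Or.inr (Or.inr (Or.inl h))
  · exact Or.inr (Or.inr (Or.inr (Or.inl h)))
  · exact Or.inr (Or.inr (Or.inr (Or.inr (Or.inl h))))
  · exact Or.inr (Or.inr (Or.inr (Or.inr (Or.inr (Or.inl h)))))
  · exact Or.inr (Or.inr (Or.inr (Or.inr (Or.inr (Or.inr (Or.inl h))))))
  · exact Or.inr (Or.inr (Or.inr (Or.inr (Or.inr (Or.inr (Or.inr h))))))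

theorem dat_chk {e : ℕ} (he : e ∈ dat) : chkD e = true := by
  rcases mem_dat_cases he with h | h | h | h | h | h | h | h
  · exact List.all_eq_true.mp dat_chk1 e h
  · exact List.all_eq_true.mp dat_chk2 e h
  · exact List.all_eq_true.mp dat_chk3 e h
  · exact List.all_eq_true.mp dat_chk4 e h
  · exact List.all_eq_true.mp dat_chk5 e h
  · exact List.all_eq_true.mp dat_chk6 e h
  · exact List.all_eq_true.mp dat_chk7 e h
  · exact List.all_eq_true.mp dat_chk8 e h

theorem mv_chk {e : ℕ} (he : e ∈ dat) : chkMv e = true := by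
  rcases mem_dat_cases he with h | h | h | h | h | h | h | h
  · exact List.all_eq_true.mp mv_chk1 e h
  · exact List.all_eq_true.mp mv_chk2 e h
  · exact List.all_eq_true.mp mv_chk3 e h
  · exact List.all_eq_true.mp mv_chk4 e h
  · exact List.all_eq_true.mp mv_chk5 e h
  · exact List.all_eq_true.mp mv_chk6 e h
  · exact List.all_eq_true.mp mv_chk7 e h
  · exact List.all_eq_true.mp mv_chk8 e h

theorem rep_ok : ∀ k < 12, okC (reps.getD k 0) = true := by decide +kernel

theorem cnt_allC (r : ℕ) :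
    (allC.filter fun c => commC c r).length = cntC datA r + cntC datB r := by
  have hd : dat = datA ++ datB := by
    simp only [dat, datA, datB, List.append_assoc]
  rw [allC_eq, hd, List.map_append, List.filter_append, List.length_append, cntC, cntC,
    List.filter_map, List.filter_map, List.length_map, List.length_map]
  rfl

theorem cent_rep : ∀ k < 12,
    (allC.filter fun c => commC c (reps.getD k 0)).length = cvals.getD k 0 := by
  intro k hk
  interval_cases k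
  · exact (cnt_allC _).trans (by rw [show reps.getD 0 0 = 1548 from rfl, cent_0_a, cent_0_b]; rfl)
  · exact (cnt_allC _).trans (by rw [show reps.getD 1 0 = 8109 from rfl, cent_1_a, cent_1_b]; rfl)
  · exact (cnt_allC _).trans (by rw [show reps.getD 2 0 = 14670 from rfl, cent_2_a, cent_2_b]; rfl)
  · exact (cnt_allC _).trans (by rw [show reps.getD 3 0 = 16857 from rfl, cent_3_a, cent_3_b]; rfl)
  · exact (cnt_allC _).trans (by rw [show reps.getD 4 0 = 3978 from rfl, cent_4_a, cent_4_b]; rfl)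
  · exact (cnt_allC _).trans (by rw [show reps.getD 5 0 = 10539 from rfl, cent_5_a, cent_5_b]; rfl)
  · exact (cnt_allC _).trans (by rw [show reps.getD 6 0 = 17100 from rfl, cent_6_a, cent_6_b]; rfl)
  · exact (cnt_allC _).trans (by rw [show reps.getD 7 0 = 6165 from rfl, cent_7_a, cent_7_b]; rfl)
  · exact (cnt_allC _).trans (by rw [show reps.getD 8 0 = 12726 from rfl, cent_8_a, cent_8_b]; rfl)
  · exact (cnt_allC _).trans (by rw [show reps.getD 9 0 = 19287 from rfl, cent_9_a, cent_9_b]; rfl)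
  · exact (cnt_allC _).trans (by rw [show reps.getD 10 0 = 900 from rfl, cent_10_a, cent_10_b]; rfl)
  · exact (cnt_allC _).trans (by rw [show reps.getD 11 0 = 6643 from rfl, cent_11_a, cent_11_b]; rfl)

theorem card_cent_of_conj {x : M3} {w r : ℕ} (hw : okC w = true) (hr : okC r = true)
    (h : mulC w r = mulC (cd x) w) :
    Nat.card (centralizer ({x} : Set M3)) = (allC.filter fun c => commC c r).length ∧
      x = toM w * toM r * (toM w)⁻¹ := by
  have hWR : toM w * toM r = x * toM w := by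
    apply cd_injective
    rw [cd_mul, cd_mul, cd_toM hw, cd_toM hr]
    exact h
  have hg : x = toM w * toM r * (toM w)⁻¹ := by
    rw [hWR]
    group
  refine ⟨?_, hg⟩
  rw [hg, card_centralizer_conj, card_centralizer, cd_toM hr]

theorem class_of (g : M3) : ∃ k < 12, Nat.card (centralizer ({g} : Set M3)) = cvals.getD k 0 ∧
    (k = 11 → g = 1) ∧ (k = 2 → cd g ∈ lxs) := by
  obtain ⟨e, he, hx⟩ := mem_dat g
  have hc := dat_chk he
  rw [chkD, Bool.and_eq_true, Bool.and_eq_true] at hc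
  obtain ⟨⟨hw, hk⟩, hm⟩ := hc
  have hk' : dk e < 12 := Nat.le_of_ble_eq_true hk
  have hm' := Nat.eq_of_beq_eq_true hm
  rw [hx] at hm'
  have hr := rep_ok _ hk'
  obtain ⟨h1, h2⟩ := card_cent_of_conj hw hr hm'
  refine ⟨dk e, hk', ?_, ?_, ?_⟩
  · rw [h1]
    exact cent_rep _ hk'
  · intro h11
    have h3 : toM (reps.getD (dk e) 0) = 1 := by
      rw [h11]
      show toM 6643 = 1
      rw [← cd_one, toM_cd]
    rw [h2, h3]
    group
  · intro h2'
    have h4 := List.all_eq_true.mp l_cls e he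
    rw [Bool.or_eq_true] at h4
    rcases h4 with h4 | h4
    · rw [h2'] at h4
      exact absurd h4 (by decide)
    · rw [hx] at h4
      exact mem_memL.mp h4

theorem card_M3 : Nat.card M3 = 5616 := card_M3_eq.trans allC_len

/-! ### The transvections -/

theorem l_chk' {e : ℕ} (he : e ∈ ldat) : okC (dx e) = true ∧ okC (dw e) = true ∧
    mulC (dw e) 14670 = mulC (dx e) (dw e) ∧ lp e < 13 ∧ 13 ≤ ll e ∧ ll e < 26 ∧
    dx e ≠ 6643 := by
  have h := List.all_eq_true.mp l_chk e he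
  rw [chkL] at h
  simp only [Bool.and_eq_true] at h
  obtain ⟨⟨⟨⟨⟨⟨h1, h2⟩, h3⟩, h4⟩, h5⟩, h6⟩, h7⟩ := h
  refine ⟨h1, h2, Nat.eq_of_beq_eq_true h3, Nat.le_of_ble_eq_true h4, Nat.le_of_ble_eq_true h5,
    Nat.le_of_ble_eq_true h6, ?_⟩
  intro h8
  rw [h8] at h7
  exact absurd h7 (by decide)

theorem mem_lxs {x : ℕ} : x ∈ lxs ↔ ∃ e ∈ ldat, dx e = x := by
  rw [lxs, List.mem_map]

theorem mem_Bc {i x : ℕ} : x ∈ Bc i ↔ ∃ e ∈ ldat, (lp e = i ∨ ll e = i) ∧ dx e = x := by
  rw [Bc, List.mem_map]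
  constructor
  · rintro ⟨e, he, rfl⟩
    rw [List.mem_filter, Bool.or_eq_true] at he
    exact ⟨e, he.1, he.2.imp Nat.eq_of_beq_eq_true Nat.eq_of_beq_eq_true, rfl⟩
  · rintro ⟨e, he, h, rfl⟩
    refine ⟨e, List.mem_filter.mpr ⟨he, ?_⟩, rfl⟩
    rw [Bool.or_eq_true]
    rcases h with h | h
    · exact Or.inl (h ▸ Nat.beq_refl _)
    · exact Or.inr (h ▸ Nat.beq_refl _)

theorem Bc_ok (i : ℕ) : ∀ c ∈ Bc i, okC c = true := by
  intro c hc
  obtain ⟨e, he, -, rfl⟩ := mem_Bc.mp hc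
  exact (l_chk' he).1

theorem lxs_nodup : lxs.Nodup := (incr_spec lxs 0 lxs_incr).2

theorem Bc_nodup (i : ℕ) : (Bc i).Nodup :=
  lxs_nodup.sublist (List.filter_sublist.map dx)

theorem Bc_len (i : Fin 26) : (Bc i).length = 8 :=
  Nat.eq_of_beq_eq_true (List.all_eq_true.mp b_len i (List.mem_range.mpr i.2))

/-- the elation groups -/
noncomputable def B26 (i : Fin 26) : Finset M3 := F (Bc i)

theorem mem_B26 {i : Fin 26} {x : M3} : x ∈ B26 i ↔ cd x ∈ Bc i := mem_F (Bc_ok i) x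

theorem B26_card (i : Fin 26) : (B26 i).card = 8 :=
  (card_F (Bc_ok i) (Bc_nodup i)).trans (Bc_len i)

theorem B26_entry {i : Fin 26} {x : M3} (h : x ∈ B26 i) :
    ∃ e ∈ ldat, (lp e = i ∨ ll e = i) ∧ dx e = cd x := mem_Bc.mp (mem_B26.mp h)

theorem B26_ne_one (i : Fin 26) (x : M3) (h : x ∈ B26 i) : x ≠ 1 := by
  obtain ⟨e, he, -, hx⟩ := B26_entry h
  intro h1
  rw [h1, cd_one] at hx
  exact (l_chk' he).2.2.2.2.2.2 hx

theorem card_cent_entry {e : ℕ} (he : e ∈ ldat) {x : M3} (hx : dx e = cd x) :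
    Nat.card (centralizer ({x} : Set M3)) = 54 := by
  obtain ⟨-, h2, h3, -⟩ := l_chk' he
  rw [hx] at h3
  rw [(card_cent_of_conj h2 (rep_ok 2 (by norm_num)) h3).1]
  exact cent_rep 2 (by norm_num)

theorem B26_cent (i : Fin 26) (x : M3) (h : x ∈ B26 i) :
    Nat.card (centralizer ({x} : Set M3)) = 54 := by
  obtain ⟨e, he, -, hx⟩ := B26_entry h
  exact card_cent_entry he hx

theorem l_comm' {e e' : ℕ} (he : e ∈ ldat) (he' : e' ∈ ldat) :
    commC (dx e) (dx e') = true ↔ lp e = lp e' ∨ ll e = ll e' := by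
  have h := List.all_eq_true.mp (List.all_eq_true.mp l_comm e he) e' he'
  rw [eq_of_beq h, Bool.or_eq_true]
  constructor
  · exact Or.imp Nat.eq_of_beq_eq_true Nat.eq_of_beq_eq_true
  · rintro (h | h)
    · exact Or.inl (h ▸ Nat.beq_refl _)
    · exact Or.inr (h ▸ Nat.beq_refl _)

theorem B26_comm (i : Fin 26) (x : M3) (hx : x ∈ B26 i) (y : M3) (hy : y ∈ B26 i) :
    x * y = y * x := by
  obtain ⟨e, he, h, hxe⟩ := B26_entry hx
  obtain ⟨e', he', h', hye⟩ := B26_entry hy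
  rw [comm_iff, ← hxe, ← hye, l_comm' he he']
  have b := l_chk' he
  have b' := l_chk' he'
  omega

theorem B26_classify (S : Finset M3) (hS : S.card = 8) (_h1 : ∀ x ∈ S, x ≠ 1)
    (h54 : ∀ x ∈ S, Nat.card (centralizer ({x} : Set M3)) = 54)
    (hcomm : ∀ x ∈ S, ∀ y ∈ S, x * y = y * x) : ∃ i, S = B26 i := by
  have hE : ∀ x ∈ S, ∃ e, e ∈ ldat ∧ dx e = cd x := by
    intro x hx
    obtain ⟨k, hk, hc, -, h2⟩ := class_of x
    have hk2 : k = 2 := by
      rw [h54 x hx] at hc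
      have : ∀ k < 12, 54 = cvals.getD k 0 → k = 2 := by decide
      exact this k hk hc
    exact mem_lxs.mp (h2 hk2)
  choose! E hE1 hE2 using hE
  have hne : S.Nonempty := Finset.card_pos.mp (by rw [hS]; norm_num)
  obtain ⟨s0, hs0⟩ := hne
  have key := Cfsg.Agent.Helper52.CGLFIB.same_fibre S (fun x => lp (E x)) (fun x => ll (E x)) (by
    intro x hx y hy
    have := (comm_iff x y).mp (hcomm x hx y hy)
    rw [← hE2 x hx, ← hE2 y hy] at this
    exact (l_comm' (hE1 x hx) (hE1 y hy)).mp this)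
  have b0 := l_chk' (hE1 s0 hs0)
  rcases key with key | key
  · refine ⟨⟨lp (E s0), by omega⟩, Finset.eq_of_subset_of_card_le (fun x hx => ?_)
      (by rw [B26_card, hS])⟩
    exact mem_B26.mpr (mem_Bc.mpr ⟨E x, hE1 x hx, Or.inl (key x hx s0 hs0), hE2 x hx⟩)
  · refine ⟨⟨ll (E s0), by omega⟩, Finset.eq_of_subset_of_card_le (fun x hx => ?_)
      (by rw [B26_card, hS])⟩
    exact mem_B26.mpr (mem_Bc.mpr ⟨E x, hE1 x hx, Or.inr (key x hx s0 hs0), hE2 x hx⟩)

theorem toM_mem_B26 {i : Fin 26} {c : ℕ} (h : c ∈ Bc i) : toM c ∈ B26 i := by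
  rw [mem_B26, cd_toM (Bc_ok i c h)]
  exact h

theorem B26_inj : Function.Injective B26 := by
  intro i j hij
  by_contra hne
  have h := List.all_eq_true.mp (List.all_eq_true.mp b_inj i (List.mem_range.mpr i.2)) j
    (List.mem_range.mpr j.2)
  rw [Bool.or_eq_true] at h
  rcases h with h | h
  · exact hne (Fin.ext (Nat.eq_of_beq_eq_true h))
  · obtain ⟨x, hx, hx'⟩ := List.any_eq_true.mp h
    have h1 : toM x ∈ B26 j := hij ▸ toM_mem_B26 hx
    rw [mem_B26, cd_toM (Bc_ok i x hx)] at h1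
    rw [mem_memL.mpr h1] at hx'
    exact absurd hx' (by decide)

theorem B26_inter (i j : Fin 26) :
    B26 i ∩ B26 j = F ((Bc i).filter fun y => memL (Bc j) y) := by
  ext x
  rw [Finset.mem_inter, mem_B26, mem_B26,
    mem_F (fun c hc => Bc_ok i c (List.mem_of_mem_filter hc)), List.mem_filter, mem_memL]

theorem B26_pair (i : Fin 26) (t : M3) (ht : t ∈ B26 i) :
    ∃ j, t ∈ B26 j ∧ (B26 i ∩ B26 j).card = 2 := by
  have h := List.all_eq_true.mp (List.all_eq_true.mp b_pair i (List.mem_range.mpr i.2)) (cd t)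
    (mem_B26.mp ht)
  obtain ⟨j, hj, h⟩ := List.any_eq_true.mp h
  rw [Bool.and_eq_true] at h
  refine ⟨⟨j, List.mem_range.mp hj⟩, mem_B26.mpr (mem_memL.mp h.1), ?_⟩
  rw [B26_inter, card_F (fun c hc => Bc_ok i c (List.mem_of_mem_filter hc))
    ((Bc_nodup i).filter _)]
  exact Nat.eq_of_beq_eq_true h.2

theorem B26_moves (y : M3) (hy : y ≠ 1) : ∃ i, ∃ t ∈ B26 i, y * t ≠ t * y := by
  obtain ⟨e, he, hx⟩ := mem_dat y
  have h := mv_chk he
  rw [chkMv, Bool.or_eq_true] at h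
  rcases h with h | h
  · exfalso
    apply hy
    apply cd_injective
    rw [← hx, cd_one]
    exact Nat.eq_of_beq_eq_true h
  · obtain ⟨t, ht, h⟩ := List.any_eq_true.mp h
    obtain ⟨e', he', rfl⟩ := mem_lxs.mp ht
    have b := l_chk' he'
    refine ⟨⟨lp e', by omega⟩, toM (dx e'), ?_, ?_⟩
    · exact toM_mem_B26 (mem_Bc.mpr ⟨e', he', Or.inl rfl, rfl⟩)
    · intro hc
      rw [comm_iff, cd_toM b.1, ← hx] at hc
      rw [hc] at h
      exact absurd h (by decide)

theorem B26_small (x : M3) (hx : x ≠ 1) :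
    Nat.card (centralizer ({x} : Set M3)) ^ 2 < Nat.card M3 := by
  obtain ⟨k, hk, hc, h11, -⟩ := class_of x
  have hk11 : k ≠ 11 := fun h => hx (h11 h)
  rw [hc, card_M3]
  have : ∀ k < 12, k ≠ 11 → cvals.getD k 0 ^ 2 < 5616 := by decide
  exact this k hk hk11

theorem B26_rel (i j : Fin 26) : (B26 i ∩ B26 j).Nonempty ↔ relB rows26 i j = true := by
  have h := List.all_eq_true.mp (List.all_eq_true.mp b_rel i (List.mem_range.mpr i.2)) j
    (List.mem_range.mpr j.2)
  rw [eq_of_beq h, List.any_eq_true]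
  constructor
  · rintro ⟨x, hx⟩
    rw [Finset.mem_inter, mem_B26, mem_B26] at hx
    exact ⟨cd x, hx.1, mem_memL.mpr hx.2⟩
  · rintro ⟨c, hc, hc'⟩
    exact ⟨toM c, Finset.mem_inter.mpr ⟨toM_mem_B26 hc, by
      rw [mem_B26, cd_toM (Bc_ok i c hc)]
      exact mem_memL.mp hc'⟩⟩

theorem B26_aut : Nat.card {σ : Equiv.Perm (Fin 26) //
    ∀ i j, (B26 (σ i) ∩ B26 (σ j)).Nonempty ↔ (B26 i ∩ B26 j).Nonempty} ≤ 2 * Nat.card M3 := by
  have e : {σ : Equiv.Perm (Fin 26) //
      ∀ i j, (B26 (σ i) ∩ B26 (σ j)).Nonempty ↔ (B26 i ∩ B26 j).Nonempty} ≃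
      {σ : Equiv.Perm (Fin 26) //
        ∀ i j : Fin 26, relB rows26 (σ i) (σ j) = true ↔ relB rows26 i j = true} :=
    Equiv.subtypeEquivRight fun σ => forall_congr' fun i => forall_congr' fun j => by
      rw [B26_rel, B26_rel]
  rw [Nat.card_congr e, card_M3]
  have h := Cfsg.Agent.Helper52.CGLA3.card_aut_le rows26 26 ⟨0, by norm_num⟩ ⟨1, by norm_num⟩
    ⟨4, by norm_num⟩ ⟨8, by norm_num⟩ steps26 rows_ok fr_ok close_ok
  rw [frames_len] at h
  exact h

/-- the squares of the roots -/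
def sqs : List ℕ := roots.map fun r => mulC r r

theorem sqs_spec : (∀ c ∈ sqs, ∃ r, okC r = true ∧ mulC r r = c) ∧ sqs.Nodup := by
  have h := roots_chk
  rw [chkR, Bool.and_eq_true] at h
  refine ⟨?_, (incr_spec _ 0 h.2).2⟩
  intro c hc
  obtain ⟨r, hr, rfl⟩ := List.mem_map.mp hc
  exact ⟨r, List.all_eq_true.mp h.1 r hr, rfl⟩

theorem sqs_ok : ∀ c ∈ sqs, okC c = true := by
  intro c hc
  obtain ⟨r, hr, rfl⟩ := sqs_spec.1 c hc
  have : mulC r r = cd (toM r * toM r) := by rw [cd_mul, cd_toM hr]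
  rw [this]
  exact okC_cd _

theorem B26_noIdx2 (K : Subgroup M3) : K.index ≠ 2 := by
  refine Cfsg.Agent.Helper52.CGLIDX2.no_index_two (F sqs) ?_ ?_ K
  · rw [card_F sqs_ok sqs_spec.2, card_M3, sqs, List.length_map, roots_len]
    norm_num
  · intro x hx
    rw [mem_F sqs_ok] at hx
    obtain ⟨r, hr, h⟩ := sqs_spec.1 _ hx
    refine ⟨toM r, cd_injective ?_⟩
    rw [cd_mul, cd_toM hr, h]

/-- the family of the elation groups of `SL(3, 3)` -/
noncomputable def dataM3 : Data M3 (Fin 26) where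
  B := B26
  card8 := B26_card
  ne_one := B26_ne_one
  cent := B26_cent
  comm := B26_comm
  classify := B26_classify
  inj := B26_inj
  pair := B26_pair
  moves := B26_moves
  small := B26_small
  aut := B26_aut
  noIdx2 := B26_noIdx2

theorem center_M3 : center M3 = ⊥ := by
  rw [eq_bot_iff]
  intro z hz
  rw [mem_bot]
  by_contra hne
  obtain ⟨i, t, -, h⟩ := B26_moves z hne
  exact h (mem_center_iff.mp hz t).symm

/-- `PSL(3, 3)` is `SL(3, 3)` -/
noncomputable def pslEquiv : Matrix.ProjectiveSpecialLinearGroup (Fin 3) (ZMod 3) ≃* M3 :=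
  (QuotientGroup.quotientMulEquivOfEq center_M3).trans QuotientGroup.quotientBot

/-- the bijection of the elements other than one -/
noncomputable def pslEquiv' :
    {g : Matrix.ProjectiveSpecialLinearGroup (Fin 3) (ZMod 3) // g ≠ 1} ≃ {g : M3 // g ≠ 1} :=
  pslEquiv.toEquiv.subtypeEquiv fun a => by
    show a ≠ 1 ↔ pslEquiv a ≠ 1
    rw [Ne, Ne, MulEquiv.map_eq_one_iff]

theorem pslEquiv'_coe (a : {g : Matrix.ProjectiveSpecialLinearGroup (Fin 3) (ZMod 3) // g ≠ 1}) :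
    ((pslEquiv' a : {g : M3 // g ≠ 1}) : M3) = pslEquiv a.1 := rfl

/-- a finite group with the commuting graph of `PSL(3, 3)` is isomorphic to `PSL(3, 3)` -/
theorem commGraph_PSL33 {H : Type*} [Group H] [Finite H]
    (f : {h : H // h ≠ 1} ≃
      {g : Matrix.ProjectiveSpecialLinearGroup (Fin 3) (ZMod 3) // g ≠ 1})
    (hf : ∀ x y : {h : H // h ≠ 1}, (x : H) * y = y * x ↔
      ((f x) : Matrix.ProjectiveSpecialLinearGroup (Fin 3) (ZMod 3)) * (f y) = (f y) * (f x)) :
    Nonempty (H ≃* Matrix.ProjectiveSpecialLinearGroup (Fin 3) (ZMod 3)) := by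
  obtain ⟨φ⟩ := main dataM3 (f.trans pslEquiv') (by
    intro x y
    rw [hf x y]
    show _ ↔ ((pslEquiv' (f x) : {g : M3 // g ≠ 1}) : M3) * (pslEquiv' (f y) : {g : M3 // g ≠ 1}) =
      (pslEquiv' (f y) : {g : M3 // g ≠ 1}) * (pslEquiv' (f x) : {g : M3 // g ≠ 1})
    rw [pslEquiv'_coe, pslEquiv'_coe, ← map_mul, ← map_mul, pslEquiv.injective.eq_iff])
  exact ⟨φ.trans pslEquiv.symm⟩

end Cfsg.Agent.Helper7.CGL
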