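/-
Helper7 library: kernel-checked certificates for the centraliser of the involution `e` of `He`: the closure table, blocks 0 to 6.
-/
import Cfsg.Agent.Helper7.HeChkDefs

set_option autoImplicit false

namespace Cfsg.Agent.Helper7.HeC

theorem row_0 : rgAllF rowChk 10 (2 ^ 10 * 0) = true := by decide +kernel
theorem row_1 : rgAllF rowChk 10 (2 ^ 10 * 1) = true := by decide +kernel
theorem row_2 : rgAllF rowChk 10 (2 ^ 10 * 2) = true := by decide +kernel
theorem row_3 : rgAllF rowChk 10 (2 ^ 10 * 3) = true := by decide +kernel
theorem row_4 : rgAllF rowChk 10 (2 ^ 10 * 4) = true := by decide +kernel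
theorem row_5 : rgAllF rowChk 10 (2 ^ 10 * 5) = true := by decide +kernel
theorem row_6 : rgAllF rowChk 10 (2 ^ 10 * 6) = true := by decide +kernel

end Cfsg.Agent.Helper7.HeC
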