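/-
Helper7 library: kernel-checked certificates for the centraliser of the involution `e` of `He`: the closure table, blocks 7 to 13.
-/
import Cfsg.Agent.Helper7.HeChkDefs

set_option autoImplicit false

namespace Cfsg.Agent.Helper7.HeC

theorem row_7 : rgAllF rowChk 10 (2 ^ 10 * 7) = true := by decide +kernel
theorem row_8 : rgAllF rowChk 10 (2 ^ 10 * 8) = true := by decide +kernel
theorem row_9 : rgAllF rowChk 10 (2 ^ 10 * 9) = true := by decide +kernel
theorem row_10 : rgAllF rowChk 10 (2 ^ 10 * 10) = true := by decide +kernel
theorem row_11 : rgAllF rowChk 10 (2 ^ 10 * 11) = true := by decide +kernel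
theorem row_12 : rgAllF rowChk 10 (2 ^ 10 * 12) = true := by decide +kernel
theorem row_13 : rgAllF rowChk 10 (2 ^ 10 * 13) = true := by decide +kernel

end Cfsg.Agent.Helper7.HeC
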