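/-
Helper7 library: kernel-checked certificates for the centraliser of the involution `e` of `He`: the closure table, blocks 14 to 20.
-/
import Cfsg.Agent.Helper7.HeChkDefs

set_option autoImplicit false

namespace Cfsg.Agent.Helper7.HeC

theorem row_14 : rgAllF rowChk 10 (2 ^ 10 * 14) = true := by decide +kernel
theorem row_15 : rgAllF rowChk 10 (2 ^ 10 * 15) = true := by decide +kernel
theorem row_16 : rgAllF rowChk 10 (2 ^ 10 * 16) = true := by decide +kernel
theorem row_17 : rgAllF rowChk 10 (2 ^ 10 * 17) = true := by decide +kernel
theorem row_18 : rgAllF rowChk 10 (2 ^ 10 * 18) = true := by decide +kernel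
theorem row_19 : rgAllF rowChk 10 (2 ^ 10 * 19) = true := by decide +kernel
theorem row_20 : rgAllF rowChk 10 (2 ^ 10 * 20) = true := by decide +kernel

end Cfsg.Agent.Helper7.HeC
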