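/-
Helper7 library: the centraliser of the involution `e` of `He` is isomorphic to the centraliser of
a transvection in `SL(5, 2)`: the closure table of the subgroup of `He × SL(5, 2)` generated by
seven pairs of commuting involutions is the graph of an isomorphism.
-/
import Cfsg.Agent.Helper7.HeSide
import Cfsg.Agent.Helper7.HeChk2
import Cfsg.Agent.Helper7.HeChk3
import Cfsg.Agent.Helper7.HeChk4

set_option autoImplicit false

namespace Cfsg.Agent.Helper7.HeC

open Cfsg.Agent.Helper28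

/-- the special linear group of degree 5 over the field of two elements -/
abbrev SL5 := Matrix.SpecialLinearGroup (Fin 5) (ZMod 2)

theorem row_all (j : ℕ) (hj : j < 21504) : rowChk j = true := by
  refine rgF_cover rowChk 10 21 (fun k hk => ?_) j (by norm_num; omega)
  interval_cases k
  · exact row_0
  · exact row_1
  · exact row_2
  · exact row_3
  · exact row_4
  · exact row_5
  · exact row_6
  · exact row_7
  · exact row_8
  · exact row_9
  · exact row_10
  · exact row_11
  · exact row_12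
  · exact row_13
  · exact row_14
  · exact row_15
  · exact row_16
  · exact row_17
  · exact row_18
  · exact row_19
  · exact row_20

/-- the fields of the rows of the table -/
noncomputable def A1 (j : ℕ) : ℕ := fA1 (rowN j)
noncomputable def A2 (j : ℕ) : ℕ := fA2 (rowN j)
noncomputable def A3 (j : ℕ) : ℕ := fA3 (rowN j)
noncomputable def MC (j : ℕ) : ℕ := fMC (rowN j)
noncomputable def tbF (j i : ℕ) : ℕ := fTb (rowN j) i
noncomputable def parF (j : ℕ) : ℕ := fPar (rowN j)
noncomputable def genF (j : ℕ) : ℕ := fGen (rowN j)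
noncomputable def depF (j : ℕ) : ℕ := fDep (rowN j)

theorem stepChk_spec (j i : ℕ) (h : stepChk (rowN j) i = true) :
    tbF j i < 21504 ∧ walkA HEN.T (WW i) (A1 j) = A1 (tbF j i) ∧
      walkA HEN.T (WW i) (A2 j) = A2 (tbF j i) ∧ walkA HEN.T (WW i) (A3 j) = A3 (tbF j i) ∧
      mapc (FF i) (MC j) = MC (tbF j i) := by
  unfold stepChk at h
  rw [natLetB_eq, Bool.and_eq_true, natLetB_eq] at h
  obtain ⟨h1, h2⟩ := h
  unfold genChk at h2
  rw [Bool.and_eq_true, Bool.and_eq_true, Bool.and_eq_true] at h2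
  unfold A1 A2 A3 MC tbF
  exact ⟨Nat.blt_eq.mp h1, Nat.eq_of_beq_eq_true h2.1, Nat.eq_of_beq_eq_true h2.2.1,
    Nat.eq_of_beq_eq_true h2.2.2.1, Nat.eq_of_beq_eq_true h2.2.2.2⟩

theorem rowChk_spec {j : ℕ} (hj : j < 21504) :
    (∀ i < 7, tbF j i < 21504 ∧ walkA HEN.T (WW i) (A1 j) = A1 (tbF j i) ∧
      walkA HEN.T (WW i) (A2 j) = A2 (tbF j i) ∧ walkA HEN.T (WW i) (A3 j) = A3 (tbF j i) ∧
      mapc (FF i) (MC j) = MC (tbF j i)) ∧
    (j + 1 < 21504 → MC j < MC (j + 1)) ∧
    (j ≠ 9472 → parF j < 21504 ∧ genF j < 7 ∧ tbF (parF j) (genF j) = j ∧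
      depF (parF j) < depF j) ∧
    (A1 j = 9 → A2 j = 111 → A3 j = 0 → j = 9472) := by
  have h := row_all j hj
  unfold rowChk at h
  rw [Bool.or_eq_true] at h
  rcases h with h | h
  · exact absurd (Nat.le_of_ble_eq_true h) (by omega)
  rw [natLetB_eq] at h
  simp only [Bool.and_eq_true] at h
  obtain ⟨⟨s0, s1, s2, s3, s4, s5, s6⟩, hm, hp, hb⟩ := h
  refine ⟨?_, ?_, ?_, ?_⟩
  · intro i hi
    interval_cases i
    · exact stepChk_spec j 0 s0
    · exact stepChk_spec j 1 s1
    · exact stepChk_spec j 2 s2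
    · exact stepChk_spec j 3 s3
    · exact stepChk_spec j 4 s4
    · exact stepChk_spec j 5 s5
    · exact stepChk_spec j 6 s6
  · intro hj1
    rw [Bool.or_eq_true] at hm
    rcases hm with hm | hm
    · exact absurd (Nat.le_of_ble_eq_true hm) (by omega)
    · exact Nat.blt_eq.mp hm
  · intro hne
    rw [Bool.or_eq_true] at hp
    rcases hp with hp | hp
    · exact absurd (Nat.eq_of_beq_eq_true hp) hne
    · rw [natLetB_eq, Bool.and_eq_true, Bool.and_eq_true, natLetB_eq, Bool.and_eq_true] at hp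
      unfold parF genF tbF depF
      exact ⟨Nat.blt_eq.mp hp.1, Nat.blt_eq.mp hp.2.1, Nat.eq_of_beq_eq_true hp.2.2.1,
        Nat.blt_eq.mp hp.2.2.2⟩
  · intro e1 e2 e3
    rw [Bool.or_eq_true] at hb
    rcases hb with hb | hb
    · exact Nat.eq_of_beq_eq_true hb
    · exfalso
      unfold A1 at e1
      unfold A2 at e2
      unfold A3 at e3
      rw [e1, e2, e3] at hb
      exact absurd hb (by decide)

theorem A1_base : A1 9472 = 9 := by decide +kernel
theorem A2_base : A2 9472 = 111 := by decide +kernel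
theorem A3_base : A3 9472 = 0 := by decide +kernel
theorem MC_base : MC 9472 = 17043521 := by decide +kernel

/-- the generators of the graph -/
noncomputable def gK (i : ℕ) : Cfsg.Spor.He × SL5 := (cG i, MS i)

/-- the row of a pair: the images of the base points, and the code of the matrix -/
def RowOf (γ : Cfsg.Spor.He × SL5) (j : ℕ) : Prop :=
  pt γ.1 9 = A1 j ∧ pt γ.1 111 = A2 j ∧ pt γ.1 0 = A3 j ∧ mcode (γ.2 : M5) = MC j

theorem row_step (i : ℕ) (hi : i < 7) (j : ℕ) (hj : j < 21504) (δ : Cfsg.Spor.He × SL5)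
    (h : RowOf δ j) : tbF j i < 21504 ∧ RowOf (gK i * δ) (tbF j i) := by
  obtain ⟨h1, h2, h3, h4⟩ := h
  obtain ⟨t0, t1, t2, t3, t4⟩ := (rowChk_spec hj).1 i hi
  have l1 : A1 j < 8330 := by rw [← h1]; exact pt_lt _ (by norm_num)
  have l2 : A2 j < 8330 := by rw [← h2]; exact pt_lt _ (by norm_num)
  have l3 : A3 j < 8330 := by rw [← h3]; exact pt_lt _ (by norm_num)
  refine ⟨t0, ?_, ?_, ?_, ?_⟩
  · show pt (HE.wv (WW i) * δ.1) 9 = _
    rw [pt_mul, h1, pt_wv _ (WW_let i hi) l1]
    exact t1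
  · show pt (HE.wv (WW i) * δ.1) 111 = _
    rw [pt_mul, h2, pt_wv _ (WW_let i hi) l2]
    exact t2
  · show pt (HE.wv (WW i) * δ.1) 0 = _
    rw [pt_mul, h3, pt_wv _ (WW_let i hi) l3]
    exact t3
  · show mcode (MM i * (δ.2 : M5)) = _
    rw [mcode_mul _ _ (FF i) (MM_tab i hi), h4]
    exact t4

/-- The centraliser of the involution `e` of `He` is isomorphic to the centraliser of a
transvection in `SL(5, 2)`. -/
theorem cent_iso (s : SL5) (hs : (s : M5) = Matrix.transvection 0 1 1) :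
    Nonempty (↥(Subgroup.centralizer ({zE} : Set Cfsg.Spor.He)) ≃*
      ↥(Subgroup.centralizer ({s} : Set SL5))) := by
  have hfin := HE.finite
  have hfin2 : Finite SL5 := Finite.of_injective (fun N : SL5 => (N : M5)) Subtype.val_injective
  have hR0 : RowOf 1 9472 := by
    refine ⟨?_, ?_, ?_, ?_⟩
    · rw [Prod.fst_one, pt_one]; exact A1_base.symm
    · rw [Prod.fst_one, pt_one]; exact A2_base.symm
    · rw [Prod.fst_one, pt_one]; exact A3_base.symm
    · rw [Prod.snd_one, Matrix.SpecialLinearGroup.coe_one, mcode_one]; exact MC_base.symm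
  have hgsq : ∀ i < 7, gK i * gK i = 1 := fun i hi => Prod.ext (cG_sq i hi) (MS_sq i)
  have T1 := table_T1 gK 7 21504 hgsq RowOf tbF 9472 (by norm_num) hR0 row_step
  have T2 := table_T2 gK 7 21504 RowOf tbF 9472 hR0 row_step parF genF depF
    (fun j hj hne => (rowChk_spec hj).2.2.1 hne)
  have hmono : ∀ j, j + 1 < 21504 → MC j < MC (j + 1) :=
    fun j hj => (rowChk_spec (show j < 21504 by omega)).2.1 hj
  have hdist : ∀ γ : Cfsg.Spor.He × SL5, ∀ j < 21504, ∀ j' < 21504,
      RowOf γ j → RowOf γ j' → j = j' := by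
    intro γ j hj j' hj' h h'
    exact eq_of_step MC 21504 hmono j j' hj hj' (h.2.2.2.symm.trans h'.2.2.2)
  have hcard : 21504 ≤ Nat.card (Subgroup.closure (gK '' {i | i < 7})) :=
    table_card _ 21504 RowOf T2 hdist
  have hle : Subgroup.closure (gK '' {i | i < 7}) ≤
      (Subgroup.centralizer ({zE} : Set Cfsg.Spor.He)).prod
        (Subgroup.centralizer ({s} : Set SL5)) := by
    apply (Subgroup.closure_le _).mpr
    rintro _ ⟨i, hi, rfl⟩
    exact Subgroup.mem_prod.mpr ⟨cG_mem i hi, MS_mem s hs i⟩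
  refine graph_equiv (Subgroup.closure (gK '' {i | i < 7})) _ _ 21504 ?_ ?_ ?_ ?_ hcard
    card_centE_le (card_cent_le s hs)
  · intro γ hγ; exact (Subgroup.mem_prod.mp (hle hγ)).1
  · intro γ hγ; exact (Subgroup.mem_prod.mp (hle hγ)).2
  · intro γ hγ h1
    obtain ⟨j, hj, r1, r2, r3, r4⟩ := T1 γ hγ
    rw [h1, pt_one] at r1 r2 r3
    have hj0 := (rowChk_spec hj).2.2.2 r1.symm r2.symm r3.symm
    rw [hj0, MC_base] at r4
    apply Subtype.ext
    apply mcode_inj
    rw [r4, Matrix.SpecialLinearGroup.coe_one, mcode_one]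
  · intro γ hγ h2
    obtain ⟨j, hj, r1, r2, r3, r4⟩ := T1 γ hγ
    rw [h2, Matrix.SpecialLinearGroup.coe_one, mcode_one] at r4
    have hj0 : j = 9472 :=
      eq_of_step MC 21504 hmono j 9472 hj (by norm_num) (r4.symm.trans MC_base.symm)
    rw [hj0] at r1 r2 r3
    exact eq_one_of_base _ (r1.trans A1_base) (r2.trans A2_base) (r3.trans A3_base)

end Cfsg.Agent.Helper7.HeC
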