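/-
Helper7 library: kernel-checked certificates for the centraliser of an involution of `J₃` (the lines fixed by the involution, part 1).
-/
import Cfsg.Agent.Helper7.J3Data6

set_option autoImplicit false

namespace Cfsg.Agent.Helper7.J3

open Cfsg

theorem ivFix_0 : rgAllF ivFixChk 10 (1024 * 0) = true := by decide +kernel
theorem ivFix_1 : rgAllF ivFixChk 10 (1024 * 1) = true := by decide +kernel
theorem ivFix_2 : rgAllF ivFixChk 10 (1024 * 2) = true := by decide +kernel
theorem ivFix_3 : rgAllF ivFixChk 10 (1024 * 3) = true := by decide +kernel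
theorem ivFix_4 : rgAllF ivFixChk 10 (1024 * 4) = true := by decide +kernel
theorem ivFix_5 : rgAllF ivFixChk 10 (1024 * 5) = true := by decide +kernel
theorem ivFix_6 : rgAllF ivFixChk 10 (1024 * 6) = true := by decide +kernel
theorem ivFix_7 : rgAllF ivFixChk 10 (1024 * 7) = true := by decide +kernel
theorem ivFix_8 : rgAllF ivFixChk 10 (1024 * 8) = true := by decide +kernel
theorem ivFix_9 : rgAllF ivFixChk 10 (1024 * 9) = true := by decide +kernel
theorem ivFix_10 : rgAllF ivFixChk 10 (1024 * 10) = true := by decide +kernel
theorem ivFix_11 : rgAllF ivFixChk 10 (1024 * 11) = true := by decide +kernel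

end Cfsg.Agent.Helper7.J3
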