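/-
Helper7 library: kernel-checked certificates for the centraliser of an involution of `J₃` (the lines fixed by the involution, part 2).
-/
import Cfsg.Agent.Helper7.J3Data6

set_option autoImplicit false

namespace Cfsg.Agent.Helper7.J3

open Cfsg

theorem ivFix_12 : rgAllF ivFixChk 10 (1024 * 12) = true := by decide +kernel
theorem ivFix_13 : rgAllF ivFixChk 10 (1024 * 13) = true := by decide +kernel
theorem ivFix_14 : rgAllF ivFixChk 10 (1024 * 14) = true := by decide +kernel
theorem ivFix_15 : rgAllF ivFixChk 10 (1024 * 15) = true := by decide +kernel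
theorem ivFix_16 : rgAllF ivFixChk 10 (1024 * 16) = true := by decide +kernel
theorem ivFix_17 : rgAllF ivFixChk 10 (1024 * 17) = true := by decide +kernel
theorem ivFix_18 : rgAllF ivFixChk 10 (1024 * 18) = true := by decide +kernel
theorem ivFix_19 : rgAllF ivFixChk 10 (1024 * 19) = true := by decide +kernel
theorem ivFix_20 : rgAllF ivFixChk 10 (1024 * 20) = true := by decide +kernel
theorem ivFix_21 : rgAllF ivFixChk 10 (1024 * 21) = true := by decide +kernel
theorem ivFix_22 : rgAllF ivFixChk 10 (1024 * 22) = true := by decide +kernel

end Cfsg.Agent.Helper7.J3
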