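/-
Helper7 library: kernel-checked certificates for the centraliser of an involution of `J₃` (the multiplication table of a Sylow 2-subgroup, part 2).
-/
import Cfsg.Agent.Helper7.J3Data6

set_option autoImplicit false

namespace Cfsg.Agent.Helper7.J3

open Cfsg

theorem ivMul_8 : rgAllF ivMulChk 10 (1024 * 8) = true := by decide +kernel
theorem ivMul_9 : rgAllF ivMulChk 10 (1024 * 9) = true := by decide +kernel
theorem ivMul_10 : rgAllF ivMulChk 10 (1024 * 10) = true := by decide +kernel
theorem ivMul_11 : rgAllF ivMulChk 10 (1024 * 11) = true := by decide +kernel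
theorem ivMul_12 : rgAllF ivMulChk 10 (1024 * 12) = true := by decide +kernel
theorem ivMul_13 : rgAllF ivMulChk 10 (1024 * 13) = true := by decide +kernel
theorem ivMul_14 : rgAllF ivMulChk 10 (1024 * 14) = true := by decide +kernel
theorem ivMul_15 : rgAllF ivMulChk 10 (1024 * 15) = true := by decide +kernel

end Cfsg.Agent.Helper7.J3
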