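/-
Helper7 library: kernel-checked certificates for the centraliser of an involution of `J₃` (the small checks).
-/
import Cfsg.Agent.Helper7.J3Data6

set_option autoImplicit false

namespace Cfsg.Agent.Helper7.J3

open Cfsg

theorem ivFixOK_all : ivFixL.all ivFixOK = true := by decide +kernel

theorem ivP_all : rgAllF ivPChk 7 0 = true := by decide +kernel

theorem ivNy_all : rgAllF ivNyChk 5 0 = true := by decide +kernel

theorem ivConj_all : ivConjL.all ivConjOK = true := by decide +kernel

theorem ivInvCov_all : rgAllF ivInvCov 7 0 = true := by decide +kernel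

theorem ivScal_all : rgAllF ivScalChk 7 0 = true := by decide +kernel

theorem ivDist_all : rgAllF ivDistChk 14 0 = true := by decide +kernel

theorem ivTC_eq : sC ivJt = ivTC := by decide +kernel

theorem ivYC_eq : sC ivJy = ivYC := by decide +kernel

theorem ivY2C_eq : sC ivJy2 = ivY2C := by decide +kernel

theorem ivP0 : ivPC 0 = idC := by decide +kernel

theorem ivP1 : ivPC 1 = ivTC := by decide +kernel

theorem ivHy_eq : ivHyC = mulF (uC ivHyI) (sC ivHyJ) := by decide +kernel

theorem ivHy_cube : mulF (mulF ivHyC ivHyC) ivHyC = idC := by decide +kernel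

theorem ivHy_xy : mulF (mulF (mulF (mulF (mulF (ivPC 32) ivHyC) (mulF (ivPC 32) ivHyC))
    (mulF (ivPC 32) ivHyC)) (mulF (ivPC 32) ivHyC)) (mulF (ivPC 32) ivHyC) = idC := by
  decide +kernel

theorem ivHy_t : mulF ivHyC ivTC = mulF ivTC ivHyC := by decide +kernel

theorem ivT_sq' : mulF ivTC ivTC = idC := by decide +kernel

/-- The two conjugates of the element of order 3 are permuted by the generators of the
stabiliser. -/
theorem ivY_gen : ∀ h, h < 2 →
    (mulF ivYC (hC h) = mulF (hC h) ivYC ∨ mulF ivYC (hC h) = mulF (hC h) ivY2C) ∧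
      (mulF ivY2C (hC h) = mulF (hC h) ivYC ∨ mulF ivY2C (hC h) = mulF (hC h) ivY2C) := by
  decide +kernel

theorem ivY_t : mulF ivTC ivYC = mulF ivYC ivTC ∧ mulF ivTC ivY2C = mulF ivY2C ivTC := by
  decide +kernel

theorem ivT_entry : bitN ivTC 0 = 1 ∧ bitN ivTC 9 = 0 := by decide +kernel

theorem ivBounds : ivJt < 6480 ∧ ivJy < 6480 ∧ ivJy2 < 6480 ∧ ivHyI < 23256 ∧ ivHyJ < 6480 := by
  decide

theorem ivFixL_inner : (ivFixL.filter fun e => decide (e.2.2 < 6480)).length = 40 := by
  decide +kernel

theorem ivKL_length : ivKL.length = 144 := by decide +kernel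

end Cfsg.Agent.Helper7.J3
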