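/-
Helper7 library: the centraliser of an involution `t` in the triple cover of the Janko group
`J₃`: every element commuting with `t` is a product `u_i s_r s_k` with `i` one of 40 lines fixed
by `t` and `k` one of the 144 elements of the line stabiliser commuting with `t`; hence the
centraliser has at most 5760 elements.
-/
import Cfsg.Agent.Helper7.J3Chk14a
import Cfsg.Agent.Helper7.J3Chk14b
import Cfsg.Agent.Helper7.J3Chk14c
import Cfsg.Agent.Helper7.J3Chk14f
import Cfsg.Agent.Helper7.J3OutQ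

set_option autoImplicit false

namespace Cfsg.Agent.Helper7.J3

open Cfsg

/-! ### The checks on all indices -/

theorem ivFix_all (i : ℕ) (hi : i < 23256) : ivFixChk i = true := by
  refine rg_cover ivFixChk 10 23 (fun k hk => ?_) i (by norm_num; omega)
  rw [← rgAllF_eq]
  interval_cases k
  · exact ivFix_0
  · exact ivFix_1
  · exact ivFix_2
  · exact ivFix_3
  · exact ivFix_4
  · exact ivFix_5
  · exact ivFix_6
  · exact ivFix_7
  · exact ivFix_8
  · exact ivFix_9
  · exact ivFix_10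
  · exact ivFix_11
  · exact ivFix_12
  · exact ivFix_13
  · exact ivFix_14
  · exact ivFix_15
  · exact ivFix_16
  · exact ivFix_17
  · exact ivFix_18
  · exact ivFix_19
  · exact ivFix_20
  · exact ivFix_21
  · exact ivFix_22

theorem ivComm_all (j : ℕ) (hj : j < 6480) : ivCommChk j = true := by
  refine rg_cover ivCommChk 10 7 (fun k hk => ?_) j (by norm_num; omega)
  rw [← rgAllF_eq]
  interval_cases k
  · exact ivComm_0
  · exact ivComm_1
  · exact ivComm_2
  · exact ivComm_3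
  · exact ivComm_4
  · exact ivComm_5
  · exact ivComm_6

theorem ivFixOK_spec {e : ℕ × ℕ × ℕ} (he : e ∈ ivFixL) :
    e.1 < 23256 ∧ e.2.1 < 6480 ∧ mulC ivTC (uC e.1) = mulC (uC e.1) (sC e.2.1) ∧
      (e.2.2 < 6480 → mulC (sC e.2.1) (sC e.2.2) = mulC (sC e.2.2) ivTC) ∧
      (¬ e.2.2 < 6480 → mulC (sC e.2.1) ivYC ≠ mulC ivYC (sC e.2.1)) := by
  have h := List.all_eq_true.mp ivFixOK_all e he
  rw [ivFixOK, Bool.and_eq_true, Bool.and_eq_true, Bool.and_eq_true, mulF_eq, mulF_eq, mulF_eq,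
    mulF_eq, mulF_eq, mulF_eq] at h
  refine ⟨Nat.le_of_ble_eq_true h.1, Nat.le_of_ble_eq_true h.2.1,
    Nat.eq_of_beq_eq_true h.2.2.1, fun hr => ?_, fun hr => ?_⟩
  · have h4 := h.2.2.2
    have hb : Nat.blt e.2.2 6480 = true := Nat.ble_eq_true_of_le hr
    rw [hb, cond_true] at h4
    exact Nat.eq_of_beq_eq_true h4
  · have h4 := h.2.2.2
    have hb : Nat.blt e.2.2 6480 = false := by
      rw [← Bool.not_eq_true]; intro h'; exact hr (Nat.le_of_ble_eq_true h')
    rw [hb, cond_false] at h4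
    intro h5
    rw [h5, Nat.beq_refl] at h4
    exact Bool.false_ne_true h4

section
variable {F : Type*} [Field F] {ω : F}

/-- The involution. -/
noncomputable def ivT (H : Ctx ω) : GL Spor.F9 F := Sg H ivJt

theorem ivT_code (H : Ctx ω) : IsCode ω (ivT H) ivTC := by
  have h := Sg_code H ivBounds.1
  rwa [ivTC_eq] at h

theorem ivT_mem (H : Ctx ω) : ivT H ∈ Spor.threeJ3 F ω := Sg_mem3 H _

theorem ivT_sq (H : Ctx ω) : ivT H * ivT H = 1 := by
  have c := IsCode.mul H.two H.om (ivT_code H) (ivT_code H)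
  rw [← mulF_eq, ivT_sq'] at c
  exact IsCode.eq c isCode_one

/-- The two conjugates of the element of order 3 of the stabiliser. -/
noncomputable def ivYG (H : Ctx ω) : GL Spor.F9 F := Sg H ivJy
noncomputable def ivY2G (H : Ctx ω) : GL Spor.F9 F := Sg H ivJy2

theorem ivYG_code (H : Ctx ω) : IsCode ω (ivYG H) ivYC := by
  have h := Sg_code H ivBounds.2.1
  rwa [ivYC_eq] at h

theorem ivY2G_code (H : Ctx ω) : IsCode ω (ivY2G H) ivY2C := by
  have h := Sg_code H ivBounds.2.2.1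
  rwa [ivY2C_eq] at h

theorem ivT_comm_Y (H : Ctx ω) {v : GL Spor.F9 F} (hv : v = ivYG H ∨ v = ivY2G H) :
    ivT H * v = v * ivT H := by
  rcases hv with rfl | rfl
  · have c1 := IsCode.mul H.two H.om (ivT_code H) (ivYG_code H)
    have c2 := IsCode.mul H.two H.om (ivYG_code H) (ivT_code H)
    rw [← mulF_eq] at c1 c2
    rw [ivY_t.1] at c1
    exact IsCode.eq c1 c2
  · have c1 := IsCode.mul H.two H.om (ivT_code H) (ivY2G_code H)
    have c2 := IsCode.mul H.two H.om (ivY2G_code H) (ivT_code H)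
    rw [← mulF_eq] at c1 c2
    rw [ivY_t.2] at c1
    exact IsCode.eq c1 c2

/-- The generators of the stabiliser permute the two conjugates. -/
theorem ivY_gen_conj (H : Ctx ω) {h : ℕ} (hh : h < 2) {v : GL Spor.F9 F}
    (hv : v = ivYG H ∨ v = ivY2G H) :
    (hG H h)⁻¹ * v * hG H h = ivYG H ∨ (hG H h)⁻¹ * v * hG H h = ivY2G H := by
  have key : ∀ {a b : GL Spor.F9 F} {ca cb : ℕ}, IsCode ω a ca → IsCode ω b cb →
      mulF ca (hC h) = mulF (hC h) cb → (hG H h)⁻¹ * a * hG H h = b := by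
    intro a b ca cb ha hb e
    have c1 := IsCode.mul H.two H.om ha (hG_code H h)
    have c2 := IsCode.mul H.two H.om (hG_code H h) hb
    rw [← mulF_eq] at c1 c2
    rw [e] at c1
    have e2 : a * hG H h = hG H h * b := IsCode.eq c1 c2
    rw [mul_assoc, e2]; group
  obtain ⟨g1, g2⟩ := ivY_gen h hh
  rcases hv with rfl | rfl
  · rcases g1 with e | e
    · exact Or.inl (key (ivYG_code H) (ivYG_code H) e)
    · exact Or.inr (key (ivYG_code H) (ivY2G_code H) e)
  · rcases g2 with e | e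
    · exact Or.inl (key (ivY2G_code H) (ivYG_code H) e)
    · exact Or.inr (key (ivY2G_code H) (ivY2G_code H) e)

/-- The elements of the stabiliser permute the two conjugates. -/
theorem ivY_conj (H : Ctx ω) : ∀ d j, j < 6480 → e16 j3DepS j = d → ∀ v : GL Spor.F9 F,
    (v = ivYG H ∨ v = ivY2G H) →
      ((Sg H j)⁻¹ * v * Sg H j = ivYG H ∨ (Sg H j)⁻¹ * v * Sg H j = ivY2G H) := by
  intro d
  induction d using Nat.strong_induction_on with
  | _ d ih =>
    intro j hj hd v hv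
    by_cases hr : j = jId
    · subst hr
      rw [Sg_one, inv_one, one_mul, mul_one]
      exact hv
    · obtain ⟨h1, h2, h3, h4⟩ := chk6_spec hj hr
      have e1 : Sg H j = hG H (e16 j3GenS j) * Sg H (e16 j3ParS j) := by
        rw [hG_mul_Sg H h3 h2, h4]
      have e2 : (Sg H j)⁻¹ * v * Sg H j = (Sg H (e16 j3ParS j))⁻¹ *
          ((hG H (e16 j3GenS j))⁻¹ * v * hG H (e16 j3GenS j)) * Sg H (e16 j3ParS j) := by
        rw [e1]; group
      rw [e2]
      exact ih _ (hd ▸ h1) _ h2 rfl _ (ivY_gen_conj H h3 hv)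

/-- A line fixed by an element of the centraliser of `t` is in the list. -/
theorem ivFix_of_comm (H : Ctx ω) {i j : ℕ} (hi : i < 23256) (hj : j < 6480)
    (h : Ug H i * Sg H j * ivT H = ivT H * (Ug H i * Sg H j)) : ∃ e ∈ ivFixL, e.1 = i := by
  have hT00 : (Sg H ivJt : Matrix Spor.F9 Spor.F9 F) 0 0 = 1 := by
    have h1 := ivT_code H 0 0
    rw [ix_zero, Nat.mul_zero, Nat.zero_add, Nat.zero_add, Nat.add_zero, ivT_entry.1,
      ivT_entry.2, el_10] at h1
    exact h1
  have hS00 := (Sg_col H hj).1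
  have hcol : ∀ w, ((ivT H : Matrix Spor.F9 Spor.F9 F) *
      (Ug H i : Matrix Spor.F9 Spor.F9 F)) w 0 = (Ug H i : Matrix Spor.F9 Spor.F9 F) w 0 := by
    intro w
    have e0 := congrArg (fun g : GL Spor.F9 F => (g : Matrix Spor.F9 Spor.F9 F)) h
    simp only [Units.val_mul] at e0
    have e1 : ((Ug H i : Matrix Spor.F9 Spor.F9 F) * (Sg H j : Matrix Spor.F9 Spor.F9 F) *
        (Sg H ivJt : Matrix Spor.F9 Spor.F9 F)) w 0 =
        ((ivT H : Matrix Spor.F9 Spor.F9 F) * (Ug H i : Matrix Spor.F9 Spor.F9 F) *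
          (Sg H j : Matrix Spor.F9 Spor.F9 F)) w 0 := by
      rw [Matrix.mul_assoc (ivT H : Matrix Spor.F9 Spor.F9 F), ← e0]; rfl
    rw [col_mul_Sg H _ ivBounds.1 w, col_mul_Sg H _ hj w, col_mul_Sg H _ hj w, hT00,
      mul_one] at e1
    exact (mul_right_cancel₀ hS00 e1).symm
  have c1 := IsCode.mul H.two H.om (ivT_code H) (Ug_code H hi)
  have e3 : skC (mulC ivTC (uC i)) = skC (uC i) :=
    skC_eq_of_col H.two H.om c1 (Ug_code H hi) (fun w => by rw [Units.val_mul]; exact hcol w)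
  have h4 := ivFix_all i hi
  rw [ivFixChk, ble_false hi, Bool.false_or, natLetB_eq, mulF_eq, e3, Nat.beq_refl,
    Bool.not_true, Bool.false_or] at h4
  obtain ⟨e, he, h5⟩ := List.any_eq_true.mp h4
  exact ⟨e, he, Nat.eq_of_beq_eq_true h5⟩

/-- The centraliser of `t` in the triple cover. -/
theorem ivCent_cover (H : Ctx ω) {c : GL Spor.F9 F} (hc : c ∈ Spor.threeJ3 F ω)
    (hct : c * ivT H = ivT H * c) :
    ∃ e ∈ ivFixL, ∃ k ∈ ivKL, e.2.2 < 6480 ∧ c = Ug H e.1 * Sg H e.2.2 * Sg H k := by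
  obtain ⟨i, j, hi, hj, rfl⟩ := coords H hc
  obtain ⟨e, he, rfl⟩ := ivFix_of_comm H hi hj hct
  obtain ⟨h1, h2, h3, h4, h5⟩ := ivFixOK_spec he
  have hTU : ivT H * Ug H e.1 = Ug H e.1 * Sg H e.2.1 := by
    have c1 := IsCode.mul H.two H.om (ivT_code H) (Ug_code H h1)
    rw [h3] at c1
    exact IsCode.eq c1 (IsCode.mul H.two H.om (Ug_code H h1) (Sg_code H h2))
  have hSS : Sg H e.2.1 * Sg H j = Sg H j * ivT H := by
    have e1 : Ug H e.1 * (Sg H e.2.1 * Sg H j) = Ug H e.1 * (Sg H j * ivT H) := by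
      rw [← mul_assoc, ← hTU, mul_assoc, ← mul_assoc (Ug H e.1), hct]
    exact mul_left_cancel e1
  by_cases hr : e.2.2 < 6480
  · have hSr : Sg H e.2.1 * Sg H e.2.2 = Sg H e.2.2 * ivT H := by
      have c1 := IsCode.mul H.two H.om (Sg_code H h2) (Sg_code H hr)
      rw [h4 hr] at c1
      exact IsCode.eq c1 (IsCode.mul H.two H.om (Sg_code H hr) (ivT_code H))
    have hk : (Sg H e.2.2)⁻¹ * Sg H j ∈ SS H :=
      (SS H).mul_mem ((SS H).inv_mem (Sg_mem_SS H hr)) (Sg_mem_SS H hj)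
    obtain ⟨k, hk, hkeq⟩ := hk
    have hcomm : Sg H k * ivT H = ivT H * Sg H k := by
      rw [← hkeq]
      calc (Sg H e.2.2)⁻¹ * Sg H j * ivT H = (Sg H e.2.2)⁻¹ * (Sg H j * ivT H) := mul_assoc _ _ _
        _ = (Sg H e.2.2)⁻¹ * (Sg H e.2.1 * Sg H j) := by rw [hSS]
        _ = (Sg H e.2.2)⁻¹ * (Sg H e.2.1 * Sg H e.2.2) * ((Sg H e.2.2)⁻¹ * Sg H j) := by group
        _ = (Sg H e.2.2)⁻¹ * (Sg H e.2.2 * ivT H) * ((Sg H e.2.2)⁻¹ * Sg H j) := by rw [hSr]
        _ = ivT H * ((Sg H e.2.2)⁻¹ * Sg H j) := by group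
    have hkL : k ∈ ivKL := by
      have h6 := ivComm_all k hk
      have e1 : mulC (sC k) ivTC = mulC ivTC (sC k) :=
        IsCodeM.code_eq H.two H.om (IsCode.mul H.two H.om (Sg_code H hk) (ivT_code H))
          (by rw [hcomm]; exact IsCode.mul H.two H.om (ivT_code H) (Sg_code H hk))
          (mulC_lt _ _) (mulC_lt _ _)
      rw [ivCommChk, ble_false hk, Bool.false_or, natLetB_eq, mulF_eq, mulF_eq, e1, Nat.beq_refl,
        Bool.not_true, Bool.false_or] at h6
      obtain ⟨k', hk', h7⟩ := List.any_eq_true.mp h6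
      rw [← Nat.eq_of_beq_eq_true h7]; exact hk'
    exact ⟨e, he, k, hkL, hr, by rw [← hkeq]; group⟩
  · exfalso
    obtain ⟨v, hv⟩ : ∃ v, v = (Sg H j)⁻¹ * ivYG H * Sg H j := ⟨_, rfl⟩
    have hv' : v = ivYG H ∨ v = ivY2G H := by
      rw [hv]; exact ivY_conj H _ j hj rfl _ (Or.inl rfl)
    have hTv : ivT H * v = v * ivT H := ivT_comm_Y H hv'
    have e1 : Sg H e.2.1 = Sg H j * ivT H * (Sg H j)⁻¹ := by rw [← hSS]; group
    have e2 : ivYG H = Sg H j * v * (Sg H j)⁻¹ := by rw [hv]; group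
    have hcm : Sg H e.2.1 * ivYG H = ivYG H * Sg H e.2.1 := by
      calc Sg H e.2.1 * ivYG H = Sg H j * ivT H * (Sg H j)⁻¹ * (Sg H j * v * (Sg H j)⁻¹) := by
            rw [← e1, ← e2]
        _ = Sg H j * (ivT H * v) * (Sg H j)⁻¹ := by group
        _ = Sg H j * (v * ivT H) * (Sg H j)⁻¹ := by rw [hTv]
        _ = Sg H j * v * (Sg H j)⁻¹ * (Sg H j * ivT H * (Sg H j)⁻¹) := by group
        _ = ivYG H * Sg H e.2.1 := by rw [← e1, ← e2]
    exact h5 hr (IsCodeM.code_eq H.two H.om (IsCode.mul H.two H.om (Sg_code H h2) (ivYG_code H))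
      (by rw [hcm]; exact IsCode.mul H.two H.om (ivYG_code H) (Sg_code H h2))
      (mulC_lt _ _) (mulC_lt _ _))

/-- The involution as an element of the triple cover. -/
noncomputable def ivTS (H : Ctx ω) : ↥(Spor.threeJ3 F ω) := ⟨ivT H, ivT_mem H⟩

/-- The centraliser of `t` in the triple cover has at most 5760 elements. -/
theorem ivCent_card (H : Ctx ω) :
    Nat.card ↥(Subgroup.centralizer ({ivTS H} : Set ↥(Spor.threeJ3 F ω))) ≤ 5760 := by
  classical
  let L : List (GL Spor.F9 F) :=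
    ((ivFixL.filter fun e => decide (e.2.2 < 6480)) ×ˢ ivKL).map
      fun p => Ug H p.1.1 * Sg H p.1.2.2 * Sg H p.2
  have hL : L.length = 5760 := by
    rw [List.length_map, List.length_product, ivFixL_inner, ivKL_length]
  have hmem : ∀ c : ↥(Subgroup.centralizer ({ivTS H} : Set ↥(Spor.threeJ3 F ω))),
      ((c : ↥(Spor.threeJ3 F ω)) : GL Spor.F9 F) ∈ L.toFinset := by
    rintro ⟨⟨c, hc⟩, hcc⟩
    have h1 := Subgroup.mem_centralizer_iff.mp hcc (ivTS H) (Set.mem_singleton _)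
    have h2 : ivT H * c = c * ivT H := congrArg Subtype.val h1
    obtain ⟨e, he, k, hk, hr, hce⟩ := ivCent_cover H hc h2.symm
    rw [List.mem_toFinset, List.mem_map]
    exact ⟨(e, k), List.pair_mem_product.mpr ⟨List.mem_filter.mpr ⟨he, decide_eq_true hr⟩, hk⟩,
      hce.symm⟩
  let f : ↥(Subgroup.centralizer ({ivTS H} : Set ↥(Spor.threeJ3 F ω))) → ↥L.toFinset :=
    fun c => ⟨_, hmem c⟩
  have hf : Function.Injective f := by
    intro a b hab
    have h1 : ((f a : ↥L.toFinset) : GL Spor.F9 F) = ((f b : ↥L.toFinset) : GL Spor.F9 F) :=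
      congrArg Subtype.val hab
    exact Subtype.ext (Subtype.ext h1)
  have h3 := Nat.card_le_card_of_injective f hf
  have h4 : Nat.card ↥L.toFinset = L.toFinset.card := by
    rw [Nat.card_eq_fintype_card, Fintype.card_coe]
  rw [h4] at h3
  exact h3.trans ((List.toFinset_card_le L).trans hL.le)

end

end Cfsg.Agent.Helper7.J3
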