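/-
Helper7 library: the centraliser of an involution of the Janko group `J₃` (the central quotient
of its triple cover): all involutions are conjugate, and the centraliser of an involution is a
split extension of an extraspecial group of order 32, without elementary abelian subgroups of
order 8, by the alternating group of degree 5.
-/
import Cfsg.Agent.Helper7.J3Chk14d
import Cfsg.Agent.Helper7.J3Chk14e
import Cfsg.Agent.Helper7.J3Inv1
import Cfsg.Agent.Helper7.J3InvAbs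

set_option autoImplicit false

namespace Cfsg.Agent.Helper7.J3

open Cfsg

/-! ### The checks on all indices -/

theorem ivMul_all (n : ℕ) (hn : n < 16384) : ivMulChk n = true := by
  refine rg_cover ivMulChk 10 16 (fun k hk => ?_) n (by norm_num; omega)
  rw [← rgAllF_eq]
  interval_cases k
  · exact ivMul_0
  · exact ivMul_1
  · exact ivMul_2
  · exact ivMul_3
  · exact ivMul_4
  · exact ivMul_5
  · exact ivMul_6
  · exact ivMul_7
  · exact ivMul_8
  · exact ivMul_9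
  · exact ivMul_10
  · exact ivMul_11
  · exact ivMul_12
  · exact ivMul_13
  · exact ivMul_14
  · exact ivMul_15

theorem ivMul_spec {a b : ℕ} (ha : a < 128) (hb : b < 128) :
    ivM a b < 128 ∧ mulC (ivPC a) (ivPC b) = ivPC (ivM a b) := by
  have h := ivMul_all (128 * a + b) (by omega)
  have e1 : Nat.div (128 * a + b) 128 = a := by
    show (128 * a + b) / 128 = a
    omega
  have e2 : Nat.mod (128 * a + b) 128 = b := by
    show (128 * a + b) % 128 = b
    omega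
  rw [ivMulChk, ble_false (by omega), Bool.false_or, natLetB_eq, natLetB_eq, natLetB_eq, e1, e2,
    Bool.and_eq_true, mulF_eq] at h
  exact ⟨Nat.le_of_ble_eq_true h.1, Nat.eq_of_beq_eq_true h.2⟩

theorem ivP_spec {k : ℕ} (hk : k < 128) : e16 ivPI k < 23256 ∧ e16 ivPJ k < 6480 ∧
    ivPC k = mulC (uC (e16 ivPI k)) (sC (e16 ivPJ k)) := by
  have h := rgAll_spec ivPChk 7 0 (by rw [← rgAllF_eq]; exact ivP_all) k (Nat.zero_le _)
    (by norm_num; omega)
  rw [ivPChk, ble_false hk, Bool.false_or, Bool.and_eq_true, Bool.and_eq_true, mulF_eq] at h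
  exact ⟨Nat.le_of_ble_eq_true h.1, Nat.le_of_ble_eq_true h.2.1, Nat.eq_of_beq_eq_true h.2.2⟩

theorem ivNy_spec {k : ℕ} (hk : k < 32) :
    ivNy k < 32 ∧ mulC ivHyC (ivPC k) = mulC (ivPC (ivNy k)) ivHyC := by
  have h := rgAll_spec ivNyChk 5 0 (by rw [← rgAllF_eq]; exact ivNy_all) k (Nat.zero_le _)
    (by norm_num; omega)
  rw [ivNyChk, ble_false hk, Bool.false_or, Bool.and_eq_true, mulF_eq, mulF_eq] at h
  exact ⟨Nat.le_of_ble_eq_true h.1, Nat.eq_of_beq_eq_true h.2⟩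

theorem ivInvCov_spec {k : ℕ} (hk : k < 128) (h0 : k ≠ 0) (hkk : ivM k k = 0) :
    ∃ e ∈ ivConjL, e.1 = k := by
  have h := rgAll_spec ivInvCov 7 0 (by rw [← rgAllF_eq]; exact ivInvCov_all) k (Nat.zero_le _)
    (by norm_num; omega)
  rw [ivInvCov, ble_false hk, Bool.false_or, beq_false h0, Bool.false_or, hkk, Nat.beq_refl,
    Bool.not_true, Bool.false_or] at h
  obtain ⟨e, he, h5⟩ := List.any_eq_true.mp h
  exact ⟨e, he, Nat.eq_of_beq_eq_true h5⟩

theorem ivConj_spec {e : ℕ × ℕ × ℕ} (he : e ∈ ivConjL) : e.2.1 < 23256 ∧ e.2.2 < 6480 ∧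
    mulC (ivPC e.1) (mulC (uC e.2.1) (sC e.2.2)) = mulC (mulC (uC e.2.1) (sC e.2.2)) ivTC := by
  have h := List.all_eq_true.mp ivConj_all e he
  rw [ivConjOK, Bool.and_eq_true, Bool.and_eq_true, natLetB_eq, mulF_eq, mulF_eq, mulF_eq] at h
  exact ⟨Nat.le_of_ble_eq_true h.1, Nat.le_of_ble_eq_true h.2.1, Nat.eq_of_beq_eq_true h.2.2⟩

theorem ivScal_spec {k : ℕ} (hk : k < 128) (h0 : k ≠ 0) : isScalC (ivPC k) = false := by
  have h := rgAll_spec ivScalChk 7 0 (by rw [← rgAllF_eq]; exact ivScal_all) k (Nat.zero_le _)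
    (by norm_num; omega)
  rw [ivScalChk, ble_false hk, Bool.false_or, beq_false h0, Bool.false_or] at h
  cases hs : isScalC (ivPC k) with
  | false => rfl
  | true => rw [hs] at h; exact absurd h (by decide)

theorem ivDist_spec {a b : ℕ} (ha : a < 128) (hb : b < 128) (h : ivPC a = ivPC b) : a = b := by
  have h1 := rgAll_spec ivDistChk 14 0 (by rw [← rgAllF_eq]; exact ivDist_all) (128 * a + b)
    (Nat.zero_le _) (by norm_num; omega)
  have e1 : Nat.div (128 * a + b) 128 = a := by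
    show (128 * a + b) / 128 = a
    omega
  have e2 : Nat.mod (128 * a + b) 128 = b := by
    show (128 * a + b) % 128 = b
    omega
  rw [ivDistChk, ble_false (by omega), Bool.false_or, natLetB_eq, natLetB_eq, e1, e2, h,
    Nat.beq_refl, Bool.not_true, Bool.or_false] at h1
  exact Nat.eq_of_beq_eq_true h1

theorem ivPC_lt (k : ℕ) : ivPC k < 2 ^ 162 := Nat.mod_lt _ (by norm_num)

theorem ivM_1_1 : ivM 1 1 = 0 := by decide +kernel

/-- An element of prime order is conjugate into a subgroup of Sylow order. -/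
theorem exists_conj_mem_of_orderOf {G : Type*} [Group G] [Finite G] {p k : ℕ} [Fact p.Prime]
    (P : Subgroup G) (hP : Nat.card P = p ^ k) (hidx : ¬ p ∣ P.index) (g : G)
    (hg : orderOf g = p) : ∃ c : G, c * g * c⁻¹ ∈ P := by
  have hz : IsPGroup p (Subgroup.zpowers g) :=
    IsPGroup.of_card (n := 1) (by rw [Nat.card_zpowers, hg, pow_one])
  obtain ⟨Q, hQ⟩ := hz.exists_le_sylow
  obtain ⟨c, hc⟩ := MulAction.exists_smul_eq G Q ((IsPGroup.of_card hP).toSylow hidx)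
  refine ⟨c, ?_⟩
  have h1 : g ∈ (Q : Subgroup G) := hQ (Subgroup.mem_zpowers _)
  have h2 : c * g * c⁻¹ ∈ ((c • Q : Sylow p G) : Subgroup G) := by
    rw [Sylow.coe_subgroup_smul, Subgroup.mem_pointwise_smul_iff_inv_smul_mem, MulAut.smul_def,
      MulAut.conj_inv_apply]
    have : c⁻¹ * (c * g * c⁻¹) * c = g := by group
    rw [this]; exact h1
  rw [hc] at h2
  exact h2

section
variable {F : Type*} [Field F] {ω : F}

/-! ### The elements in the triple cover -/

/-- Element `k` of the Sylow 2-subgroup. -/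
noncomputable def ivPg (H : Ctx ω) (k : ℕ) : GL Spor.F9 F :=
  Ug H (e16 ivPI k) * Sg H (e16 ivPJ k)

theorem ivPg_mem (H : Ctx ω) (k : ℕ) : ivPg H k ∈ Spor.threeJ3 F ω :=
  mul_mem (Ug_mem3 H _) (Sg_mem3 H _)

theorem ivPg_code (H : Ctx ω) {k : ℕ} (hk : k < 128) : IsCode ω (ivPg H k) (ivPC k) := by
  obtain ⟨h1, h2, h3⟩ := ivP_spec hk
  rw [h3]; exact IsCode.mul H.two H.om (Ug_code H h1) (Sg_code H h2)

theorem ivPg_mul (H : Ctx ω) {a b : ℕ} (ha : a < 128) (hb : b < 128) :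
    ivPg H a * ivPg H b = ivPg H (ivM a b) := by
  obtain ⟨h1, h2⟩ := ivMul_spec ha hb
  have c := IsCode.mul H.two H.om (ivPg_code H ha) (ivPg_code H hb)
  rw [h2] at c
  exact IsCode.eq c (ivPg_code H h1)

theorem ivPg_zero (H : Ctx ω) : ivPg H 0 = 1 := by
  have c := ivPg_code H (k := 0) (by norm_num)
  rw [ivP0] at c
  exact IsCode.eq c isCode_one

theorem ivPg_one (H : Ctx ω) : ivPg H 1 = ivT H := by
  have c := ivPg_code H (k := 1) (by norm_num)
  rw [ivP1] at c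
  exact IsCode.eq c (ivT_code H)

theorem ivPg_inj (H : Ctx ω) {a b : ℕ} (ha : a < 128) (hb : b < 128)
    (h : ivPg H a = ivPg H b) : a = b := by
  have c := ivPg_code H ha
  rw [h] at c
  exact ivDist_spec ha hb
    (IsCodeM.code_eq H.two H.om c (ivPg_code H hb) (ivPC_lt _) (ivPC_lt _))

theorem ivPg_not_scal (H : Ctx ω) {k : ℕ} (hk : k < 128) (h0 : k ≠ 0) (e : ℕ) (he : e < 3) :
    ivPg H k ≠ gz H ^ e := by
  intro h
  have c := ivPg_code H hk
  rw [h] at c
  have hc := IsCodeM.code_eq H.two H.om c (zP_code H e he) (ivPC_lt _) (zP_lt e he)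
  have hs : ∀ e, e < 3 → isScalC (zP e) = true := by decide
  have h1 := ivScal_spec hk h0
  rw [hc, hs e he] at h1
  exact absurd h1 (by decide)

/-- The element of order 3. -/
noncomputable def ivHy (H : Ctx ω) : GL Spor.F9 F := Ug H ivHyI * Sg H ivHyJ

theorem ivHy_mem (H : Ctx ω) : ivHy H ∈ Spor.threeJ3 F ω :=
  mul_mem (Ug_mem3 H _) (Sg_mem3 H _)

theorem ivHy_code (H : Ctx ω) : IsCode ω (ivHy H) ivHyC := by
  rw [ivHy_eq, mulF_eq]
  exact IsCode.mul H.two H.om (Ug_code H ivBounds.2.2.2.1) (Sg_code H ivBounds.2.2.2.2)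

theorem ivHy_pow3 (H : Ctx ω) : ivHy H ^ 3 = 1 := by
  have c := IsCode.mul H.two H.om (IsCode.mul H.two H.om (ivHy_code H) (ivHy_code H))
    (ivHy_code H)
  rw [← mulF_eq, ← mulF_eq, ivHy_cube] at c
  rw [pow_succ, pow_two]
  exact IsCode.eq c isCode_one

theorem ivHy_pow5 (H : Ctx ω) : (ivPg H 32 * ivHy H) ^ 5 = 1 := by
  have cx := IsCode.mul H.two H.om (ivPg_code H (k := 32) (by norm_num)) (ivHy_code H)
  have c := IsCode.mul H.two H.om (IsCode.mul H.two H.om (IsCode.mul H.two H.om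
    (IsCode.mul H.two H.om cx cx) cx) cx) cx
  rw [← mulF_eq, ← mulF_eq, ← mulF_eq, ← mulF_eq, ← mulF_eq, ivHy_xy] at c
  rw [pow_succ, pow_succ, pow_succ, pow_two]
  exact IsCode.eq c isCode_one

theorem ivHy_T (H : Ctx ω) : ivHy H * ivT H = ivT H * ivHy H := by
  have c1 := IsCode.mul H.two H.om (ivHy_code H) (ivT_code H)
  have c2 := IsCode.mul H.two H.om (ivT_code H) (ivHy_code H)
  rw [← mulF_eq] at c1 c2
  rw [ivHy_t] at c1
  exact IsCode.eq c1 c2

theorem ivHy_norm (H : Ctx ω) {k : ℕ} (hk : k < 32) :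
    ivHy H * ivPg H k = ivPg H (ivNy k) * ivHy H := by
  obtain ⟨h1, h2⟩ := ivNy_spec hk
  have c1 := IsCode.mul H.two H.om (ivHy_code H) (ivPg_code H (k := k) (by omega))
  rw [h2] at c1
  exact IsCode.eq c1 (IsCode.mul H.two H.om (ivPg_code H (by omega)) (ivHy_code H))

/-! ### The elements in `J₃` -/

noncomputable def ivPq (H : Ctx ω) (k : ℕ) : Spor.J3 F ω :=
  QuotientGroup.mk (⟨ivPg H k, ivPg_mem H k⟩ : ↥(Spor.threeJ3 F ω))

noncomputable def ivYq (H : Ctx ω) : Spor.J3 F ω :=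
  QuotientGroup.mk (⟨ivHy H, ivHy_mem H⟩ : ↥(Spor.threeJ3 F ω))

noncomputable def ivTq (H : Ctx ω) : Spor.J3 F ω := QuotientGroup.mk (ivTS H)

theorem ivFinite (H : Ctx ω) : Finite (Spor.J3 F ω) :=
  Nat.finite_of_card_ne_zero (by rw [card_J3 H]; norm_num)

theorem ivPq_mul (H : Ctx ω) {a b : ℕ} (ha : a < 128) (hb : b < 128) :
    ivPq H a * ivPq H b = ivPq H (ivM a b) := by
  show (QuotientGroup.mk _ : Spor.J3 F ω) * QuotientGroup.mk _ = QuotientGroup.mk _
  rw [← QuotientGroup.mk_mul]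
  exact congrArg _ (Subtype.ext (ivPg_mul H ha hb))

theorem ivPq_zero (H : Ctx ω) : ivPq H 0 = 1 := by
  have e : (⟨ivPg H 0, ivPg_mem H 0⟩ : ↥(Spor.threeJ3 F ω)) = 1 := Subtype.ext (ivPg_zero H)
  show (QuotientGroup.mk _ : Spor.J3 F ω) = 1
  rw [e]; rfl

theorem ivPq_one (H : Ctx ω) : ivPq H 1 = ivTq H :=
  congrArg _ (Subtype.ext (ivPg_one H))

theorem ivPq_eq_one (H : Ctx ω) {c : ℕ} (hc : c < 128) (h : ivPq H c = 1) : c = 0 := by
  by_contra h0
  have h1 : (⟨ivPg H c, ivPg_mem H c⟩ : ↥(Spor.threeJ3 F ω)) ∈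
      Subgroup.center ↥(Spor.threeJ3 F ω) := (QuotientGroup.eq_one_iff _).mp h
  obtain ⟨e, he, h2⟩ := center_cases H h1
  exact ivPg_not_scal H hc h0 e he h2

theorem ivPq_inj (H : Ctx ω) {a b : ℕ} (ha : a < 128) (hb : b < 128)
    (h : ivPq H a = ivPq H b) : a = b := by
  obtain ⟨a', ha', haa⟩ := ivP_inv a ha
  have h1 : ivPq H a' * ivPq H a = 1 := by rw [ivPq_mul H ha' ha, haa, ivPq_zero]
  have h2 : ivPq H (ivM a' b) = 1 := by rw [← ivPq_mul H ha' hb, ← h, h1]
  have h3 := ivPq_eq_one H (ivMul_spec ha' hb).1 h2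
  have e1 : ivPg H a' * ivPg H b = ivPg H a' * ivPg H a := by
    rw [ivPg_mul H ha' hb, ivPg_mul H ha' ha, h3, haa]
  exact (ivPg_inj H hb ha (mul_left_cancel e1)).symm

theorem ivTq_order (H : Ctx ω) : orderOf (ivTq H) = 2 := by
  have : Fact (Nat.Prime 2) := ⟨Nat.prime_two⟩
  refine orderOf_eq_prime ?_ ?_
  · rw [pow_two, ← ivPq_one, ivPq_mul H (by norm_num) (by norm_num), ivM_1_1, ivPq_zero]
  · intro h
    rw [← ivPq_one] at h
    have := ivPq_eq_one H (by norm_num) h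
    omega

theorem ivYq_pow3 (H : Ctx ω) : ivYq H ^ 3 = 1 := by
  have e : (⟨ivHy H, ivHy_mem H⟩ : ↥(Spor.threeJ3 F ω)) ^ 3 = 1 :=
    Subtype.ext (by rw [Subgroup.coe_pow]; exact ivHy_pow3 H)
  show (QuotientGroup.mk _ : Spor.J3 F ω) ^ 3 = 1
  rw [← QuotientGroup.mk_pow, e]; rfl

theorem ivYq_pow5 (H : Ctx ω) : (ivPq H 32 * ivYq H) ^ 5 = 1 := by
  have e : ((⟨ivPg H 32, ivPg_mem H 32⟩ : ↥(Spor.threeJ3 F ω)) * ⟨ivHy H, ivHy_mem H⟩) ^ 5 = 1 :=
    Subtype.ext (by rw [Subgroup.coe_pow, Subgroup.coe_mul]; exact ivHy_pow5 H)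
  show ((QuotientGroup.mk _ : Spor.J3 F ω) * QuotientGroup.mk _) ^ 5 = 1
  rw [← QuotientGroup.mk_mul, ← QuotientGroup.mk_pow, e]; rfl

theorem ivYq_T (H : Ctx ω) : ivYq H * ivTq H = ivTq H * ivYq H := by
  show (QuotientGroup.mk _ : Spor.J3 F ω) * QuotientGroup.mk _ =
    QuotientGroup.mk _ * QuotientGroup.mk _
  rw [← QuotientGroup.mk_mul, ← QuotientGroup.mk_mul]
  exact congrArg _ (Subtype.ext (ivHy_T H))

theorem ivYq_norm (H : Ctx ω) {k : ℕ} (hk : k < 32) :
    ivYq H * ivPq H k = ivPq H (ivNy k) * ivYq H := by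
  show (QuotientGroup.mk _ : Spor.J3 F ω) * QuotientGroup.mk _ =
    QuotientGroup.mk _ * QuotientGroup.mk _
  rw [← QuotientGroup.mk_mul, ← QuotientGroup.mk_mul]
  exact congrArg _ (Subtype.ext (ivHy_norm H hk))

/-! ### The order of the centraliser -/

theorem ivCentQ_card (H : Ctx ω) :
    Nat.card ↥(Subgroup.centralizer ({ivTq H} : Set (Spor.J3 F ω))) ≤ 1920 := by
  classical
  haveI : Finite ↥(Spor.threeJ3 F ω) :=
    Nat.finite_of_card_ne_zero (by rw [card_threeJ3 H]; norm_num)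
  haveI := ivFinite H
  have hmap : ∀ c : ↥(Subgroup.centralizer ({ivTS H} : Set ↥(Spor.threeJ3 F ω))),
      ((QuotientGroup.mk' (Subgroup.center ↥(Spor.threeJ3 F ω))).comp
        (Subgroup.centralizer ({ivTS H} : Set ↥(Spor.threeJ3 F ω))).subtype) c ∈
        Subgroup.centralizer ({ivTq H} : Set (Spor.J3 F ω)) := by
    intro c
    rw [Subgroup.mem_centralizer_iff]
    intro x hx
    rw [Set.mem_singleton_iff.mp hx]
    have h1 := Subgroup.mem_centralizer_iff.mp c.2 (ivTS H) (Set.mem_singleton _)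
    show (QuotientGroup.mk (ivTS H) : Spor.J3 F ω) * QuotientGroup.mk (c : ↥(Spor.threeJ3 F ω)) =
      QuotientGroup.mk (c : ↥(Spor.threeJ3 F ω)) * QuotientGroup.mk (ivTS H)
    rw [← QuotientGroup.mk_mul, ← QuotientGroup.mk_mul, h1]
  let φ : ↥(Subgroup.centralizer ({ivTS H} : Set ↥(Spor.threeJ3 F ω))) →*
      ↥(Subgroup.centralizer ({ivTq H} : Set (Spor.J3 F ω))) :=
    MonoidHom.codRestrict ((QuotientGroup.mk' (Subgroup.center ↥(Spor.threeJ3 F ω))).comp
      (Subgroup.centralizer ({ivTS H} : Set ↥(Spor.threeJ3 F ω))).subtype) _ hmap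
  have hφ : Function.Surjective φ := by
    rintro ⟨q, hq⟩
    obtain ⟨⟨c, hc⟩, rfl⟩ := QuotientGroup.mk_surjective q
    have h1 := Subgroup.mem_centralizer_iff.mp hq (ivTq H) (Set.mem_singleton _)
    obtain ⟨e, he, h3⟩ := comm_lift H hc (ivT_mem H) h1.symm
    have hz : gz H ^ e = 1 := by
      have e1 : c * ivT H * c⁻¹ = gz H ^ e * ivT H := by rw [h3]; group
      have e2 : gz H ^ e * ivT H * (gz H ^ e * ivT H) = 1 := by
        rw [← e1]
        calc c * ivT H * c⁻¹ * (c * ivT H * c⁻¹) = c * (ivT H * ivT H) * c⁻¹ := by group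
          _ = 1 := by rw [ivT_sq]; group
      have e3 : gz H ^ e * gz H ^ e = 1 := by
        have e5 : gz H ^ e * ivT H * (gz H ^ e * ivT H) =
            gz H ^ e * gz H ^ e * (ivT H * ivT H) := by
          calc gz H ^ e * ivT H * (gz H ^ e * ivT H)
              = gz H ^ e * (ivT H * gz H ^ e) * ivT H := by group
            _ = gz H ^ e * (gz H ^ e * ivT H) * ivT H := by rw [gz_pow_comm H e (ivT H)]
            _ = gz H ^ e * gz H ^ e * (ivT H * ivT H) := by group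
        rw [e5, ivT_sq, mul_one] at e2
        exact e2
      have e4 : (gz H ^ e) ^ 3 = 1 := by rw [← pow_mul, mul_comm, pow_mul, gz_pow3, one_pow]
      calc gz H ^ e = (gz H ^ e) ^ 3 * (gz H ^ e * gz H ^ e)⁻¹ := by group
        _ = 1 := by rw [e4, e3]; group
    rw [hz, one_mul] at h3
    have hcc : (⟨c, hc⟩ : ↥(Spor.threeJ3 F ω)) ∈
        Subgroup.centralizer ({ivTS H} : Set ↥(Spor.threeJ3 F ω)) := by
      rw [Subgroup.mem_centralizer_iff]
      intro x hx
      rw [Set.mem_singleton_iff.mp hx]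
      exact Subtype.ext h3.symm
    exact ⟨⟨⟨c, hc⟩, hcc⟩, Subtype.ext rfl⟩
  have hzC : zG H ∈ Subgroup.centralizer ({ivTS H} : Set ↥(Spor.threeJ3 F ω)) := by
    rw [Subgroup.mem_centralizer_iff]
    intro x _
    exact Subgroup.mem_center_iff.mp (zG_mem_center H) x
  have hζk : (⟨zG H, hzC⟩ : ↥(Subgroup.centralizer ({ivTS H} : Set ↥(Spor.threeJ3 F ω)))) ∈
      φ.ker := by
    rw [MonoidHom.mem_ker]
    apply Subtype.ext
    show (QuotientGroup.mk (zG H) : Spor.J3 F ω) = 1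
    exact zq_one H
  have hζ3 : orderOf (⟨⟨zG H, hzC⟩, hζk⟩ : φ.ker) = 3 := by
    have : Fact (Nat.Prime 3) := ⟨by norm_num⟩
    refine orderOf_eq_prime ?_ ?_
    · apply Subtype.ext; apply Subtype.ext; apply Subtype.ext
      show gz H ^ 3 = 1
      exact gz_pow3 H
    · intro h
      have h' : gz H = 1 := congrArg (fun x : φ.ker =>
        (((x : ↥(Subgroup.centralizer ({ivTS H} : Set ↥(Spor.threeJ3 F ω)))) :
          ↥(Spor.threeJ3 F ω)) : GL Spor.F9 F)) h
      exact gz_ne_one H h'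
  have h3 : 3 ∣ Nat.card φ.ker := by
    have h := orderOf_dvd_natCard (⟨⟨zG H, hzC⟩, hζk⟩ : φ.ker)
    rwa [hζ3] at h
  have hcard : Nat.card ↥(Subgroup.centralizer ({ivTS H} : Set ↥(Spor.threeJ3 F ω))) =
      Nat.card ↥(Subgroup.centralizer ({ivTq H} : Set (Spor.J3 F ω))) * Nat.card φ.ker := by
    rw [Subgroup.card_eq_card_quotient_mul_card_subgroup φ.ker]
    congr 1
    exact Nat.card_congr (QuotientGroup.quotientKerEquivOfSurjective φ hφ).toEquiv
  have h5 := ivCent_card H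
  have hpos : 0 < Nat.card φ.ker := Nat.card_pos
  have h6 : 3 ≤ Nat.card φ.ker := Nat.le_of_dvd hpos h3
  nlinarith

/-! ### The Sylow 2-subgroup and the conjugacy of the involutions -/

/-- The Sylow 2-subgroup. -/
noncomputable def ivP128 (H : Ctx ω) : Subgroup (Spor.J3 F ω) where
  carrier := {g | ∃ k, k < 128 ∧ g = ivPq H k}
  mul_mem' := by
    rintro _ _ ⟨a, ha, rfl⟩ ⟨b, hb, rfl⟩
    exact ⟨ivM a b, (ivMul_spec ha hb).1, ivPq_mul H ha hb⟩
  one_mem' := ⟨0, by norm_num, (ivPq_zero H).symm⟩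
  inv_mem' := by
    rintro _ ⟨a, ha, rfl⟩
    obtain ⟨b, hb, hab⟩ := ivP_inv a ha
    refine ⟨b, hb, ?_⟩
    have h1 : ivPq H b * ivPq H a = 1 := by rw [ivPq_mul H hb ha, hab, ivPq_zero]
    exact inv_eq_of_mul_eq_one_left h1

theorem ivP128_card (H : Ctx ω) : Nat.card (ivP128 H) = 128 := by
  classical
  have e : (ivP128 H : Set (Spor.J3 F ω)) =
      ((Finset.range 128).image (ivPq H) : Finset (Spor.J3 F ω)) := by
    ext g
    simp only [Finset.coe_image, Finset.coe_range, Set.mem_image, Set.mem_Iio]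
    constructor
    · rintro ⟨k, hk, rfl⟩; exact ⟨k, hk, rfl⟩
    · rintro ⟨k, hk, rfl⟩; exact ⟨k, hk, rfl⟩
  calc Nat.card (ivP128 H) = (ivP128 H : Set (Spor.J3 F ω)).ncard := Nat.card_coe_set_eq _
    _ = ((Finset.range 128).image (ivPq H)).card := by rw [e, Set.ncard_coe_finset]
    _ = 128 := by
      rw [Finset.card_image_of_injOn, Finset.card_range]
      intro a ha b hb hab
      rw [Finset.coe_range, Set.mem_Iio] at ha hb
      exact ivPq_inj H ha hb hab

/-- Every involution of `J₃` is conjugate to `t`. -/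
theorem ivInv_conj (H : Ctx ω) (u : Spor.J3 F ω) (hu : orderOf u = 2) : IsConj u (ivTq H) := by
  haveI := ivFinite H
  haveI : Fact (Nat.Prime 2) := ⟨Nat.prime_two⟩
  have hidx : ¬ 2 ∣ (ivP128 H).index := by
    have h1 := (ivP128 H).index_mul_card
    rw [ivP128_card, card_J3 H] at h1
    have h2 : (ivP128 H).index = 392445 := by omega
    rw [h2]; norm_num
  obtain ⟨c, k, hk, hck⟩ := exists_conj_mem_of_orderOf (ivP128 H) (k := 7)
    (by rw [ivP128_card]; norm_num) hidx u hu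
  have hk0 : k ≠ 0 := by
    rintro rfl
    rw [ivPq_zero] at hck
    have h1 : u = 1 := by
      have h2 : c⁻¹ * (c * u * c⁻¹) * c = c⁻¹ * 1 * c := by rw [hck]
      have h3 : c⁻¹ * (c * u * c⁻¹) * c = u := by group
      rw [h3] at h2
      rw [h2]; group
    rw [h1, orderOf_one] at hu
    norm_num at hu
  have hkk : ivM k k = 0 := by
    have h1 : ivPq H k * ivPq H k = 1 := by
      rw [← hck]
      have h2 : u * u = 1 := by rw [← pow_two, ← hu]; exact pow_orderOf_eq_one u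
      calc c * u * c⁻¹ * (c * u * c⁻¹) = c * (u * u) * c⁻¹ := by group
        _ = 1 := by rw [h2]; group
    rw [ivPq_mul H hk hk] at h1
    exact ivPq_eq_one H (ivMul_spec hk hk).1 h1
  obtain ⟨e, he, rfl⟩ := ivInvCov_spec hk hk0 hkk
  obtain ⟨h1, h2, h3⟩ := ivConj_spec he
  have hg : Ug H e.2.1 * Sg H e.2.2 ∈ Spor.threeJ3 F ω := mul_mem (Ug_mem3 H _) (Sg_mem3 H _)
  have e1 : ivPg H e.1 * (Ug H e.2.1 * Sg H e.2.2) = Ug H e.2.1 * Sg H e.2.2 * ivT H := by
    have cg := IsCode.mul H.two H.om (Ug_code H h1) (Sg_code H h2)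
    have c1 := IsCode.mul H.two H.om (ivPg_code H hk) cg
    rw [h3] at c1
    exact IsCode.eq c1 (IsCode.mul H.two H.om cg (ivT_code H))
  obtain ⟨γ, hγ⟩ : ∃ γ : Spor.J3 F ω, γ = QuotientGroup.mk
      (⟨Ug H e.2.1 * Sg H e.2.2, hg⟩ : ↥(Spor.threeJ3 F ω)) := ⟨_, rfl⟩
  have e2 : ivPq H e.1 * γ = γ * ivTq H := by
    rw [hγ]
    show (QuotientGroup.mk _ : Spor.J3 F ω) * QuotientGroup.mk _ =
      QuotientGroup.mk _ * QuotientGroup.mk _
    rw [← QuotientGroup.mk_mul, ← QuotientGroup.mk_mul]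
    exact congrArg _ (Subtype.ext e1)
  rw [isConj_iff]
  refine ⟨γ⁻¹ * c, ?_⟩
  calc γ⁻¹ * c * u * (γ⁻¹ * c)⁻¹ = γ⁻¹ * (c * u * c⁻¹) * γ := by group
    _ = γ⁻¹ * (ivPq H e.1 * γ) := by rw [hck]; group
    _ = ivTq H := by rw [e2]; group

/-- The centraliser of an involution of `J₃`. -/
theorem inv_cent_J3 (H : Ctx ω) :
    (∀ x y : Spor.J3 F ω, orderOf x = 2 → orderOf y = 2 → IsConj x y) ∧
    ∃ t : Spor.J3 F ω, orderOf t = 2 ∧
      ∃ (Q : Subgroup ↥(Subgroup.centralizer ({t} : Set (Spor.J3 F ω)))) (_ : Q.Normal),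
        IsExtraspecial 2 Q ∧ Nat.card Q = 32 ∧
        (∀ E : Subgroup Q, IsElementaryAbelian 2 E → Nat.card E ≤ 2 ^ 2) ∧
        (∃ H' : Subgroup ↥(Subgroup.centralizer ({t} : Set (Spor.J3 F ω))),
          Q.IsComplement' H') ∧
        Nonempty (↥(Subgroup.centralizer ({t} : Set (Spor.J3 F ω))) ⧸ Q ≃*
          ↥(alternatingGroup (Fin 5))) := by
  haveI := ivFinite H
  refine ⟨fun x y hx hy => (ivInv_conj H x hx).trans (ivInv_conj H y hy).symm,
    ivTq H, ivTq_order H, ?_⟩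
  have hPC : ∀ k, k < 128 →
      ivPq H k ∈ Subgroup.centralizer ({ivTq H} : Set (Spor.J3 F ω)) := by
    intro k hk
    rw [Subgroup.mem_centralizer_iff]
    intro x hx
    rw [Set.mem_singleton_iff.mp hx, ← ivPq_one, ivPq_mul H (by norm_num) hk,
      ivPq_mul H hk (by norm_num), ivP_t k hk]
  have hYC : ivYq H ∈ Subgroup.centralizer ({ivTq H} : Set (Spor.J3 F ω)) := by
    rw [Subgroup.mem_centralizer_iff]
    intro x hx
    rw [Set.mem_singleton_iff.mp hx]
    exact (ivYq_T H).symm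
  obtain ⟨p, hpk⟩ : ∃ p : ℕ → ↥(Subgroup.centralizer ({ivTq H} : Set (Spor.J3 F ω))),
      ∀ k, k < 128 → ((p k : ↥(Subgroup.centralizer ({ivTq H} : Set (Spor.J3 F ω)))) :
        Spor.J3 F ω) = ivPq H k :=
    ⟨fun k => if h : k < 128 then ⟨ivPq H k, hPC k h⟩ else 1, fun k hk => by simp only [dif_pos hk]⟩
  refine inv_cent_abs p ⟨ivYq H, hYC⟩ (ivCentQ_card H) ?_ ?_ ?_ ?_ ?_ ?_
  · intro a b ha hb
    apply Subtype.ext
    rw [Subgroup.coe_mul, hpk a ha, hpk b hb, hpk _ (ivMul_spec ha hb).1]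
    exact ivPq_mul H ha hb
  · intro a b ha hb h
    have h1 := congrArg Subtype.val h
    rw [hpk a ha, hpk b hb] at h1
    exact ivPq_inj H ha hb h1
  · apply Subtype.ext
    rw [hpk 0 (by norm_num)]
    exact ivPq_zero H
  · apply Subtype.ext
    rw [Subgroup.coe_pow]
    exact ivYq_pow3 H
  · apply Subtype.ext
    rw [Subgroup.coe_pow, Subgroup.coe_mul, hpk 32 (by norm_num)]
    exact ivYq_pow5 H
  · intro k hk
    have h1 := (ivNy_spec hk).1
    refine ⟨?_, h1⟩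
    apply Subtype.ext
    rw [Subgroup.coe_mul, Subgroup.coe_mul, hpk k (by omega), hpk _ (by omega)]
    exact ivYq_norm H hk

end

end Cfsg.Agent.Helper7.J3
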