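/-
Helper7 library: the centraliser of an involution of shape `2^{1+4}_-:A₅`, abstractly. A group
of order at most 1920 containing 128 elements multiplying as in the table `ivM` (the first 32
forming a subgroup `Q`) and an element `y` of order 3 normalising `Q` with `(p 32 * y) ^ 5 = 1`
has `Q` as a normal extraspecial subgroup of order 32 without elementary abelian subgroups of
order 8, complemented by a subgroup isomorphic to `A₅`.
-/
import Cfsg.Agent.Helper7.J3Data6
import Cfsg.Agent.Helper40.PresSmall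
import Cfsg.Agent.Helper29.ExtraCrit

set_option autoImplicit false

namespace Cfsg.Agent.Helper7.J3

open Cfsg

/-! ### Facts read off the multiplication table -/

theorem ivQ_closed : ∀ a, a < 32 → ∀ b, b < 32 → ivM a b < 32 := by decide +kernel

theorem ivQ_inv : ∀ a, a < 32 → ∃ b, b < 32 ∧ ivM a b = 0 := by decide +kernel

theorem ivQ_comm : ∀ a, a < 32 → ∀ b, b < 32 →
    ivM a b = ivM b a ∨ ivM a b = ivM 1 (ivM b a) := by decide +kernel

theorem ivQ_sq : ∀ a, a < 32 → ivM a a = 0 ∨ ivM a a = 1 := by decide +kernel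

theorem ivQ_cen : ∀ c, c < 32 → (∀ b, b < 32 → ivM c b = ivM b c) → c = 0 ∨ c = 1 := by
  decide +kernel

theorem ivP_t : ∀ k, k < 128 → ivM k 1 = ivM 1 k := by decide +kernel

theorem ivQ_nonab : ∃ a, a < 32 ∧ ∃ b, b < 32 ∧ ivM a b ≠ ivM b a := by decide +kernel

theorem ivQ_x32 : ∀ k, k < 32 → ivM 32 k < 128 := by decide +kernel

theorem ivQ_xnorm : ∀ k, k < 32 → ivM (ivM 32 k) 32 < 32 := by decide +kernel

theorem ivP_inv : ∀ a, a < 128 → ∃ b, b < 128 ∧ ivM b a = 0 := by decide +kernel

theorem ivM_32_32 : ivM 32 32 = 0 := by decide +kernel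

/-- Three pairwise commuting involutions among the first 32 elements are dependent. -/
def ivElemB (a b c : ℕ) : Bool :=
  !(Nat.beq (ivM a a) 0 && (Nat.beq (ivM b b) 0 && (Nat.beq (ivM c c) 0 &&
    (Nat.beq (ivM a b) (ivM b a) && (Nat.beq (ivM a c) (ivM c a) &&
      Nat.beq (ivM b c) (ivM c b)))))) ||
  (Nat.beq a 0 || (Nat.beq b 0 || (Nat.beq b a || (Nat.beq c 0 || (Nat.beq c a ||
    (Nat.beq c b || Nat.beq c (ivM a b)))))))

theorem ivQ_elemB : ∀ a, a < 32 → ∀ b, b < 32 → ∀ c, c < 32 → ivElemB a b c = true := by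
  decide +kernel

theorem ivQ_elem {a b c : ℕ} (ha : a < 32) (hb : b < 32) (hc : c < 32) (h1 : ivM a a = 0)
    (h2 : ivM b b = 0) (h3 : ivM c c = 0) (h4 : ivM a b = ivM b a) (h5 : ivM a c = ivM c a)
    (h6 : ivM b c = ivM c b) :
    a = 0 ∨ b = 0 ∨ b = a ∨ c = 0 ∨ c = a ∨ c = b ∨ c = ivM a b := by
  have h := ivQ_elemB a ha b hb c hc
  unfold ivElemB at h
  rw [h1, h2, h3, ← h4, ← h5, ← h6] at h
  simp only [Nat.beq_refl, Bool.and_self, Bool.not_true, Bool.false_or, Bool.or_eq_true] at h
  rcases h with h | h | h | h | h | h | h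
  · exact Or.inl (Nat.eq_of_beq_eq_true h)
  · exact Or.inr (Or.inl (Nat.eq_of_beq_eq_true h))
  · exact Or.inr (Or.inr (Or.inl (Nat.eq_of_beq_eq_true h)))
  · exact Or.inr (Or.inr (Or.inr (Or.inl (Nat.eq_of_beq_eq_true h))))
  · exact Or.inr (Or.inr (Or.inr (Or.inr (Or.inl (Nat.eq_of_beq_eq_true h)))))
  · exact Or.inr (Or.inr (Or.inr (Or.inr (Or.inr (Or.inl (Nat.eq_of_beq_eq_true h))))))
  · exact Or.inr (Or.inr (Or.inr (Or.inr (Or.inr (Or.inr (Nat.eq_of_beq_eq_true h))))))

/-! ### The abstract statement -/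

section abs

variable {K : Type*} [Group K]

theorem ev_sym_mem {m : ℕ} (x : Fin m → K) (w : List ℕ) :
    Cfsg.Agent.Helper89.ev (Cfsg.Agent.Helper40.sym x) w ∈ Subgroup.closure (Set.range x) := by
  induction w with
  | nil => exact Subgroup.one_mem _
  | cons j w ih => exact Subgroup.mul_mem _ (Cfsg.Agent.Helper40.sym_mem_closure x j) ih

/-- The alternating group of degree 5 is generated by the two standard generators. -/
theorem a5_closure : Subgroup.closure (Set.range ![Cfsg.Agent.Helper40.PresSmall.a5a,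
    Cfsg.Agent.Helper40.PresSmall.a5b]) = ⊤ := by
  rw [eq_top_iff]
  intro z _
  obtain ⟨c, _, rfl⟩ := Cfsg.Agent.Helper40.PresSmall.el_cover
    ![Cfsg.Agent.Helper40.PresSmall.a5a, Cfsg.Agent.Helper40.PresSmall.a5b]
    Cfsg.Agent.Helper40.PresSmall.wordsA5 60 Cfsg.Agent.Helper40.PresSmall.a5_card
    Cfsg.Agent.Helper40.PresSmall.a5_nodup z
  exact ev_sym_mem _ _

/-- The subgroup of the first 32 elements. -/
def ivQsub (p : ℕ → K) (hp : ∀ a b, a < 128 → b < 128 → p a * p b = p (ivM a b))
    (h0 : p 0 = 1) : Subgroup K where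
  carrier := {g | ∃ k, k < 32 ∧ g = p k}
  mul_mem' := by
    rintro _ _ ⟨a, ha, rfl⟩ ⟨b, hb, rfl⟩
    exact ⟨ivM a b, ivQ_closed a ha b hb, hp a b (by omega) (by omega)⟩
  one_mem' := ⟨0, by norm_num, h0.symm⟩
  inv_mem' := by
    rintro _ ⟨a, ha, rfl⟩
    obtain ⟨b, hb, hab⟩ := ivQ_inv a ha
    refine ⟨b, hb, ?_⟩
    have : p a * p b = 1 := by rw [hp a b (by omega) (by omega), hab, h0]
    exact inv_eq_of_mul_eq_one_right this

theorem card_le_of_forall_mem {G : Type*} [Group G] (E : Subgroup G) (S : Finset G)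
    (h : ∀ x ∈ E, x ∈ S) : Nat.card E ≤ S.card := by
  have h1 : (E : Set G) ⊆ (S : Set G) := fun x hx => h x hx
  calc Nat.card E = (E : Set G).ncard := Nat.card_coe_set_eq _
    _ ≤ (S : Set G).ncard := Set.ncard_le_ncard h1 (Finset.finite_toSet S)
    _ = S.card := Set.ncard_coe_finset S

theorem inv_cent_abs [Finite K] (p : ℕ → K) (y : K) (hcard : Nat.card K ≤ 1920)
    (hp : ∀ a b, a < 128 → b < 128 → p a * p b = p (ivM a b))
    (hinj : ∀ a b, a < 128 → b < 128 → p a = p b → a = b) (h0 : p 0 = 1)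
    (hy3 : y ^ 3 = 1) (hxy : (p 32 * y) ^ 5 = 1)
    (hny : ∀ k, k < 32 → y * p k = p (ivNy k) * y ∧ ivNy k < 32) :
    ∃ (Q : Subgroup K) (_ : Q.Normal), IsExtraspecial 2 Q ∧ Nat.card Q = 32 ∧
      (∀ E : Subgroup Q, IsElementaryAbelian 2 E → Nat.card E ≤ 2 ^ 2) ∧
      (∃ H : Subgroup K, Q.IsComplement' H) ∧
      Nonempty (K ⧸ Q ≃* alternatingGroup (Fin 5)) := by
  classical
  set Q : Subgroup K := ivQsub p hp h0 with hQdef
  have hmem : ∀ k, k < 32 → p k ∈ Q := fun k hk => ⟨k, hk, rfl⟩
  have hQcard : Nat.card Q = 32 := by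
    have e : (Q : Set K) = ((Finset.range 32).image p : Finset K) := by
      ext g
      simp only [Finset.coe_image, Finset.coe_range, Set.mem_image, Set.mem_Iio]
      constructor
      · rintro ⟨k, hk, rfl⟩; exact ⟨k, hk, rfl⟩
      · rintro ⟨k, hk, rfl⟩; exact ⟨k, hk, rfl⟩
    calc Nat.card Q = (Q : Set K).ncard := Nat.card_coe_set_eq _
      _ = ((Finset.range 32).image p).card := by rw [e, Set.ncard_coe_finset]
      _ = 32 := by
        rw [Finset.card_image_of_injOn, Finset.card_range]
        intro a ha b hb hab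
        rw [Finset.coe_range, Set.mem_Iio] at ha hb
        exact hinj a b (by omega) (by omega) hab
  -- the complement
  have hx2 : p 32 ^ 2 = 1 := by
    rw [pow_two, hp 32 32 (by norm_num) (by norm_num), ivM_32_32, h0]
  obtain ⟨f, hfa, hfb⟩ := Cfsg.Agent.Helper40.PresSmall.a5_hom (p 32) y hx2 hy3 hxy
  have hx1 : p 32 ≠ 1 := fun h => by
    have := hinj 32 0 (by norm_num) (by norm_num) (h.trans h0.symm)
    omega
  have hfinj : Function.Injective f :=
    Cfsg.Agent.Helper40.PresSmall.a5_inj f (by rw [hfa]; exact hx1)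
  set H : Subgroup K := f.range with hHdef
  have hHcard : Nat.card H = 60 := by
    rw [← Cfsg.Agent.Helper40.PresSmall.a5_card]
    exact (Nat.card_congr (MonoidHom.ofInjective hfinj).toEquiv).symm
  -- `Q` is normalised by `H`
  have hxn : ∀ g, g ∈ (Q : Set K) → p 32 * g * (p 32)⁻¹ ∈ (Q : Set K) := by
    rintro _ ⟨k, hk, rfl⟩
    have hinvx : (p 32)⁻¹ = p 32 := inv_eq_of_mul_eq_one_right (by rw [← pow_two]; exact hx2)
    rw [hinvx, hp 32 k (by norm_num) (by omega), hp (ivM 32 k) 32 (ivQ_x32 k hk) (by norm_num)]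
    exact ⟨_, ivQ_xnorm k hk, rfl⟩
  have hyn : ∀ g, g ∈ (Q : Set K) → y * g * y⁻¹ ∈ (Q : Set K) := by
    rintro _ ⟨k, hk, rfl⟩
    rw [(hny k hk).1, mul_inv_cancel_right]
    exact ⟨_, (hny k hk).2, rfl⟩
  have hN : ∀ σ : alternatingGroup (Fin 5), f σ ∈ Subgroup.normalizer (Q : Set K) := by
    intro σ
    have hσ : σ ∈ Subgroup.closure (Set.range ![Cfsg.Agent.Helper40.PresSmall.a5a,
        Cfsg.Agent.Helper40.PresSmall.a5b]) := by rw [a5_closure]; trivial
    induction hσ using Subgroup.closure_induction with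
    | mem s hs =>
      obtain ⟨i, rfl⟩ := hs
      fin_cases i
      · show f Cfsg.Agent.Helper40.PresSmall.a5a ∈ _
        rw [hfa]; exact Subgroup.mem_normalizer_fintype hxn
      · show f Cfsg.Agent.Helper40.PresSmall.a5b ∈ _
        rw [hfb]; exact Subgroup.mem_normalizer_fintype hyn
    | one => rw [map_one]; exact Subgroup.one_mem _
    | mul a b _ _ iha ihb => rw [map_mul]; exact Subgroup.mul_mem _ iha ihb
    | inv a _ iha => rw [map_inv]; exact Subgroup.inv_mem _ iha
  have hconj : ∀ σ : alternatingGroup (Fin 5), ∀ n, n ∈ Q → f σ * n * (f σ)⁻¹ ∈ Q :=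
    fun σ n hn => (Subgroup.mem_normalizer_iff.mp (hN σ) n).mp hn
  have hdisj : Disjoint Q H := by
    rw [Subgroup.disjoint_def]
    rintro g hgQ ⟨σ, rfl⟩
    by_contra hne
    have hnorm : (Q.comap f).Normal := by
      constructor
      intro n hn g
      rw [Subgroup.mem_comap, map_mul, map_mul, map_inv]
      exact hconj g (f n) hn
    have hs : IsSimpleGroup (alternatingGroup (Fin 5)) :=
      alternatingGroup.isSimpleGroup (by rw [Nat.card_eq_fintype_card, Fintype.card_fin])
    rcases hs.eq_bot_or_eq_top_of_normal (Q.comap f) hnorm with hb | ht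
    · have h1 : σ ∈ Q.comap f := hgQ
      rw [hb, Subgroup.mem_bot] at h1
      exact hne (by rw [h1, map_one])
    · have h1 : Cfsg.Agent.Helper40.PresSmall.a5a ∈ Q.comap f := by rw [ht]; trivial
      rw [Subgroup.mem_comap, hfa] at h1
      obtain ⟨k, hk, hk2⟩ := h1
      have := hinj 32 k (by norm_num) (by omega) hk2
      omega
  have hK : Nat.card K = 1920 := by
    have hinjm := Subgroup.mul_injective_of_disjoint hdisj
    have h1 := Nat.card_le_card_of_injective _ hinjm
    rw [Nat.card_prod, hQcard, hHcard] at h1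
    omega
  have hcompl : Q.IsComplement' H :=
    Subgroup.isComplement'_of_card_mul_and_disjoint (by rw [hQcard, hHcard, hK]) hdisj
  have hQn : Q.Normal := by
    constructor
    intro n hn g
    obtain ⟨⟨q, h⟩, rfl⟩ := hcompl.2 g
    obtain ⟨σ, hσ⟩ := h.2
    have h1 : (h : K) * n * (h : K)⁻¹ ∈ Q := by rw [← hσ]; exact hconj σ n hn
    have e : (q : K) * (h : K) * n * ((q : K) * (h : K))⁻¹ =
        (q : K) * ((h : K) * n * (h : K)⁻¹) * (q : K)⁻¹ := by group
    show (q : K) * (h : K) * n * ((q : K) * (h : K))⁻¹ ∈ Q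
    rw [e]
    exact Q.mul_mem (Q.mul_mem q.2 h1) (Q.inv_mem q.2)
  refine ⟨Q, hQn, ?_, hQcard, ?_, ⟨H, hcompl⟩, ?_⟩
  · -- extraspecial
    have hP2 : IsPGroup 2 Q := IsPGroup.of_card (n := 5) (by rw [hQcard]; norm_num)
    refine Cfsg.Agent.Helper29.isExtraspecial_two_of_elementwise hP2
      ⟨p 1, hmem 1 (by norm_num)⟩ ?_ ?_ ?_ ?_ ?_ ?_
    · intro h
      have h1 : p 1 = 1 := congrArg Subtype.val h
      have := hinj 1 0 (by norm_num) (by norm_num) (h1.trans h0.symm)
      omega
    · rintro ⟨_, a, ha, rfl⟩ ⟨_, b, hb, rfl⟩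
      rcases ivQ_comm a ha b hb with h | h
      · left
        apply Subtype.ext
        show p a * p b * (p a)⁻¹ * (p b)⁻¹ = 1
        have e : p a * p b = p b * p a := by
          rw [hp a b (by omega) (by omega), hp b a (by omega) (by omega), h]
        rw [e]; group
      · right
        apply Subtype.ext
        show p a * p b * (p a)⁻¹ * (p b)⁻¹ = p 1
        have hba := ivQ_closed b hb a ha
        have e : p a * p b = p 1 * (p b * p a) := by
          rw [hp a b (by omega) (by omega), hp b a (by omega) (by omega),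
            hp 1 (ivM b a) (by norm_num) (by omega), h]
        rw [e]; group
    · rintro ⟨_, a, ha, rfl⟩
      rcases ivQ_sq a ha with h | h
      · left
        apply Subtype.ext
        show p a ^ 2 = 1
        rw [pow_two, hp a a (by omega) (by omega), h, h0]
      · right
        apply Subtype.ext
        show p a ^ 2 = p 1
        rw [pow_two, hp a a (by omega) (by omega), h]
    · rintro ⟨_, c, hc, rfl⟩ hcomm
      have h1 : ∀ b, b < 32 → ivM c b = ivM b c := by
        intro b hb
        have h2 : p c * p b = p b * p c := congrArg Subtype.val (hcomm ⟨p b, hmem b hb⟩)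
        rw [hp c b (by omega) (by omega), hp b c (by omega) (by omega)] at h2
        have := ivQ_closed c hc b hb
        have := ivQ_closed b hb c hc
        exact hinj _ _ (by omega) (by omega) h2
      rcases ivQ_cen c hc h1 with rfl | rfl
      · left; exact Subtype.ext h0
      · right; rfl
    · rintro ⟨_, b, hb, rfl⟩
      apply Subtype.ext
      show p 1 * p b = p b * p 1
      rw [hp 1 b (by norm_num) (by omega), hp b 1 (by omega) (by norm_num), ivP_t b (by omega)]
    · obtain ⟨a, ha, b, hb, hab⟩ := ivQ_nonab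
      refine ⟨⟨p a, hmem a ha⟩, ⟨p b, hmem b hb⟩, fun h => ?_⟩
      have h2 : p a * p b = p b * p a := congrArg Subtype.val h
      rw [hp a b (by omega) (by omega), hp b a (by omega) (by omega)] at h2
      have := ivQ_closed a ha b hb
      have := ivQ_closed b hb a ha
      exact hab (hinj _ _ (by omega) (by omega) h2)
  · -- elementary abelian subgroups
    rintro E ⟨hEc, hE2⟩
    by_contra hgt
    have key : ∀ S : Finset Q, S.card ≤ 4 → ∃ x ∈ E, x ∉ S := by
      intro S hS
      by_contra hno
      push Not at hno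
      have := card_le_of_forall_mem E S hno
      omega
    obtain ⟨a, haE, ha⟩ := key {1} (by simp)
    obtain ⟨b, hbE, hb⟩ := key {1, a} ((Finset.card_le_two).trans (by norm_num))
    obtain ⟨c, hcE, hc⟩ := key {1, a, b, a * b} Finset.card_le_four
    rw [isMulCommutative_iff] at hEc
    have hcm : ∀ u v : Q, u ∈ E → v ∈ E → (u : K) * (v : K) = (v : K) * (u : K) := by
      intro u v hu hv
      exact congrArg (fun w : E => ((w : Q) : K)) (hEc ⟨u, hu⟩ ⟨v, hv⟩)
    have hsq : ∀ u : Q, u ∈ E → (u : K) * (u : K) = 1 := by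
      intro u hu
      have := congrArg (fun w : Q => (w : K)) (hE2 u hu)
      simpa [pow_two] using this
    obtain ⟨_, i, hi, rfl⟩ := a
    obtain ⟨_, j, hj, rfl⟩ := b
    obtain ⟨_, k, hk, rfl⟩ := c
    have tab : ∀ u v, u < 32 → v < 32 → p u * p v = p v * p u → ivM u v = ivM v u := by
      intro u v hu hv h
      rw [hp u v (by omega) (by omega), hp v u (by omega) (by omega)] at h
      have := ivQ_closed u hu v hv
      have := ivQ_closed v hv u hu
      exact hinj _ _ (by omega) (by omega) h
    have tsq : ∀ u, u < 32 → p u * p u = 1 → ivM u u = 0 := by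
      intro u hu h
      rw [hp u u (by omega) (by omega), ← h0] at h
      have := ivQ_closed u hu u hu
      exact hinj _ _ (by omega) (by norm_num) h
    have hres := ivQ_elem hi hj hk (tsq i hi (hsq _ haE)) (tsq j hj (hsq _ hbE))
      (tsq k hk (hsq _ hcE)) (tab i j hi hj (hcm _ _ haE hbE)) (tab i k hi hk (hcm _ _ haE hcE))
      (tab j k hj hk (hcm _ _ hbE hcE))
    rcases hres with h | h | h | h | h | h | h
    · exact ha (by
        rw [Finset.mem_singleton]; exact Subtype.ext (show p i = 1 by rw [h]; exact h0))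
    · exact hb (by
        rw [Finset.mem_insert]; left; exact Subtype.ext (show p j = 1 by rw [h]; exact h0))
    · exact hb (by
        rw [Finset.mem_insert, Finset.mem_singleton]; right
        exact Subtype.ext (show p j = p i by rw [h]))
    · exact hc (by
        rw [Finset.mem_insert]; left; exact Subtype.ext (show p k = 1 by rw [h]; exact h0))
    · exact hc (by
        rw [Finset.mem_insert, Finset.mem_insert]; right; left
        exact Subtype.ext (show p k = p i by rw [h]))
    · exact hc (by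
        rw [Finset.mem_insert, Finset.mem_insert, Finset.mem_insert]; right; right; left
        exact Subtype.ext (show p k = p j by rw [h]))
    · exact hc (by
        rw [Finset.mem_insert, Finset.mem_insert, Finset.mem_insert, Finset.mem_singleton]
        right; right; right
        exact Subtype.ext (show p k = p i * p j by rw [h, hp i j (by omega) (by omega)]))
  · -- the quotient
    let φ : alternatingGroup (Fin 5) →* K ⧸ Q := (QuotientGroup.mk' Q).comp f
    have hφinj : Function.Injective φ := by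
      rw [injective_iff_map_eq_one]
      intro σ hσ
      have h1 : f σ ∈ Q := by
        have h2 : (QuotientGroup.mk (f σ) : K ⧸ Q) = 1 := hσ
        exact (QuotientGroup.eq_one_iff _).mp h2
      have h3 : f σ = 1 := Subgroup.disjoint_def.mp hdisj h1 ⟨σ, rfl⟩
      exact hfinj (by rw [h3, map_one])
    have hcardq : Nat.card (K ⧸ Q) = 60 := by
      have := Subgroup.card_eq_card_quotient_mul_card_subgroup Q
      rw [hK, hQcard] at this
      omega
    have hφbij : Function.Bijective φ := by
      rw [Nat.bijective_iff_injective_and_card]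
      exact ⟨hφinj, by rw [Cfsg.Agent.Helper40.PresSmall.a5_card, hcardq]⟩
    exact ⟨(MulEquiv.ofBijective φ hφbij).symm⟩

end abs

end Cfsg.Agent.Helper7.J3
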