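/-
Helper7 library: a group of order 7920 with exactly 144 Sylow 11-subgroups is simple.
(Used for the characterisation of `M11` by its order and its numbers of elements of each
order.)
-/
import Mathlib

set_option autoImplicit false

namespace Cfsg.Agent.Helper7.Nse

open Subgroup

section abs

variable {M : Type*} [Group M]

/-- Conjugation by `x` on a subgroup normalised by `x`, as a self-map. -/
def conjEnd (R : Subgroup M) (x : M) (hx : x ∈ normalizer (R : Set M)) : Function.End ↥R :=
  fun r => ⟨x * r.1 * x⁻¹, (mem_normalizer_iff.mp hx r.1).mp r.2⟩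

theorem conjEnd_pow (R : Subgroup M) (x : M) (hx : x ∈ normalizer (R : Set M)) (n : ℕ)
    (r : ↥R) : ((conjEnd R x hx ^ n) r).1 = x ^ n * r.1 * (x ^ n)⁻¹ := by
  induction n generalizing r with
  | zero =>
    rw [pow_zero, pow_zero]
    show r.1 = 1 * r.1 * 1⁻¹
    simp
  | succ n ih =>
    rw [pow_succ]
    show ((conjEnd R x hx ^ n) (conjEnd R x hx r)).1 = _
    rw [ih]
    show x ^ n * (x * r.1 * x⁻¹) * (x ^ n)⁻¹ = _
    rw [pow_succ, mul_inv_rev]
    simp only [mul_assoc]

/-- An element `x` with `x ^ 11 = 1` normalising a subgroup whose order is not `1` modulo 11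
commutes with a non-identity element of it. -/
theorem exists_comm_of_normalizer [Finite M] (R : Subgroup M) (x : M)
    (hx : x ∈ normalizer (R : Set M)) (hx11 : x ^ 11 = 1) (hR : ¬ Nat.card R ≡ 1 [MOD 11]) :
    ∃ r ∈ R, r ≠ 1 ∧ x * r = r * x := by
  classical
  have : Fact (Nat.Prime 11) := ⟨by norm_num⟩
  haveI := Fintype.ofFinite ↥R
  have hf : conjEnd R x hx ^ 11 ^ 1 = 1 := by
    funext r
    apply Subtype.ext
    rw [pow_one, conjEnd_pow, hx11]
    show 1 * r.1 * 1⁻¹ = r.1
    simp
  have h := Equiv.Perm.card_fixedPoints_modEq (f := conjEnd R x hx) (p := 11) (n := 1) hf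
  simp only [Fintype.card_eq_nat_card] at h
  by_contra hno
  have hno' : ∀ r ∈ R, r ≠ 1 → x * r ≠ r * x := fun r hr h1 hc => hno ⟨r, hr, h1, hc⟩
  have hfix : ∀ r : ↥R, conjEnd R x hx r = r → r = 1 := by
    intro r hr
    by_contra h1
    have e : x * r.1 * x⁻¹ = r.1 := congrArg Subtype.val hr
    refine hno' r.1 r.2 (fun h => h1 (Subtype.ext h)) ?_
    calc x * r.1 = (x * r.1 * x⁻¹) * x := by group
      _ = r.1 * x := by rw [e]
  have hc : Nat.card ↥(Function.fixedPoints (conjEnd R x hx)) = 1 := by
    rw [Nat.card_eq_one_iff_unique]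
    refine ⟨⟨?_⟩, ⟨⟨1, ?_⟩⟩⟩
    · rintro ⟨a, ha⟩ ⟨b, hb⟩
      apply Subtype.ext
      show a = b
      rw [hfix a ha, hfix b hb]
    · show conjEnd R x hx 1 = 1
      apply Subtype.ext
      show x * 1 * x⁻¹ = 1
      simp
  rw [hc] at h
  exact hR h

/-- In a finite group in which the elements commuting with an element of order 11 have order
dividing 55, a normal subgroup of order dividing 720 has order dividing 5. -/
theorem card_dvd_five_of_normal [Finite M]
    (hH : ∀ x y : M, orderOf x = 11 → Commute x y → orderOf y ∣ 55)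
    (h11 : 11 ∣ Nat.card M) (K : Subgroup M) [K.Normal] (hK : Nat.card K ∣ 720) :
    Nat.card K ∣ 5 := by
  have : Fact (Nat.Prime 11) := ⟨by norm_num⟩
  have hKpos : Nat.card K ≠ 0 := Nat.card_pos.ne'
  have h11K : ¬ 11 ∣ Nat.card K := fun h => by
    have := h.trans hK
    norm_num at this
  have h11idx : 11 ∣ K.index := by
    have := K.card_mul_index
    rw [← this] at h11
    exact ((Nat.Prime.dvd_mul (by norm_num)).mp h11).resolve_left h11K
  have key : ∀ r : ℕ, r.Prime → (r = 2 ∨ r = 3) → ¬ r ∣ Nat.card K := by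
    intro r hr hr23 hdvd
    have : Fact r.Prime := ⟨hr⟩
    obtain ⟨R⟩ : Nonempty (Sylow r K) := inferInstance
    have hRcard := R.card_eq_multiplicity
    have hk1 : 1 ≤ (Nat.card K).factorization r :=
      hr.factorization_pos_of_dvd hKpos hdvd
    have hk2 : r ^ (Nat.card K).factorization r ∣ 720 :=
      (Nat.ordProj_dvd _ _).trans hK
    have hmod : ¬ Nat.card ((R : Subgroup K).map K.subtype) ≡ 1 [MOD 11] := by
      rw [card_map_of_injective K.subtype_injective, hRcard]
      generalize (Nat.card K).factorization r = k at hk1 hk2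
      rcases hr23 with rfl | rfl
      · have hk : k ≤ 4 := by
          by_contra hk
          have : 2 ^ 5 ∣ 720 := (pow_dvd_pow 2 (by omega)).trans hk2
          norm_num at this
        interval_cases k <;> decide
      · have hk : k ≤ 2 := by
          by_contra hk
          have : 3 ^ 3 ∣ 720 := (pow_dvd_pow 3 (by omega)).trans hk2
          norm_num at this
        interval_cases k <;> decide
    have hfr := Sylow.normalizer_sup_eq_top R
    have hidx : K.index ∣ Nat.card (normalizer (((R : Subgroup K).map K.subtype : Subgroup M) : Set M)) := by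
      have h1 := relIndex_sup_right (H := normalizer (((R : Subgroup K).map K.subtype : Subgroup M) : Set M)) (K := K)
      rw [hfr, relIndex_top_right] at h1
      rw [h1]
      exact relIndex_dvd_card _ _
    obtain ⟨x, hx⟩ := exists_prime_orderOf_dvd_card' 11 (h11idx.trans hidx)
    have hx' : orderOf (x : M) = 11 := by rw [Subgroup.orderOf_coe]; exact hx
    obtain ⟨r0, hr0, hr01, hcomm⟩ := exists_comm_of_normalizer _ (x : M) x.2
      (by rw [← hx']; exact pow_orderOf_eq_one _) hmod
    have h55 := hH (x : M) r0 hx' hcomm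
    have hrk := Subgroup.orderOf_dvd_natCard _ hr0
    rw [card_map_of_injective K.subtype_injective, hRcard] at hrk
    have hcop : Nat.Coprime 55 (r ^ (Nat.card K).factorization r) := by
      apply Nat.Coprime.pow_right
      rcases hr23 with rfl | rfl <;> decide
    have h1 : orderOf r0 ∣ 1 := by
      rw [← Nat.Coprime.gcd_eq_one hcop]
      exact Nat.dvd_gcd h55 hrk
    exact hr01 (orderOf_eq_one_iff.mp (Nat.dvd_one.mp h1))
  have hc2 : Nat.Coprime (Nat.card K) 2 :=
    ((Nat.Prime.coprime_iff_not_dvd Nat.prime_two).mpr (key 2 Nat.prime_two (Or.inl rfl))).symm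
  have hc3 : Nat.Coprime (Nat.card K) 3 :=
    ((Nat.Prime.coprime_iff_not_dvd Nat.prime_three).mpr (key 3 Nat.prime_three (Or.inr rfl))).symm
  have hc : Nat.Coprime (Nat.card K) 144 := by
    rw [show (144 : ℕ) = 2 ^ 4 * 3 ^ 2 by norm_num]
    exact Nat.Coprime.mul_right (Nat.Coprime.pow_right 4 hc2) (Nat.Coprime.pow_right 2 hc3)
  exact hc.dvd_of_dvd_mul_right (by rw [show (5 : ℕ) * 144 = 720 by norm_num]; exact hK)

end abs

section main

variable {G : Type*} [Group G] [Finite G]

theorem fact7920 : (7920 : ℕ).factorization 11 = 1 := by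
  rw [show (7920 : ℕ) = 11 * 720 by norm_num, Nat.factorization_mul (by norm_num) (by norm_num)]
  have h1 : (11 : ℕ).factorization 11 = 1 := Nat.Prime.factorization_self (by norm_num)
  have h2 : (720 : ℕ).factorization 11 = 0 := Nat.factorization_eq_zero_of_not_dvd (by norm_num)
  rw [Finsupp.add_apply, h1, h2]

theorem fact1584 : (1584 : ℕ).factorization 11 = 1 := by
  rw [show (1584 : ℕ) = 11 * 144 by norm_num, Nat.factorization_mul (by norm_num) (by norm_num)]
  have h1 : (11 : ℕ).factorization 11 = 1 := Nat.Prime.factorization_self (by norm_num)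
  have h2 : (144 : ℕ).factorization 11 = 0 := Nat.factorization_eq_zero_of_not_dvd (by norm_num)
  rw [Finsupp.add_apply, h1, h2]

theorem card_normalizer_sylow (hcard : Nat.card G = 7920) (hn : Nat.card (Sylow 11 G) = 144)
    (P : Sylow 11 G) : Nat.card (normalizer (P : Set G)) = 55 := by
  have : Fact (Nat.Prime 11) := ⟨by norm_num⟩
  have h1 := P.card_eq_index_normalizer
  have h2 := (normalizer (P : Set G)).card_mul_index
  rw [← h1, hn, hcard] at h2
  omega

/-- The elements commuting with an element of order 11 have order dividing 55. -/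
theorem order_dvd_of_commute (hcard : Nat.card G = 7920) (hn : Nat.card (Sylow 11 G) = 144)
    (x y : G) (hx : orderOf x = 11) (hxy : Commute x y) : orderOf y ∣ 55 := by
  have : Fact (Nat.Prime 11) := ⟨by norm_num⟩
  let P : Sylow 11 G := Sylow.ofCard (zpowers x)
    (by rw [Nat.card_zpowers, hx, hcard, fact7920, pow_one])
  have hP : (P : Subgroup G) = zpowers x := Sylow.coe_ofCard _ _
  have hy : y ∈ normalizer (P : Set G) := by
    apply centralizer_le_normalizer
    rw [mem_centralizer_iff]
    intro h hh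
    have hh' : h ∈ (P : Subgroup G) := hh
    rw [hP] at hh'
    obtain ⟨k, rfl⟩ := hh'
    exact (hxy.zpow_left k).eq
  rw [← card_normalizer_sylow hcard hn P]
  exact Subgroup.orderOf_dvd_natCard _ hy

/-- There is no nontrivial normal subgroup of order prime to 11. -/
theorem not_normal_coprime (hcard : Nat.card G = 7920) (hn : Nat.card (Sylow 11 G) = 144)
    (N : Subgroup G) [N.Normal] (hN : N ≠ ⊥) (h11 : ¬ 11 ∣ Nat.card N) : False := by
  have : Fact (Nat.Prime 11) := ⟨by norm_num⟩
  have hH := order_dvd_of_commute hcard hn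
  have h11G : 11 ∣ Nat.card G := by rw [hcard]; norm_num
  have hNdvd : Nat.card N ∣ 720 := by
    have h1 : Nat.card N ∣ 720 * 11 := by
      rw [show 720 * 11 = 7920 by norm_num, ← hcard]; exact N.card_subgroup_dvd_card
    have hc : Nat.Coprime (Nat.card N) 11 :=
      ((Nat.Prime.coprime_iff_not_dvd (by norm_num)).mpr h11).symm
    exact hc.dvd_of_dvd_mul_right h1
  have h5 := card_dvd_five_of_normal hH h11G N hNdvd
  have hN5 : Nat.card N = 5 := by
    have h1 : Nat.card N ≠ 1 := fun h => hN (Subgroup.card_eq_one.mp h)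
    have := (Nat.dvd_prime (by norm_num : Nat.Prime 5)).mp h5
    tauto
  obtain ⟨x, hx⟩ := exists_prime_orderOf_dvd_card' 11 h11G
  have hxN : x ∈ normalizer (N : Set G) := by rw [normalizer_eq_top]; exact mem_top x
  obtain ⟨r0, hr0, hr01, hcomm⟩ := exists_comm_of_normalizer N x hxN
    (by rw [← hx]; exact pow_orderOf_eq_one x) (by rw [hN5]; decide)
  have hr5 : orderOf r0 = 5 := by
    have h1 := Subgroup.orderOf_dvd_natCard N hr0
    rw [hN5] at h1
    rcases (Nat.dvd_prime (by norm_num : Nat.Prime 5)).mp h1 with h | h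
    · exact absurd (orderOf_eq_one_iff.mp h) hr01
    · exact h
  have hcomm' : Commute x r0 := hcomm
  have h55 : orderOf (x * r0) = 55 := by
    rw [hcomm'.orderOf_mul_eq_mul_orderOf_of_coprime (by rw [hx, hr5]; decide), hx, hr5]
  let P : Sylow 11 G := Sylow.ofCard (zpowers x)
    (by rw [Nat.card_zpowers, hx, hcard, fact7920, pow_one])
  have hP : (P : Subgroup G) = zpowers x := Sylow.coe_ofCard _ _
  have hcz : ∀ h : G, h ∈ (P : Set G) → h * (x * r0) = (x * r0) * h := by
    intro h hh
    have hh' : h ∈ (P : Subgroup G) := hh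
    rw [hP] at hh'
    obtain ⟨k, rfl⟩ := hh'
    exact (((Commute.refl x).mul_right hcomm').zpow_left k).eq
  have hNP : zpowers (x * r0) = normalizer (P : Set G) := by
    apply eq_of_le_of_card_ge
    · rw [zpowers_le]
      apply centralizer_le_normalizer
      rw [mem_centralizer_iff]
      exact hcz
    · rw [card_normalizer_sylow hcard hn P, Nat.card_zpowers, h55]
  have hPc : normalizer (P : Set G) ≤ centralizer (P : Set G) := by
    rw [← hNP, zpowers_le, mem_centralizer_iff]
    exact hcz
  have hcomp := MonoidHom.ker_transferSylow_isComplement' P hPc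
  have hmul := hcomp.card_mul_card
  have hPcard : Nat.card (P : Subgroup G) = 11 := by rw [hP, Nat.card_zpowers, hx]
  rw [hPcard, hcard] at hmul
  have hK720 : Nat.card (MonoidHom.transferSylow P hPc).ker = 720 := by omega
  have := card_dvd_five_of_normal hH h11G (MonoidHom.transferSylow P hPc).ker (by rw [hK720])
  rw [hK720] at this
  norm_num at this

/-- There is no subgroup of order 1584. -/
theorem no_card_1584 (hcard : Nat.card G = 7920) (hn : Nat.card (Sylow 11 G) = 144)
    (N : Subgroup G) (hN : Nat.card N = 1584) : False := by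
  have : Fact (Nat.Prime 11) := ⟨by norm_num⟩
  have hH := order_dvd_of_commute hcard hn
  have hHN : ∀ x y : ↥N, orderOf x = 11 → Commute x y → orderOf y ∣ 55 := by
    intro x y hx hxy
    rw [← Subgroup.orderOf_coe] at hx ⊢
    exact hH x y hx (congrArg Subtype.val hxy.eq)
  have h11N : 11 ∣ Nat.card N := by rw [hN]; norm_num
  obtain ⟨x, hx⟩ := exists_prime_orderOf_dvd_card' 11 h11N
  have hx' : orderOf (x : G) = 11 := by rw [Subgroup.orderOf_coe]; exact hx
  let Q : Sylow 11 ↥N := Sylow.ofCard (zpowers x)
    (by rw [Nat.card_zpowers, hx, hN, fact1584, pow_one])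
  have hQ : (Q : Subgroup ↥N) = zpowers x := Sylow.coe_ofCard _ _
  let P : Sylow 11 G := Sylow.ofCard (zpowers (x : G))
    (by rw [Nat.card_zpowers, hx', hcard, fact7920, pow_one])
  have hP : (P : Subgroup G) = zpowers (x : G) := Sylow.coe_ofCard _ _
  have hle : (normalizer (Q : Set ↥N)).map N.subtype ≤ normalizer ((P : Subgroup G) : Set G) := by
    rw [le_normalizer_iff]
    rintro _ ⟨g, hg, rfl⟩ k hk
    rw [hP] at hk ⊢
    obtain ⟨i, rfl⟩ := hk
    have h1 : x ^ i ∈ (Q : Subgroup ↥N) := by rw [hQ]; exact zpow_mem_zpowers x i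
    have h2 : g * x ^ i * g⁻¹ ∈ (Q : Subgroup ↥N) := (mem_normalizer_iff.mp hg (x ^ i)).mp h1
    rw [hQ] at h2
    obtain ⟨j, hj⟩ := h2
    refine ⟨j, ?_⟩
    have := congrArg Subtype.val hj
    simpa using this
  have h2 : Nat.card (normalizer (Q : Set ↥N)) ∣ 55 := by
    have := card_dvd_of_le hle
    rw [card_map_of_injective N.subtype_injective] at this
    rw [← card_normalizer_sylow hcard hn P]
    exact this
  have h1 : Nat.card (normalizer (Q : Set ↥N)) ∣ 1584 := by
    rw [← hN]; exact card_subgroup_dvd_card _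
  have hNQ : zpowers x = normalizer (Q : Set ↥N) := by
    apply eq_of_le_of_card_ge
    · rw [← hQ]; exact le_normalizer
    · rw [Nat.card_zpowers, hx]
      have h3 : Nat.card (normalizer (Q : Set ↥N)) ∣ Nat.gcd 1584 55 := Nat.dvd_gcd h1 h2
      exact Nat.le_of_dvd (by norm_num) (by simpa using h3)
  have hQc : normalizer (Q : Set ↥N) ≤ centralizer (Q : Set ↥N) := by
    rw [← hNQ, zpowers_le, mem_centralizer_iff]
    intro h hh
    have hh' : h ∈ (Q : Subgroup ↥N) := hh
    rw [hQ] at hh'
    obtain ⟨k, rfl⟩ := hh'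
    exact ((Commute.refl x).zpow_left k).eq
  have hcomp := MonoidHom.ker_transferSylow_isComplement' Q hQc
  have hmul := hcomp.card_mul_card
  have hQcard : Nat.card (Q : Subgroup ↥N) = 11 := by rw [hQ, Nat.card_zpowers, hx]
  rw [hQcard, hN] at hmul
  have hK : Nat.card (MonoidHom.transferSylow Q hQc).ker = 144 := by omega
  have := card_dvd_five_of_normal hHN h11N (MonoidHom.transferSylow Q hQc).ker
    (by rw [hK]; norm_num)
  rw [hK] at this
  norm_num at this

/-- A normal subgroup of order divisible by 11 is the whole group. -/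
theorem eq_top_of_dvd (hcard : Nat.card G = 7920) (hn : Nat.card (Sylow 11 G) = 144)
    (N : Subgroup G) [N.Normal] (h11 : 11 ∣ Nat.card N) : N = ⊤ := by
  have : Fact (Nat.Prime 11) := ⟨by norm_num⟩
  obtain ⟨x, hx⟩ := exists_prime_orderOf_dvd_card' 11 h11
  have hx' : orderOf (x : G) = 11 := by rw [Subgroup.orderOf_coe]; exact hx
  let P : Sylow 11 G := Sylow.ofCard (zpowers (x : G))
    (by rw [Nat.card_zpowers, hx', hcard, fact7920, pow_one])
  have hP : (P : Subgroup G) = zpowers (x : G) := Sylow.coe_ofCard _ _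
  have hPN : (P : Subgroup G) ≤ N := by rw [hP, zpowers_le]; exact x.2
  have hfr := Sylow.normalizer_sup_eq_top' P hPN
  have hidx : N.index ∣ 55 := by
    have h1 := relIndex_sup_right (H := normalizer (P : Set G)) (K := N)
    rw [hfr, relIndex_top_right] at h1
    rw [h1, ← card_normalizer_sylow hcard hn P]
    exact relIndex_dvd_card _ _
  have hmul := N.card_mul_index
  rw [hcard] at hmul
  have hidx5 : N.index ∣ 5 := by
    obtain ⟨c, hc⟩ := h11
    rw [hc] at hmul
    have h720 : c * N.index = 720 := by nlinarith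
    have h1 : N.index ∣ 720 := Dvd.intro_left c h720
    have h3 : N.index ∣ Nat.gcd 55 720 := Nat.dvd_gcd hidx h1
    simpa using h3
  rcases (Nat.dvd_prime (by norm_num : Nat.Prime 5)).mp hidx5 with h1 | h5
  · exact index_eq_one.mp h1
  · exfalso
    rw [h5] at hmul
    exact no_card_1584 hcard hn N (by omega)

/-- A group of order 7920 with exactly 144 Sylow 11-subgroups is simple. -/
theorem isSimpleGroup_of_card_sylow (hcard : Nat.card G = 7920)
    (hn : Nat.card (Sylow 11 G) = 144) : IsSimpleGroup G := by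
  haveI : Nontrivial G := by
    rw [← Finite.one_lt_card_iff_nontrivial, hcard]; norm_num
  refine ⟨fun N hN => ?_⟩
  by_cases hb : N = ⊥
  · exact Or.inl hb
  · right
    by_cases h11 : 11 ∣ Nat.card N
    · exact eq_top_of_dvd hcard hn N h11
    · exact (not_normal_coprime hcard hn N hb h11).elim

end main

end Cfsg.Agent.Helper7.Nse
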