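/-
Helper7 library: kernel checks on the enumeration of `M11` (the products of the coset
representatives, their orders, and that they are pairwise different).
-/
import Cfsg.Agent.Helper7.NseM11Data
import Cfsg.Agent.Helper7.CodeFast

set_option autoImplicit false

namespace Cfsg.Agent.Helper7.Nse

open Cfsg Cfsg.Agent.Helper7

/-- `f x`, with `x` evaluated first. -/
def nLet (x : ℕ) (f : ℕ → ℕ) : ℕ := Nat.rec (f 0) (fun k _ => f (Nat.succ k)) x

theorem nLet_eq (x : ℕ) (f : ℕ → ℕ) : nLet x f = f x := by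
  cases x <;> rfl

/-- `f x`, with `x` evaluated first. -/
def nLetL (x : ℕ) (f : ℕ → List ℕ) : List ℕ := Nat.rec (f 0) (fun k _ => f (Nat.succ k)) x

theorem nLetL_eq (x : ℕ) (f : ℕ → List ℕ) : nLetL x f = f x := by
  cases x <;> rfl

/-- `f x`, with `x` evaluated first. -/
def nLetB (x : ℕ) (f : ℕ → Bool) : Bool := Nat.rec (f 0) (fun k _ => f (Nat.succ k)) x

theorem nLetB_eq (x : ℕ) (f : ℕ → Bool) : nLetB x f = f x := by
  cases x <;> rfl

/-- codes of elements of `M11` -/
def m11Code (c : ℕ) : Bool := codeM24 c && (Nat.beq (pm c dMask) dMask && Nat.beq (tbl c 0) 0)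

theorem tr_valid : (tr1 ++ (tr2 ++ (tr3 ++ tr4))).all m11Code = true := by decide +kernel

/-- the products with the representatives of level 4 -/
def prods4 (abc : ℕ) : List ℕ := tr4.map (fun d => compF abc d)

/-- the products with the representatives of levels 3 and 4 -/
def prods3 (ab : ℕ) : List ℕ := tr3.flatMap (fun c => nLetL (compF ab c) prods4)

/-- the products with the representatives of levels 2, 3 and 4 -/
def prods2 (a : ℕ) : List ℕ := tr2.flatMap (fun b => nLetL (compF a b) prods3)

/-- all products -/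
def prods : List ℕ := tr1.flatMap prods2

/-- the first `n` entries of the table are those of the identity -/
def isIdAux (c : ℕ) : ℕ → Bool
  | 0 => true
  | j + 1 => Nat.beq (tbl c j) j && isIdAux c j

/-- the order of the permutation with table `c`: `cur` is the table of its `k`-th power -/
def ordAux (c : ℕ) : ℕ → ℕ → ℕ → ℕ
  | 0, _, _ => 0
  | fuel + 1, cur, k =>
    bif isIdAux cur 24 then k else nLet (compF c cur) (fun cur' => ordAux c fuel cur' (Nat.succ k))

/-- the order of the permutation with table `c` (if it is at most 12) -/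
def ordC (c : ℕ) : ℕ := nLet c (fun c' => ordAux c' 12 c' 1)

/-- the images of the points `1, 2, 3, 4` -/
def key (c : ℕ) : ℕ :=
  Nat.add (tbl c 1) (Nat.mul 32 (Nat.add (tbl c 2) (Nat.mul 32 (Nat.add (tbl c 3)
    (Nat.mul 32 (tbl c 4))))))

/-- the keys of the list are pairwise different and not in the set with mask `m` -/
def distinctAux : List ℕ → ℕ → Bool
  | [], _ => true
  | c :: l, m => nLetB c fun c' => nLetB (key c') fun k =>
      Nat.beq (Nat.mod (Nat.shiftRight m k) 2) 0 &&
        nLetB (Nat.lor m (Nat.pow 2 k)) (distinctAux l)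

theorem ords_eq0 : (prods2 0xbdab49ca307b9ac5a928398a418820).map ordC = ords0 := by decide +kernel

theorem ords_eq1 : (prods2 0x2ceb4b36295ba4c79e06522e418440).map ordC = ords1 := by decide +kernel

theorem ords_eq2 : (prods2 0x2d66fb22e65ba0ca2a493b62410460).map ordC = ords2 := by decide +kernel

theorem ords_eq3 : (prods2 0x7ba65b496dbd52ca1d1051a2310480).map ordC = ords3 := by decide +kernel

theorem ords_eq4 : (prods2 0xa968e520f08cc897d9b25b2e3104c0).map ordC = ords4 := by decide +kernel

theorem ords_eq5 : (prods2 0x55cf1a26a6759b05bd849c8a310500).map ordC = ords5 := by decide +kernel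

theorem ords_eq6 : (prods2 0xa16ae3c1488bd869ae4db12e310520).map ordC = ords6 := by decide +kernel

theorem ords_eq7 : (prods2 0x9b9e55b6d2bd0c4aaa083a62310580).map ordC = ords7 := by decide +kernel

theorem ords_eq8 : (prods2 0x5c6d77926c2aa123d526a21c3105a0).map ordC = ords8 := by decide +kernel

theorem ords_eq9 : (prods2 0x3dd51a9a8972e48b4c8c7b4a310600).map ordC = ords9 := by decide +kernel

theorem ords_eq10 : (prods2 0xb45779b1e429d0d550c9ac1c310640).map ordC = ords10 := by decide +kernel

theorem keys_distinct : distinctAux prods 0 = true := by decide +kernel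

theorem ordsAll_length : ordsAll.length = 7920 := by decide +kernel

theorem ords_ok0 : ∀ x ∈ ords0, x < 12 ∧ x ≠ 0 := by decide +kernel

theorem ords_ok1 : ∀ x ∈ ords1, x < 12 ∧ x ≠ 0 := by decide +kernel

theorem ords_ok2 : ∀ x ∈ ords2, x < 12 ∧ x ≠ 0 := by decide +kernel

theorem ords_ok3 : ∀ x ∈ ords3, x < 12 ∧ x ≠ 0 := by decide +kernel

theorem ords_ok4 : ∀ x ∈ ords4, x < 12 ∧ x ≠ 0 := by decide +kernel

theorem ords_ok5 : ∀ x ∈ ords5, x < 12 ∧ x ≠ 0 := by decide +kernel

theorem ords_ok6 : ∀ x ∈ ords6, x < 12 ∧ x ≠ 0 := by decide +kernel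

theorem ords_ok7 : ∀ x ∈ ords7, x < 12 ∧ x ≠ 0 := by decide +kernel

theorem ords_ok8 : ∀ x ∈ ords8, x < 12 ∧ x ≠ 0 := by decide +kernel

theorem ords_ok9 : ∀ x ∈ ords9, x < 12 ∧ x ≠ 0 := by decide +kernel

theorem ords_ok10 : ∀ x ∈ ords10, x < 12 ∧ x ≠ 0 := by decide +kernel

theorem ordsAll_ok : ∀ x ∈ ordsAll, x < 12 ∧ x ≠ 0 := by
  intro x hx
  simp only [ordsAll, List.mem_append] at hx
  rcases hx with h | h | h | h | h | h | h | h | h | h | h
  exacts [ords_ok0 x h, ords_ok1 x h, ords_ok2 x h, ords_ok3 x h, ords_ok4 x h, ords_ok5 x h,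
    ords_ok6 x h, ords_ok7 x h, ords_ok8 x h, ords_ok9 x h, ords_ok10 x h]

theorem ordsAll_count : ∀ n ∈ List.range 12,
    ordsAll.count n ∈ [0, 1, 165, 440, 990, 1584, 1320, 1980, 1440] := by decide +kernel

theorem ordsAll_count11 : ordsAll.count 11 = 1440 := by decide +kernel

theorem ordsAll_count5 : ordsAll.count 5 = 1584 := by decide +kernel

end Cfsg.Agent.Helper7.Nse
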