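/-
Helper7 library: the number of elements of each order in `M11`, from the enumeration of its
`7920` elements as products of coset representatives.
-/
import Cfsg.Agent.Helper7.NseM11Chk
import Cfsg.Agent.S0387

set_option autoImplicit false
open scoped Pointwise

namespace Cfsg.Agent.Helper7.Nse

open Cfsg Cfsg.Agent.Helper7

/-! ### The products are elements of `M11` -/

theorem mem_M11_of_code {c : ℕ} (h : m11Code c = true) :
    permOf c ∈ Spor.M11 ∧ IsTbl (permOf c) c := by
  rw [m11Code, Bool.and_eq_true, Bool.and_eq_true] at h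
  obtain ⟨h1, h2, h3⟩ := h
  have hT := isTbl_of_codeM24 h1
  refine ⟨mem_M11_iff.mpr ⟨mem_M12_of (permOf_mem_M24 h1)
    (smul_dMask_of_tbl hT (Nat.eq_of_beq_eq_true h2)), ?_⟩, hT⟩
  have := apply_pt_of_tbl hT (j := 0) (k := 0) (by norm_num) (Nat.eq_of_beq_eq_true h3)
  rwa [pt_0] at this

theorem tr_mem {c : ℕ} (h : c ∈ tr1 ∨ c ∈ tr2 ∨ c ∈ tr3 ∨ c ∈ tr4) :
    ∃ g : ↥Spor.M11, IsTbl g.1 c := by
  have hv := List.all_eq_true.mp tr_valid c (by simpa only [List.mem_append] using h)
  exact ⟨⟨permOf c, (mem_M11_of_code hv).1⟩, (mem_M11_of_code hv).2⟩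

theorem prods_mem {c : ℕ} (h : c ∈ prods) : ∃ g : ↥Spor.M11, IsTbl g.1 c := by
  rw [prods, List.mem_flatMap] at h
  obtain ⟨a, ha, h⟩ := h
  rw [prods2, List.mem_flatMap] at h
  obtain ⟨b, hb, h⟩ := h
  rw [nLetL_eq, prods3, List.mem_flatMap] at h
  obtain ⟨c', hc', h⟩ := h
  rw [nLetL_eq, prods4, List.mem_map] at h
  obtain ⟨d, hd, rfl⟩ := h
  obtain ⟨ga, hga⟩ := tr_mem (Or.inl ha)
  obtain ⟨gb, hgb⟩ := tr_mem (Or.inr (Or.inl hb))
  obtain ⟨gc, hgc⟩ := tr_mem (Or.inr (Or.inr (Or.inl hc')))
  obtain ⟨gd, hgd⟩ := tr_mem (Or.inr (Or.inr (Or.inr hd)))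
  exact ⟨ga * gb * gc * gd, ((hga.mulF hgb).mulF hgc).mulF hgd⟩

open Classical in
/-- the element of `M11` with a given table -/
noncomputable def elt (c : ℕ) : ↥Spor.M11 :=
  if h : ∃ g : ↥Spor.M11, IsTbl g.1 c then h.choose else 1

theorem elt_spec {c : ℕ} (h : c ∈ prods) : IsTbl (elt c).1 c := by
  rw [elt, dif_pos (prods_mem h)]
  exact (prods_mem h).choose_spec

/-! ### The products are pairwise different -/

/-- the images of the points `1, 2, 3, 4` under an element of `M11` -/
def keyG (g : ↥Spor.M11) : ℕ :=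
  idx (g.1 (pt 1)) + 32 * (idx (g.1 (pt 2)) + 32 * (idx (g.1 (pt 3)) + 32 * idx (g.1 (pt 4))))

theorem keyG_of_tbl {g : ↥Spor.M11} {c : ℕ} (h : IsTbl g.1 c) : keyG g = key c := by
  have h1 := h (pt 1)
  have h2 := h (pt 2)
  have h3 := h (pt 3)
  have h4 := h (pt 4)
  rw [idx_pt (by norm_num)] at h1 h2 h3 h4
  rw [keyG, h1, h2, h3, h4]
  rfl

theorem distinctAux_spec (l : List ℕ) (m : ℕ) (h : distinctAux l m = true) :
    (l.map key).Nodup ∧ ∀ c ∈ l, m.testBit (key c) = false := by
  induction l generalizing m with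
  | nil => exact ⟨List.nodup_nil, fun c hc => absurd hc List.not_mem_nil⟩
  | cons c l ih =>
    have h' : (Nat.beq (Nat.mod (Nat.shiftRight m (key c)) 2) 0 &&
        distinctAux l (Nat.lor m (Nat.pow 2 (key c)))) = true := by
      have hdef : distinctAux (c :: l) m = nLetB c fun c' => nLetB (key c') fun k =>
          Nat.beq (Nat.mod (Nat.shiftRight m k) 2) 0 &&
            nLetB (Nat.lor m (Nat.pow 2 k)) (distinctAux l) := rfl
      rw [hdef, nLetB_eq, nLetB_eq, nLetB_eq] at h
      exact h
    rw [Bool.and_eq_true] at h'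
    obtain ⟨h1, h2⟩ := h'
    obtain ⟨ihn, ihm⟩ := ih _ h2
    have hbit : m.testBit (key c) = false := by
      have h3 : m / 2 ^ key c % 2 = 0 := by
        rw [← Nat.shiftRight_eq_div_pow]
        exact Nat.eq_of_beq_eq_true h1
      rw [Nat.testBit_eq_decide_div_mod_eq, h3]
      rfl
    have hor : ∀ j, (Nat.lor m (Nat.pow 2 (key c))).testBit j =
        (m.testBit j || decide (key c = j)) := by
      intro j
      show (m ||| 2 ^ key c).testBit j = _
      rw [Nat.testBit_or, Nat.testBit_two_pow]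
    refine ⟨?_, ?_⟩
    · rw [List.map_cons, List.nodup_cons]
      refine ⟨?_, ihn⟩
      intro hmem
      obtain ⟨c2, hc2, hk⟩ := List.mem_map.mp hmem
      have := ihm c2 hc2
      rw [hor, hk] at this
      simp at this
    · intro c2 hc2
      rcases List.mem_cons.mp hc2 with rfl | hc2
      · exact hbit
      · have := ihm c2 hc2
        rw [hor, Bool.or_eq_false_iff] at this
        exact this.1

theorem keys_nodup : (prods.map key).Nodup := (distinctAux_spec prods 0 keys_distinct).1

/-- the list of the elements of `M11` -/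
noncomputable def elts : List ↥Spor.M11 := prods.map elt

theorem elts_nodup : elts.Nodup := by
  have h : elts.map keyG = prods.map key := by
    rw [elts, List.map_map]
    exact List.map_congr_left fun c hc => keyG_of_tbl (elt_spec hc)
  exact List.Nodup.of_map keyG (h ▸ keys_nodup)

/-! ### The order of `M11` -/

/-- the stabiliser in `M24` of the dodecad of squares and of the point `0` is `M11` -/
def e11 : ↥(MulAction.stabilizer ↥M24 Spor.squareDodecad ⊓
    MulAction.stabilizer ↥M24 (some 0 : GolayPt)) ≃* ↥Spor.M11 where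
  toFun g := ⟨g.1.1, ⟨⟨g.1.2, g.2.1⟩, g.2.2⟩⟩
  invFun k := ⟨⟨k.1, k.2.1.1⟩, ⟨k.2.1.2, k.2.2⟩⟩
  left_inv _ := rfl
  right_inv _ := rfl
  map_mul' _ _ := rfl

theorem squareDodecad_mem : Spor.squareDodecad ∈ dodecads := squareDodecad_eq ▸ setOf_dMask_mem

theorem zero_mem_squareDodecad : (some 0 : GolayPt) ∈ Spor.squareDodecad := by
  rw [squareDodecad_eq, ← pt_0]
  exact pt_mem_dMask (Or.inl rfl)

theorem card_M11' : Nat.card ↥Spor.M11 = 7920 := by
  rw [← Nat.card_congr e11.toEquiv]
  exact Cfsg.Agent.S0387.result _ squareDodecad_mem _ zero_mem_squareDodecad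

/-! ### The orders -/

theorem prods_map_ordC : prods.map ordC = ordsAll := by
  rw [prods, tr1]
  simp only [List.flatMap_cons, List.flatMap_nil, List.map_append, List.map_nil, List.append_nil]
  rw [ords_eq0, ords_eq1, ords_eq2, ords_eq3, ords_eq4, ords_eq5, ords_eq6, ords_eq7, ords_eq8,
    ords_eq9, ords_eq10]
  rfl

theorem elts_length : elts.length = 7920 := by
  rw [elts, List.length_map, ← List.length_map (f := ordC), prods_map_ordC, ordsAll_length]

theorem mem_elts (g : ↥Spor.M11) : g ∈ elts := by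
  classical
  have hfin : Fintype ↥Spor.M11 := Fintype.ofFinite _
  have h1 : elts.toFinset.card = Fintype.card ↥Spor.M11 := by
    rw [List.toFinset_card_of_nodup elts_nodup, elts_length, ← Nat.card_eq_fintype_card, card_M11']
  have h2 := Finset.eq_univ_of_card _ h1
  exact List.mem_toFinset.mp (h2 ▸ Finset.mem_univ g)

theorem isIdAux_spec (c : ℕ) (n : ℕ) : isIdAux c n = true ↔ ∀ j < n, tbl c j = j := by
  induction n with
  | zero => simp [isIdAux]
  | succ n ih =>
    rw [isIdAux, Bool.and_eq_true, ih]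
    constructor
    · rintro ⟨h1, h2⟩ j hj
      rcases Nat.lt_succ_iff_lt_or_eq.mp hj with h | rfl
      · exact h2 j h
      · exact Nat.eq_of_beq_eq_true h1
    · intro h
      exact ⟨by rw [h n (Nat.lt_succ_self n)]; exact Nat.beq_refl n,
        fun j hj => h j (Nat.lt_succ_of_lt hj)⟩

theorem eq_one_iff_isId {g : Equiv.Perm GolayPt} {c : ℕ} (hg : IsTbl g c) :
    g = 1 ↔ isIdAux c 24 = true := by
  rw [isIdAux_spec]
  constructor
  · rintro rfl j hj
    have := hg (pt j)
    rw [idx_pt hj] at this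
    rw [← this, Equiv.Perm.one_apply, idx_pt hj]
  · intro h
    refine Equiv.ext fun p => idx_injective ?_
    rw [hg p, h _ (idx_lt p)]
    rfl

theorem ordAux_spec {g : Equiv.Perm GolayPt} {c : ℕ} (hg : IsTbl g c) (fuel : ℕ) :
    ∀ (cur k : ℕ), 0 < k → IsTbl (g ^ k) cur → (∀ i, 0 < i → i < k → g ^ i ≠ 1) →
      ordAux c fuel cur k ≠ 0 → orderOf g = ordAux c fuel cur k := by
  induction fuel with
  | zero => intro cur k _ _ _ h; exact absurd rfl h
  | succ fuel ih =>
    intro cur k hk hcur hlt hne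
    have hdef : ordAux c (fuel + 1) cur k =
        bif isIdAux cur 24 then k else ordAux c fuel (compF c cur) (Nat.succ k) := by
      show (bif isIdAux cur 24 then k else
        nLet (compF c cur) (fun cur' => ordAux c fuel cur' (Nat.succ k))) = _
      rw [nLet_eq]
    rw [hdef] at hne ⊢
    cases hid : isIdAux cur 24 with
    | true =>
      rw [cond_true]
      exact (orderOf_eq_iff hk).mpr ⟨(eq_one_iff_isId hcur).mpr hid, fun m hm hm0 => hlt m hm0 hm⟩
    | false =>
      rw [hid, cond_false] at hne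
      rw [cond_false]
      refine ih _ _ (Nat.succ_pos k) ?_ ?_ hne
      · have : g ^ (k + 1) = g * g ^ k := pow_succ' g k
        rw [Nat.succ_eq_add_one, this]
        exact hg.mulF hcur
      · intro i hi hik
        rcases Nat.lt_succ_iff_lt_or_eq.mp hik with h | rfl
        · exact hlt i hi h
        · intro h1
          rw [(eq_one_iff_isId hcur).mp h1] at hid
          exact Bool.noConfusion hid

theorem ordC_spec {g : Equiv.Perm GolayPt} {c : ℕ} (hg : IsTbl g c) (h : ordC c ≠ 0) :
    orderOf g = ordC c := by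
  have hdef : ordC c = ordAux c 12 c 1 := nLet_eq _ _
  rw [hdef] at h ⊢
  exact ordAux_spec hg 12 c 1 Nat.one_pos (by rw [pow_one]; exact hg)
    (fun i hi hi1 => by omega) h

theorem orderOf_elt {c : ℕ} (hc : c ∈ prods) : orderOf (elt c) = ordC c := by
  rw [← Subgroup.orderOf_coe]
  apply ordC_spec (elt_spec hc)
  have : ordC c ∈ ordsAll := prods_map_ordC ▸ List.mem_map_of_mem (f := ordC) hc
  exact (ordsAll_ok _ this).2

/-- The number of elements of order `n` in `M11`. -/
theorem card_order_eq (n : ℕ) :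
    Nat.card {g : ↥Spor.M11 // orderOf g = n} = ordsAll.count n := by
  classical
  have hfin : Fintype ↥Spor.M11 := Fintype.ofFinite _
  rw [Nat.card_eq_fintype_card, Fintype.card_subtype]
  have h1 : (Finset.univ.filter fun g : ↥Spor.M11 => orderOf g = n) =
      (elts.filter fun g => orderOf g = n).toFinset := by
    ext g
    simp [mem_elts]
  rw [h1, List.toFinset_card_of_nodup (elts_nodup.filter _), ← List.countP_eq_length_filter, elts,
    List.countP_map, ← prods_map_ordC, List.count, List.countP_map]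
  apply List.countP_congr
  intro c hc
  simp [orderOf_elt hc]

/-- The numbers of elements of a given order in `M11`. -/
theorem card_order_mem (n : ℕ) : Nat.card {g : ↥Spor.M11 // orderOf g = n} ∈
    [0, 1, 165, 440, 990, 1584, 1320, 1980, 1440] := by
  rw [card_order_eq]
  by_cases hn : n < 12
  · exact ordsAll_count n (List.mem_range.mpr hn)
  · have : ordsAll.count n = 0 := List.count_eq_zero.mpr fun h => hn (ordsAll_ok n h).1
    rw [this]
    exact List.mem_cons_self

end Cfsg.Agent.Helper7.Nse
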