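/-
Helper7 library: a finite group with the order of `M11` and the same set of numbers of elements
of each order is simple of order `7920`.
-/
import Cfsg.Agent.Helper7.NseM11
import Cfsg.Agent.Helper7.NseAbs
import Cfsg.Agent.Helper74.CGMCNT
import Cfsg.Prelude.Def_Sporadic

set_option autoImplicit false
open scoped Pointwise

namespace Cfsg.Agent.Helper7.Nse

open Cfsg Cfsg.Agent.Helper7

/-- A finite group with the order of `M11` and the same set of numbers of elements of each
order has `144` Sylow `11`-subgroups. -/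
theorem nse_card_sylow {G : Type*} [Group G] [Finite G]
    (hcard : Nat.card G = Nat.card ↥Cfsg.Spor.M11)
    (hnse : {c : ℕ | 0 < c ∧ ∃ n : ℕ, c = Nat.card {g : G // orderOf g = n}} =
      {c : ℕ | 0 < c ∧ ∃ n : ℕ, c = Nat.card {g : ↥Cfsg.Spor.M11 // orderOf g = n}}) :
    Nat.card (Sylow 11 G) = 144 := by
  have hc : Nat.card G = 7920 := hcard.trans card_M11'
  haveI : Fact (Nat.Prime 11) := ⟨by norm_num⟩
  have h11 : 11 ∣ Nat.card G := by rw [hc]; norm_num
  have h121 : ¬ 11 ^ 2 ∣ Nat.card G := by rw [hc]; norm_num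
  have hm := Cfsg.Agent.Helper74.cgm_card_orderOf_prime (G := G) 11 h11 h121
  have hpos : 0 < Nat.card (Sylow 11 G) := Nat.card_pos
  have hmem : Nat.card {g : G // orderOf g = 11} ∈
      {c : ℕ | 0 < c ∧ ∃ n : ℕ, c = Nat.card {g : G // orderOf g = n}} :=
    ⟨by rw [hm]; exact Nat.mul_pos (by norm_num) hpos, 11, rfl⟩
  rw [hnse] at hmem
  obtain ⟨-, n, hn⟩ := hmem
  have hval := card_order_mem n
  rw [← hn, hm] at hval
  have hmod : Nat.card (Sylow 11 G) % 11 = 1 := card_sylow_modEq_one 11 G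
  simp only [List.mem_cons, List.not_mem_nil, or_false] at hval
  omega

/-- A finite group with the order of `M11` and the same set of numbers of elements of each
order is simple of order `7920`. -/
theorem nse_M11_core {G : Type*} [Group G] [Finite G]
    (hcard : Nat.card G = Nat.card ↥Cfsg.Spor.M11)
    (hnse : {c : ℕ | 0 < c ∧ ∃ n : ℕ, c = Nat.card {g : G // orderOf g = n}} =
      {c : ℕ | 0 < c ∧ ∃ n : ℕ, c = Nat.card {g : ↥Cfsg.Spor.M11 // orderOf g = n}}) :
    IsSimpleGroup G ∧ Nat.card G = 7920 :=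
  ⟨isSimpleGroup_of_card_sylow (hcard.trans card_M11') (nse_card_sylow hcard hnse),
    hcard.trans card_M11'⟩

/-- The reduction of the statement to the uniqueness of `M11`. -/
theorem nse_M11_of_unique {G : Type*} [Group G] [Finite G]
    (huniq : Cfsg.IsM11 G → ∀ (d : Finset Cfsg.GolayPt), d ∈ Cfsg.dodecads →
      ∀ (p : Cfsg.GolayPt), p ∈ d → Nonempty (G ≃* ↥(MulAction.stabilizer Cfsg.M24 d ⊓
        MulAction.stabilizer Cfsg.M24 p)))
    (hcard : Nat.card G = Nat.card ↥Cfsg.Spor.M11)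
    (hnse : {c : ℕ | 0 < c ∧ ∃ n : ℕ, c = Nat.card {g : G // orderOf g = n}} =
      {c : ℕ | 0 < c ∧ ∃ n : ℕ, c = Nat.card {g : ↥Cfsg.Spor.M11 // orderOf g = n}}) :
    Nonempty (G ≃* ↥Cfsg.Spor.M11) := by
  obtain ⟨e⟩ := huniq (nse_M11_core hcard hnse) Spor.squareDodecad squareDodecad_mem (some 0)
    zero_mem_squareDodecad
  exact ⟨e.trans e11⟩

end Cfsg.Agent.Helper7.Nse
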