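import Mathlib

/-!
# Piece K of CALL S4629 (helper95): the reflection core (helper7)

Pure group theory: a group generated by a subgroup `T` and a set `R` of involutions carrying a
two-valued class function, both normalised suitably; the subgroup `N` generated by `T` and the
products of two reflections of the same class has index at most 4 and all squares of `N` are
commutators.
-/

set_option autoImplicit false

namespace Cfsg.Agent.Helper7

open Subgroup
open scoped commutatorElement

/-- Squares lie in the commutator subgroup as soon as the squares of generators do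
(local copy, Mathlib only). -/
theorem osylK_sq_closure {G : Type*} [Group G] (S : Set G)
    (h : ∀ s ∈ S, s ^ 2 ∈ ⁅Subgroup.closure S, Subgroup.closure S⁆) :
    ∀ x ∈ Subgroup.closure S, x ^ 2 ∈ ⁅Subgroup.closure S, Subgroup.closure S⁆ := by
  intro x hx
  induction hx using Subgroup.closure_induction with
  | mem s hs => exact h s hs
  | one => rw [one_pow]; exact one_mem _
  | mul a b ha hb iha ihb =>
    have e : (a * b) ^ 2 = a ^ 2 * ⁅a⁻¹, b⁆ * b ^ 2 := by
      rw [commutatorElement_def, pow_two, pow_two, pow_two]; group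
    rw [e]
    exact mul_mem (mul_mem iha (Subgroup.commutator_mem_commutator (inv_mem ha) hb)) ihb
  | inv a _ iha =>
    have e : (a⁻¹) ^ 2 = (a ^ 2)⁻¹ := by rw [inv_pow]
    rw [e]
    exact inv_mem iha

theorem osyl_refl_core {G : Type*} [Group G] [Finite G] (T : Subgroup G) (R : Set G) (cl : G → Bool)
    (hR2 : ∀ r ∈ R, r * r = 1)
    (hRR : ∀ r ∈ R, ∀ s ∈ R, s * r * s⁻¹ ∈ R ∧ cl (s * r * s⁻¹) = cl r)
    (hTR : ∀ t ∈ T, ∀ r ∈ R, t * r * t⁻¹ ∈ R ∧ cl (t * r * t⁻¹) = cl r)
    (hslot : ∀ r ∈ R, ∀ s ∈ R, ∃ s' ∈ R, cl s' = cl s ∧ s' * r = r * s' ∧ s' * s = s * s')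
    (hT : ∀ t ∈ T, t ^ 2 ∈ ⁅T, T⁆) :
    Nat.card ↥(Subgroup.closure ((T : Set G) ∪ R)) ≤
        4 * Nat.card ↥(Subgroup.closure
          ((T : Set G) ∪ {x | ∃ r ∈ R, ∃ r' ∈ R, cl r = cl r' ∧ x = r * r'})) ∧
      ∀ x ∈ Subgroup.closure ((T : Set G) ∪ {x | ∃ r ∈ R, ∃ r' ∈ R, cl r = cl r' ∧ x = r * r'}),
        x ^ 2 ∈ ⁅Subgroup.closure ((T : Set G) ∪ {x | ∃ r ∈ R, ∃ r' ∈ R, cl r = cl r' ∧ x = r * r'}),
          Subgroup.closure ((T : Set G) ∪ {x | ∃ r ∈ R, ∃ r' ∈ R, cl r = cl r' ∧ x = r * r'})⁆ := by
  classical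
  generalize hX : {x : G | ∃ r ∈ R, ∃ r' ∈ R, cl r = cl r' ∧ x = r * r'} = X
  generalize hN : Subgroup.closure ((T : Set G) ∪ X) = N
  have hinv : ∀ r ∈ R, r⁻¹ = r := fun r hr => inv_eq_of_mul_eq_one_left (hR2 r hr)
  have hTN : T ≤ N := fun t ht => hN ▸ Subgroup.subset_closure (Or.inl ht)
  have hXN : ∀ r ∈ R, ∀ r' ∈ R, cl r = cl r' → r * r' ∈ N := fun r hr r' hr' h =>
    hN ▸ Subgroup.subset_closure (Or.inr (hX ▸ ⟨r, hr, r', hr', h, rfl⟩))
  -- conjugation by elements of `R` preserves `N`
  have hnorm : ∀ r ∈ R, ∀ n ∈ N, r * n * r⁻¹ ∈ N := by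
    intro r hr n hn
    rw [← hN] at hn
    induction hn using Subgroup.closure_induction with
    | mem x hx =>
      rcases hx with ht | hx
      · have h1 := hTR x ht r hr
        have h2 : r * x * r⁻¹ = r * (x * r * x⁻¹) * x := by rw [hinv r hr]; group
        rw [h2]
        exact N.mul_mem (hXN r hr _ h1.1 h1.2.symm) (hTN ht)
      · rw [← hX] at hx
        obtain ⟨r1, hr1, r2, hr2, hc, rfl⟩ := hx
        have h1 := hRR r1 hr1 r hr
        have h2 := hRR r2 hr2 r hr
        have h3 : r * (r1 * r2) * r⁻¹ = (r * r1 * r⁻¹) * (r * r2 * r⁻¹) := by group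
        rw [h3]
        exact hXN _ h1.1 _ h2.1 (by rw [h1.2, h2.2, hc])
    | one => simp
    | mul a b _ _ iha ihb =>
      have : r * (a * b) * r⁻¹ = (r * a * r⁻¹) * (r * b * r⁻¹) := by group
      rw [this]; exact N.mul_mem iha ihb
    | inv a _ iha =>
      have : r * a⁻¹ * r⁻¹ = (r * a * r⁻¹)⁻¹ := by group
      rw [this]; exact N.inv_mem iha
  refine ⟨?_, ?_⟩
  · -- representatives of the two classes
    obtain ⟨a, ha1, ha2⟩ : ∃ a : G, (a = 1 ∨ (a ∈ R ∧ cl a = true)) ∧
        ∀ r ∈ R, cl r = true → (a ∈ R ∧ cl a = true) := by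
      by_cases h : ∃ r ∈ R, cl r = true
      · obtain ⟨r, hr, hc⟩ := h
        exact ⟨r, Or.inr ⟨hr, hc⟩, fun _ _ _ => ⟨hr, hc⟩⟩
      · exact ⟨1, Or.inl rfl, fun r hr hc => absurd ⟨r, hr, hc⟩ h⟩
    obtain ⟨b, hb1, hb2⟩ : ∃ b : G, (b = 1 ∨ (b ∈ R ∧ cl b = false)) ∧
        ∀ r ∈ R, cl r = false → (b ∈ R ∧ cl b = false) := by
      by_cases h : ∃ r ∈ R, cl r = false
      · obtain ⟨r, hr, hc⟩ := h
        exact ⟨r, Or.inr ⟨hr, hc⟩, fun _ _ _ => ⟨hr, hc⟩⟩
      · exact ⟨1, Or.inl rfl, fun r hr hc => absurd ⟨r, hr, hc⟩ h⟩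
    have haa : a * a = 1 := by
      rcases ha1 with rfl | ⟨h, _⟩
      · simp
      · exact hR2 a h
    have hbb : b * b = 1 := by
      rcases hb1 with rfl | ⟨h, _⟩
      · simp
      · exact hR2 b h
    have hai : a⁻¹ = a := inv_eq_of_mul_eq_one_left haa
    have hbi : b⁻¹ = b := inv_eq_of_mul_eq_one_left hbb
    have hna : ∀ n ∈ N, a * n * a⁻¹ ∈ N := by
      rcases ha1 with rfl | ⟨h, _⟩
      · intro n hn; simpa using hn
      · exact hnorm a h
    have hnb : ∀ n ∈ N, b * n * b⁻¹ ∈ N := by
      rcases hb1 with rfl | ⟨h, _⟩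
      · intro n hn; simpa using hn
      · exact hnorm b h
    have hc : b * a * b⁻¹ * a⁻¹ ∈ N := by
      rcases ha1 with rfl | ⟨h, hca⟩
      · simp [N.one_mem]
      · rcases hb1 with rfl | ⟨h', _⟩
        · simp [N.one_mem]
        · have h1 := hRR a h b h'
          rw [hai]
          exact hXN _ h1.1 a h h1.2
    -- the four cosets
    let u : Bool → G := fun i => if i = true then a else 1
    let v : Bool → G := fun j => if j = true then b else 1
    have hw : ∀ (i j : Bool), ∀ n ∈ N, (u i * v j) * n * (u i * v j)⁻¹ ∈ N := by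
      intro i j n hn
      have e : (u i * v j) * n * (u i * v j)⁻¹ = u i * (v j * n * (v j)⁻¹) * (u i)⁻¹ := by group
      rw [e]
      have h1 : v j * n * (v j)⁻¹ ∈ N := by
        rcases j with _ | _
        · simpa [v] using hn
        · simpa [v] using hnb n hn
      rcases i with _ | _
      · simpa [u] using h1
      · simpa [u] using hna _ h1
    have key : ∀ y ∈ (T : Set G) ∪ R, ∀ x : G,
        (∃ n ∈ N, ∃ i j : Bool, x = n * u i * v j) →
        ∃ n ∈ N, ∃ i j : Bool, x * y = n * u i * v j := by
      intro y hy x hx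
      obtain ⟨n, hn, i, j, rfl⟩ := hx
      rcases hy with ht | hr
      · refine ⟨n * ((u i * v j) * y * (u i * v j)⁻¹), N.mul_mem hn (hw i j y (hTN ht)), i, j, ?_⟩
        group
      · rcases hcl : cl y with _ | _
        · -- class `false`
          obtain ⟨hbR, hbc⟩ := hb2 y hr hcl
          have hm : y * b ∈ N := hXN y hr b hbR (by rw [hcl, hbc])
          have hy : y = (y * b) * b := by rw [mul_assoc, hbb, mul_one]
          have e : n * u i * v j * y =
              n * ((u i * v j) * (y * b) * (u i * v j)⁻¹) * (u i * v j * b) := by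
            rw [show n * u i * v j * y = n * u i * v j * ((y * b) * b) by rw [← hy]]
            group
          have hn' : n * ((u i * v j) * (y * b) * (u i * v j)⁻¹) ∈ N := N.mul_mem hn (hw i j _ hm)
          rw [e]
          rcases j with _ | _
          · refine ⟨_, hn', i, true, ?_⟩
            have e1 : u i * v false * b = u i * v true := by
              simp only [v, if_true, Bool.false_eq_true, if_false, mul_one]
            rw [e1]; group
          · refine ⟨_, hn', i, false, ?_⟩
            have e1 : u i * v true * b = u i * v false := by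
              simp only [v, if_true, Bool.false_eq_true, if_false, mul_one]
              rw [mul_assoc, hbb, mul_one]
            rw [e1]; group
        · -- class `true`
          obtain ⟨haR, hac⟩ := ha2 y hr hcl
          have hm : y * a ∈ N := hXN y hr a haR (by rw [hcl, hac])
          have hy : y = (y * a) * a := by rw [mul_assoc, haa, mul_one]
          have e : n * u i * v j * y = n * ((u i * v j) * (y * a) * (u i * v j)⁻¹) * (u i * v j * a) := by
            rw [show n * u i * v j * y = n * u i * v j * ((y * a) * a) by rw [← hy]]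
            group
          have hn' : n * ((u i * v j) * (y * a) * (u i * v j)⁻¹) ∈ N := N.mul_mem hn (hw i j _ hm)
          rw [e]
          rcases j with _ | _
          · rcases i with _ | _
            · refine ⟨_, hn', true, false, ?_⟩
              simp only [u, v, if_true, Bool.false_eq_true, if_false]
              group
            · refine ⟨_, hn', false, false, ?_⟩
              have e1 : u true * v false * a = u false * v false := by
                simp only [u, v, if_true, Bool.false_eq_true, if_false, mul_one]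
                exact haa
              rw [e1]; group
          · -- `b * a = c * a * b`
            have hba : b * a = (b * a * b⁻¹ * a⁻¹) * a * b := by group
            rcases i with _ | _
            · refine ⟨n * ((u false * v true) * (y * a) * (u false * v true)⁻¹) *
                (b * a * b⁻¹ * a⁻¹), N.mul_mem hn' hc, true, true, ?_⟩
              simp only [u, v, if_true, Bool.false_eq_true, if_false]
              rw [one_mul, mul_assoc _ (b * a * b⁻¹ * a⁻¹) a, mul_assoc _ ((b * a * b⁻¹ * a⁻¹) * a) b,
                ← hba]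
            · refine ⟨n * ((u true * v true) * (y * a) * (u true * v true)⁻¹) *
                (a * (b * a * b⁻¹ * a⁻¹) * a⁻¹), N.mul_mem hn' (hna _ hc), false, true, ?_⟩
              simp only [u, v, if_true, Bool.false_eq_true, if_false]
              have e3 : a * (b * a * b⁻¹ * a⁻¹) * a⁻¹ = a * b * a * b⁻¹ * (a * a)⁻¹ := by group
              rw [e3, haa]
              group
    have hP : ∀ g ∈ Subgroup.closure ((T : Set G) ∪ R),
        ∃ n ∈ N, ∃ i j : Bool, g = n * u i * v j := by
      intro g hg
      induction hg using Subgroup.closure_induction_right with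
      | one => exact ⟨1, N.one_mem, false, false, by simp [u, v]⟩
      | mul_right x _ y hy ih => exact key y hy x ih
      | mul_inv_cancel x _ y hy ih =>
        rcases hy with ht | hr
        · exact key y⁻¹ (Or.inl (T.inv_mem ht)) x ih
        · rw [hinv y hr]; exact key y (Or.inr hr) x ih
    -- counting
    let f : ↥N × Bool × Bool → G := fun p => (p.1 : G) * u p.2.1 * v p.2.2
    have hsub : ((Subgroup.closure ((T : Set G) ∪ R) : Subgroup G) : Set G) ⊆ f '' Set.univ := by
      intro g hg
      obtain ⟨n, hn, i, j, rfl⟩ := hP g hg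
      exact ⟨(⟨n, hn⟩, i, j), Set.mem_univ _, rfl⟩
    have h1 : Nat.card ↥(Subgroup.closure ((T : Set G) ∪ R)) ≤ (f '' Set.univ).ncard := by
      have := Set.ncard_le_ncard hsub (Set.toFinite _)
      rwa [← Nat.card_coe_set_eq] at this
    have h2 : (f '' Set.univ).ncard ≤ Nat.card (↥N × Bool × Bool) := by
      have := Set.ncard_image_le (f := f) (s := Set.univ) (Set.toFinite _)
      rwa [Set.ncard_univ] at this
    have h3 : Nat.card (↥N × Bool × Bool) = 4 * Nat.card ↥N := by
      rw [Nat.card_prod, Nat.card_prod, Nat.card_eq_fintype_card (α := Bool), Fintype.card_bool]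
      ring
    exact (h1.trans h2).trans h3.le
  · rw [← hN]
    apply osylK_sq_closure
    intro s hs
    rw [hN]
    rcases hs with ht | hs
    · exact Subgroup.commutator_mono hTN hTN (hT s ht)
    · rw [← hX] at hs
      obtain ⟨r, hr, r', hr', hc, rfl⟩ := hs
      obtain ⟨s', hs', hcs, h1, h2⟩ := hslot r' hr' r hr
      have hx : r * r' ∈ N := hXN r hr r' hr' hc
      have hy : r * s' ∈ N := hXN r hr s' hs' hcs.symm
      have e3 : s' * s' = 1 := hR2 s' hs'
      have e4 : r * r = 1 := hR2 r hr
      have h3 : (r * r') ^ 2 = ⁅r * r', r * s'⁆ := by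
        rw [commutatorElement_def, pow_two, mul_inv_rev, mul_inv_rev, hinv r hr, hinv r' hr',
          hinv s' hs']
        symm
        calc r * r' * (r * s') * (r' * r) * (s' * r)
            = r * r' * r * (s' * r') * r * s' * r := by group
          _ = r * r' * r * (r' * s') * r * s' * r := by rw [h1]
          _ = r * r' * r * r' * (s' * r) * s' * r := by group
          _ = r * r' * r * r' * (r * s') * s' * r := by rw [h2]
          _ = r * r' * r * r' * r * (s' * s') * r := by group
          _ = r * r' * r * r' * (r * r) := by rw [e3]; group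
          _ = r * r' * (r * r') := by rw [e4]; group
      rw [h3]
      exact Subgroup.commutator_mem_commutator hx hy

end Cfsg.Agent.Helper7
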