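import Cfsg.Agent.Helper7.Octad
import Cfsg.Agent.Helper7.Count
import Cfsg.Agent.Helper7.M24Trans
import Cfsg.Agent.Helper7.Simple

/-!
# The stabiliser of an octad: `2^4 : A_8`

* `resHom o` : restriction of the setwise stabiliser of a finset to the finset;
* `octad_fix_free`, `octad_fix_trans` : the pointwise stabiliser of an octad in `M24` acts regularly
  on the 16 points outside the octad;
* `card_stab_octad` : the stabiliser of an octad in `M24` has order `322560`;
* `range_resM24` : the stabiliser of an octad induces the alternating group on the octad.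
-/

set_option autoImplicit false
open scoped Pointwise
open Cfsg

namespace Cfsg.Agent.Helper7

/-- Restriction of a permutation stabilising a finset to that finset. -/
def resHom {α : Type*} [DecidableEq α] (o : Finset α) :
    ↥(MulAction.stabilizer (Equiv.Perm α) o) →* Equiv.Perm ↥o where
  toFun g := (g : Equiv.Perm α).subtypePerm (fun x => MulAction.mem_stabilizer_finset.mp g.2 x)
  map_one' := by ext x; rfl
  map_mul' g h := by ext x; rfl

theorem resHom_apply {α : Type*} [DecidableEq α] (o : Finset α)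
    (g : ↥(MulAction.stabilizer (Equiv.Perm α) o)) (x : ↥o) :
    ((resHom o g x : ↥o) : α) = (g : Equiv.Perm α) (x : α) := rfl

/-- Restriction to a finset `o` of the elements of a subgroup `K` stabilising `o`. -/
def resSub {α : Type*} [DecidableEq α] (K : Subgroup (Equiv.Perm α)) (o : Finset α) :
    ↥(K ⊓ MulAction.stabilizer (Equiv.Perm α) o) →* Equiv.Perm ↥o :=
  (resHom o).comp (Subgroup.inclusion inf_le_right)

theorem resSub_apply {α : Type*} [DecidableEq α] (K : Subgroup (Equiv.Perm α)) (o : Finset α)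
    (g : ↥(K ⊓ MulAction.stabilizer (Equiv.Perm α) o)) (x : ↥o) :
    ((resSub K o g x : ↥o) : α) = (g : Equiv.Perm α) (x : α) := rfl

theorem fixing_le_stabilizer {α : Type*} [DecidableEq α] (o : Finset α) :
    fixingSubgroup (Equiv.Perm α) (o : Set α) ≤ MulAction.stabilizer (Equiv.Perm α) o := by
  intro g hg
  rw [mem_fixingSubgroup_iff] at hg
  rw [MulAction.mem_stabilizer_finset']
  intro b hb
  rw [hg b (Finset.mem_coe.mpr hb)]
  exact hb

theorem mem_ker_resSub {α : Type*} [DecidableEq α] (K : Subgroup (Equiv.Perm α)) (o : Finset α)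
    (g : ↥(K ⊓ MulAction.stabilizer (Equiv.Perm α) o)) :
    g ∈ (resSub K o).ker ↔ (g : Equiv.Perm α) ∈ fixingSubgroup (Equiv.Perm α) (o : Set α) := by
  rw [MonoidHom.mem_ker, mem_fixingSubgroup_iff]
  constructor
  · intro h y hy
    have := congrArg (fun e : Equiv.Perm ↥o => ((e ⟨y, Finset.mem_coe.mp hy⟩ : ↥o) : α)) h
    exact this
  · intro h
    ext x
    exact h x.1 (Finset.mem_coe.mpr x.2)

/-- The kernel of the restriction map is the pointwise stabiliser. -/
theorem card_ker_resSub {α : Type*} [DecidableEq α] (K : Subgroup (Equiv.Perm α)) (o : Finset α) :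
    Nat.card ↥(resSub K o).ker = Nat.card ↥(K ⊓ fixingSubgroup (Equiv.Perm α) (o : Set α)) := by
  apply Nat.card_congr
  exact
    { toFun := fun g => ⟨g.1.1, ⟨g.1.2.1, (mem_ker_resSub K o g.1).mp g.2⟩⟩
      invFun := fun g => ⟨⟨g.1, ⟨g.2.1, fixing_le_stabilizer o g.2.2⟩⟩,
        (mem_ker_resSub K o _).mpr g.2.2⟩
      left_inv := fun _ => rfl
      right_inv := fun _ => rfl }

theorem card_range_resSub {α : Type*} [DecidableEq α] (K : Subgroup (Equiv.Perm α)) (o : Finset α) :
    Nat.card ↥(resSub K o).range * Nat.card ↥(K ⊓ fixingSubgroup (Equiv.Perm α) (o : Set α))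
      = Nat.card ↥(K ⊓ MulAction.stabilizer (Equiv.Perm α) o) := by
  rw [← card_ker_resSub, ← Subgroup.index_ker, Subgroup.index_mul_card]

/-! ### The orbit of octads -/

theorem orbit_setOf_O0 : MulAction.orbit (↥M24) (setOf O0) = octads := by
  ext y
  constructor
  · rintro ⟨g, rfl⟩
    exact smul_mem_wordsOfWeight g.2 setOf_O0_mem
  · intro hy
    obtain ⟨g, hg, rfl⟩ := octad_eq_smul_O0 hy
    exact ⟨⟨g, hg⟩, rfl⟩

theorem orbit_octad {o : Finset GolayPt} (ho : o ∈ octads) :
    MulAction.orbit (↥M24) o = octads := by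
  obtain ⟨g, hg, rfl⟩ := octad_eq_smul_O0 ho
  have : (g • setOf O0 : Finset GolayPt) = (⟨g, hg⟩ : ↥M24) • setOf O0 := rfl
  rw [this, MulAction.orbit_smul, orbit_setOf_O0]

theorem count_octads759 : countRange (fun c => Nat.beq (wt (enc c)) 8) 12 0 = 759 := by
  decide +kernel

theorem ncard_octads : octads.ncard = 759 := by
  have h := ncard_supports (fun o => o.card = 8) (fun c => Nat.beq (wt (enc c)) 8) (by
    intro c _
    rw [card_setOf]
    constructor
    · intro h1
      exact Nat.eq_of_beq_eq_true h1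
    · intro h1
      rw [h1]
      exact Nat.beq_refl 8)
  rw [← count_octads759, ← h]
  rfl

/-- The stabiliser of an octad in `M24` has order `322560 = 2^4 * 20160`. -/
theorem card_stab_octad {o : Finset GolayPt} (ho : o ∈ octads) :
    Nat.card ↥(M24 ⊓ MulAction.stabilizer (Equiv.Perm GolayPt) o) = 322560 := by
  have h1 := card_orbit_mul_card_stabilizer o
  rw [orbit_octad ho, Nat.card_coe_set_eq, ncard_octads,
    Nat.card_congr (stabSubEquiv M24 o).toEquiv] at h1
  omega

/-- The image of the stabiliser of an octad in the symmetric group of the octad has order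
`20160`. -/
theorem card_range_octad {o : Finset GolayPt} (ho : o ∈ octads) :
    Nat.card ↥(resSub M24 o).range = 20160 := by
  have h := card_range_resSub M24 o
  rw [(octad_fixing ho).1, card_stab_octad ho] at h
  omega

/-- The stabiliser of an octad in `M24` induces the alternating group on the octad. -/
theorem range_resM24 {o : Finset GolayPt} (ho : o ∈ octads) :
    (resSub M24 o).range = alternatingGroup ↥o := by
  apply Equiv.Perm.eq_alternatingGroup_of_index_eq_two
  have h1 := Subgroup.index_mul_card (resSub M24 o).range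
  have h2 : Nat.card (Equiv.Perm ↥o) = 40320 := by
    rw [Nat.card_perm, Nat.card_eq_fintype_card, Fintype.card_coe, ho.2]
    rfl
  rw [card_range_octad ho, h2] at h1
  omega

/-! ### Regularity of the pointwise stabiliser on the complement -/

theorem outside_O0 {q : GolayPt} (hq : q ∉ setOf O0) :
    q ∈ setOf (0xffffff ^^^ O0) ∧ q ∉ O0pts.map pt := by
  rw [mem_setOf] at hq ⊢
  constructor
  · have hall : ∀ j, j < 24 → O0.testBit j ≠ true → (0xffffff ^^^ O0).testBit j = true := by
      decide +kernel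
    exact hall _ (idx_lt q) hq
  · intro h
    rw [List.mem_map] at h
    obtain ⟨j, hj, rfl⟩ := h
    have hall : ∀ j ∈ O0pts, j < 24 ∧ O0.testBit j = true := by decide +kernel
    rw [idx_pt (hall j hj).1] at hq
    exact hq (hall j hj).2

/-- An element of `M24` fixing the octad `setOf O0` pointwise and a further point is trivial. -/
theorem fix_O0_free {q : GolayPt} (hq : q ∉ setOf O0) {g : Equiv.Perm GolayPt}
    (hg : g ∈ M24 ⊓ fixL O0pts) (hgq : g q = q) : g = 1 := by
  obtain ⟨e, he, heq⟩ := E6_level q (outside_O0 hq).1 (outside_O0 hq).2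
  have he' : e ∈ M24 ⊓ fixL O0pts := ⟨E6_le he.1, he.2⟩
  have h1 : e⁻¹ * g * e ∈ M24 ⊓ fixL (O0pts ++ [5]) := by
    have h2 : e⁻¹ * g * e ∈ M24 ⊓ fixL O0pts :=
      Subgroup.mul_mem _ (Subgroup.mul_mem _ (Subgroup.inv_mem _ he') hg) he'
    refine ⟨h2.1, mem_fixL_append_singleton.mpr ⟨h2.2, ?_⟩⟩
    rw [Equiv.Perm.mul_apply, Equiv.Perm.mul_apply, heq, hgq, ← heq]
    simp
  rw [lvO_bot, Subgroup.mem_bot] at h1
  have h3 : g = e * (e⁻¹ * g * e) * e⁻¹ := by group
  rw [h3, h1]
  group

/-- The pointwise stabiliser of `setOf O0` in `M24` is transitive on the complement. -/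
theorem fix_O0_trans {p q : GolayPt} (hp : p ∉ setOf O0) (hq : q ∉ setOf O0) :
    ∃ g ∈ M24 ⊓ fixL O0pts, g p = q := by
  obtain ⟨e, he, hep⟩ := E6_level p (outside_O0 hp).1 (outside_O0 hp).2
  obtain ⟨f, hf, hfq⟩ := E6_level q (outside_O0 hq).1 (outside_O0 hq).2
  have he' : e ∈ M24 ⊓ fixL O0pts := ⟨E6_le he.1, he.2⟩
  have hf' : f ∈ M24 ⊓ fixL O0pts := ⟨E6_le hf.1, hf.2⟩
  refine ⟨f * e⁻¹, Subgroup.mul_mem _ hf' (Subgroup.inv_mem _ he'), ?_⟩
  rw [Equiv.Perm.mul_apply, ← hep, ← hfq]
  simp

theorem not_mem_smul_iff {h : Equiv.Perm GolayPt} {s : Finset GolayPt} {p : GolayPt} :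
    p ∉ (h • s : Finset GolayPt) ↔ h⁻¹ p ∉ s := by
  rw [not_iff_not, Finset.mem_smul_finset]
  constructor
  · rintro ⟨y, hy, rfl⟩
    rw [Equiv.Perm.smul_def]
    simpa using hy
  · intro hy
    exact ⟨h⁻¹ p, hy, by rw [Equiv.Perm.smul_def]; simp⟩

/-- An element of `M24` fixing an octad pointwise and a further point is trivial. -/
theorem octad_fix_free {o : Finset GolayPt} (ho : o ∈ octads) {p : GolayPt} (hp : p ∉ o)
    {g : Equiv.Perm GolayPt}
    (hg : g ∈ M24 ⊓ fixingSubgroup (Equiv.Perm GolayPt) (o : Set GolayPt)) (hgp : g p = p) :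
    g = 1 := by
  obtain ⟨h, hh, rfl⟩ := octad_eq_smul_O0 ho
  have h1 := (mem_fixing_smul_iff hh _ _).mp hg
  rw [fixing_O0] at h1
  have h2 := fix_O0_free (not_mem_smul_iff.mp hp) h1 (by
    rw [Equiv.Perm.mul_apply, Equiv.Perm.mul_apply]
    simp [hgp])
  have h3 : g = h * (h⁻¹ * g * h) * h⁻¹ := by group
  rw [h3, h2]
  group

/-- The pointwise stabiliser of an octad in `M24` is transitive on the complement. -/
theorem octad_fix_trans {o : Finset GolayPt} (ho : o ∈ octads) {p q : GolayPt} (hp : p ∉ o)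
    (hq : q ∉ o) :
    ∃ g ∈ M24 ⊓ fixingSubgroup (Equiv.Perm GolayPt) (o : Set GolayPt), g p = q := by
  obtain ⟨h, hh, rfl⟩ := octad_eq_smul_O0 ho
  obtain ⟨e, he, hepq⟩ := fix_O0_trans (not_mem_smul_iff.mp hp) (not_mem_smul_iff.mp hq)
  refine ⟨h * e * h⁻¹, (mem_fixing_smul_iff hh _ _).mpr ?_, ?_⟩
  · have : h⁻¹ * (h * e * h⁻¹) * h = e := by group
    rw [this, fixing_O0]
    exact he
  · rw [Equiv.Perm.mul_apply, Equiv.Perm.mul_apply, hepq]
    simp

end Cfsg.Agent.Helper7
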