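/-
Helper7 library: an explicit Sylow 2-subgroup of `M24` and the proof that it is its own
normaliser; hence every Sylow 2-subgroup of `M24` is self-normalising.

The subgroup `sylP` is generated by a polycyclic sequence of ten elements; its 1024 elements are
listed (`sylE`). It contains an element `w` of order 8 whose centraliser in `M24` (16 elements,
found by a verified search) lies in `sylP`, and all elements of `sylP` whose fourth power is not
the identity are conjugate to `w` inside `sylP`.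
-/
import Cfsg.Agent.Helper7.Syl2Data
import Cfsg.Agent.Helper7.CentTw
import Cfsg.Agent.Helper7.M24

set_option autoImplicit false
open scoped Pointwise

namespace Cfsg.Agent.Helper7

open Cfsg

/-- The set of elements of `M24` whose table is in the list. -/
def sylT : Set ↥M24 := {g | ∃ i, i < 1024 ∧ IsTbl (g : Equiv.Perm GolayPt) (sylE i)}

/-- The explicit Sylow 2-subgroup. -/
def sylP : Subgroup ↥M24 :=
  Subgroup.closure {g | ∃ t ∈ sylGP, IsTbl (g : Equiv.Perm GolayPt) t.1}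

theorem one_mem_sylT : (1 : ↥M24) ∈ sylT := by
  refine ⟨0, by norm_num, ?_⟩
  rw [Nat.eq_of_beq_eq_true sylE_zero]
  exact IsTbl.one

theorem gen_mul_sylT {g t : ↥M24} (hg : ∃ p ∈ sylGP, IsTbl (g : Equiv.Perm GolayPt) p.1)
    (ht : t ∈ sylT) : g * t ∈ sylT := by
  obtain ⟨p, hp, hgp⟩ := hg
  obtain ⟨i, hi, hti⟩ := ht
  have h1 := List.all_eq_true.mp sylGP_closed p hp
  have h2 := allRange_spec _ 10 0 h1 i (Nat.zero_le _) (by norm_num; exact hi)
  have h3 : compF p.1 (sylE i) = sylE (tenA p.2 i) := Nat.eq_of_beq_eq_true h2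
  refine ⟨tenA p.2 i, tenA_lt _ _, ?_⟩
  rw [← h3]
  exact hgp.mulF hti

theorem sylP_sub {g : ↥M24} (hg : g ∈ sylP) : g ∈ sylT := by
  have hstab : sylP ≤ MulAction.stabilizer ↥M24 sylT := by
    rw [sylP, Subgroup.closure_le]
    intro g hg
    rw [SetLike.mem_coe, MulAction.mem_stabilizer_set' (Set.toFinite _)]
    intro t ht
    exact gen_mul_sylT hg ht
  have h := hstab hg
  rw [MulAction.mem_stabilizer_set' (Set.toFinite _)] at h
  have h1 := h one_mem_sylT
  rwa [smul_eq_mul, mul_one] at h1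

theorem sylGP_length : sylGP.length = 10 := by decide

theorem sylE_mem_aux (k : ℕ) (hk : k ≤ 10) :
    ∀ i, i < 2 ^ k → ∃ g ∈ sylP, IsTbl (g : Equiv.Perm GolayPt) (sylE i) := by
  induction k with
  | zero =>
    intro i hi
    have : i = 0 := by simpa using hi
    subst this
    refine ⟨1, one_mem _, ?_⟩
    rw [Nat.eq_of_beq_eq_true sylE_zero]
    exact IsTbl.one
  | succ k ih =>
    intro i hi
    by_cases h : i < 2 ^ k
    · exact ih (by omega) i h
    · have hj : i - 2 ^ k < 2 ^ k := by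
        rw [pow_succ] at hi
        omega
      obtain ⟨g', hg', ht'⟩ := ih (by omega) _ hj
      have hk10 : k < 10 := by omega
      have h1 := List.all_eq_true.mp sylE_dbl k (List.mem_range.mpr hk10)
      have h2 := allRange_spec _ k 0 h1 (i - 2 ^ k) (Nat.zero_le _) (by rw [zero_add]; exact hj)
      have h3 : sylE (Nat.add (Nat.pow 2 k) (i - 2 ^ k)) =
          compF (sylGP.getD k (0, 0)).1 (sylE (i - 2 ^ k)) := Nat.eq_of_beq_eq_true h2
      have hi' : Nat.add (Nat.pow 2 k) (i - 2 ^ k) = i := by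
        show 2 ^ k + (i - 2 ^ k) = i
        omega
      rw [hi'] at h3
      have hp : sylGP.getD k (0, 0) ∈ sylGP := by
        rw [List.getD_eq_getElem _ _ (by rw [sylGP_length]; exact hk10)]
        exact List.getElem_mem _
      have hcode : codeM24 (sylGP.getD k (0, 0)).1 = true := List.all_eq_true.mp sylGP_ok _ hp
      have htb := isTbl_of_codeM24 hcode
      refine ⟨⟨permOf (sylGP.getD k (0, 0)).1, permOf_mem_M24 hcode⟩ * g', ?_, ?_⟩
      · exact mul_mem (Subgroup.subset_closure ⟨_, hp, htb⟩) hg'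
      · rw [h3]
        exact htb.mulF ht'

theorem sylE_mem {i : ℕ} (hi : i < 1024) :
    ∃ g ∈ sylP, IsTbl (g : Equiv.Perm GolayPt) (sylE i) :=
  sylE_mem_aux 10 le_rfl i (by norm_num; exact hi)

theorem keyS_eq {g : Equiv.Perm GolayPt} {c c' : ℕ} (h : IsTbl g c) (h' : IsTbl g c') :
    keyS c = keyS c' := by
  have ht : ∀ j, j < 24 → tbl c j = tbl c' j := by
    intro j hj
    have a := h (pt j)
    have b := h' (pt j)
    rw [idx_pt hj] at a b
    exact a.symm.trans b
  rw [keyS, keyS, ht 0 (by norm_num), ht 1 (by norm_num), ht 3 (by norm_num)]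

theorem sylE_inj {g : Equiv.Perm GolayPt} {i j : ℕ} (hi : i < 1024) (hj : j < 1024)
    (h : IsTbl g (sylE i)) (h' : IsTbl g (sylE j)) : i = j := by
  have a : tenA sylK (keyS (sylE i)) = i := Nat.eq_of_beq_eq_true
    (allRange_spec _ 10 0 sylK_ok i (Nat.zero_le _) (by norm_num; exact hi))
  have b : tenA sylK (keyS (sylE j)) = j := Nat.eq_of_beq_eq_true
    (allRange_spec _ 10 0 sylK_ok j (Nat.zero_le _) (by norm_num; exact hj))
  rw [← a, ← b, keyS_eq h h']

theorem card_sylP : Nat.card ↥sylP = 1024 := by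
  let f : Fin 1024 → ↥sylP := fun i =>
    ⟨(sylE_mem i.2).choose, (sylE_mem i.2).choose_spec.1⟩
  have hf : ∀ i : Fin 1024, IsTbl (((f i : ↥sylP) : ↥M24) : Equiv.Perm GolayPt) (sylE i) :=
    fun i => (sylE_mem i.2).choose_spec.2
  have hbij : Function.Bijective f := by
    constructor
    · intro i j hij
      have h1 := hf i
      rw [hij] at h1
      exact Fin.ext (sylE_inj i.2 j.2 h1 (hf j))
    · intro g
      obtain ⟨i, hi, hti⟩ := sylP_sub g.2
      exact ⟨⟨i, hi⟩, Subtype.ext (Subtype.ext ((hf ⟨i, hi⟩).eq hti))⟩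
  rw [← Nat.card_eq_of_bijective f hbij, Nat.card_fin]

theorem isPGroup_sylP : IsPGroup 2 ↥sylP :=
  IsPGroup.of_card (n := 10) (by rw [card_sylP]; norm_num)

theorem index_sylP : sylP.index = 239085 := by
  have h := sylP.card_mul_index
  rw [card_sylP, card_M24] at h
  omega

/-- The explicit Sylow 2-subgroup, as a Sylow subgroup. -/
noncomputable def sylS : Sylow 2 ↥M24 :=
  isPGroup_sylP.toSylow (by rw [index_sylP]; decide)

theorem coe_sylS : (sylS : Subgroup ↥M24) = sylP := IsPGroup.toSylow_coe _ _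

theorem fixW_tbl : tbl (powC cW 1) 14 = 14 ∧ tbl (powC cW 1) 17 = 17 ∧ tbl (powC cW 2) 0 = 0 ∧
    tbl (powC cW 4) 2 = 2 := by decide +kernel

/-- The centraliser in `M24` of the element of order 8. -/
theorem cent_w {y w : Equiv.Perm GolayPt} (hM : y ∈ M24) (hw : IsTbl w cW)
    (hy : y * w = w * y) : ∃ j ∈ centIdx, IsTbl y (sylE j) := by
  have hfix : ∀ k j, j < 24 → tbl (powC cW k) j = j → idx (y (pt j)) ∈ fixW k := by
    intro k j hj hfix
    have hwk := isTbl_pow hw k
    have hp : (w ^ k) (pt j) = pt j := by rw [hwk.apply_pt hj, hfix]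
    exact idx_mem_fixList hwk (fix_of_semiconj (semiconj_pow hy k) hp)
  have hc0 := isTbl_conjCode hw hw hy pwW_eq pwW_eq orbW_ok
  have hpair := pairwise_oid_of_conj hw hw hy pwW_eq pwW_eq repsW_ok oidW_ok
  obtain ⟨v14, hv14⟩ : ∃ v, v = idx (y (pt 14)) := ⟨_, rfl⟩
  obtain ⟨v17, hv17⟩ : ∃ v, v = idx (y (pt 17)) := ⟨_, rfl⟩
  obtain ⟨v0, hv0⟩ : ∃ v, v = idx (y (pt 0)) := ⟨_, rfl⟩
  obtain ⟨v2, hv2⟩ : ∃ v, v = idx (y (pt 2)) := ⟨_, rfl⟩
  obtain ⟨v1, hv1⟩ : ∃ v, v = idx (y (pt 1)) := ⟨_, rfl⟩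
  obtain ⟨v3, hv3⟩ : ∃ v, v = idx (y (pt 3)) := ⟨_, rfl⟩
  have hmap : (repsW.map fun r => idx (y (pt r))) = [v14, v17, v0, v2, v1, v3] := by
    rw [hv14, hv17, hv0, hv2, hv1, hv3]
    rfl
  rw [hmap] at hc0 hpair
  have hst : StagesOK stagesW [] [[v14, v17, v0, v2, v1], [v3]] := by
    refine StagesOK_cons ?_ ?_ (StagesOK_cons ?_ ?_ StagesOK_nil)
    · refine .cons ?_ (.cons ?_ (.cons ?_ (.cons ?_ (.cons ?_ .nil))))
      · rw [hv14]
        exact hfix 1 14 (by norm_num) fixW_tbl.1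
      · rw [hv17]
        exact hfix 1 17 (by norm_num) fixW_tbl.2.1
      · rw [hv0]
        exact hfix 2 0 (by norm_num) fixW_tbl.2.2.1
      · rw [hv2]
        exact hfix 4 2 (by norm_num) fixW_tbl.2.2.2
      · rw [hv1]
        exact idx_mem_range _
    · exact partialTest_of_mem hM (orbOK_length orbW_ok) (vals₁ := [v14, v17, v0, v2, v1])
        (vals₂ := [v3]) hc0 wsW_ok [0]
    · refine .cons ?_ .nil
      rw [hv3]
      exact idx_mem_range _
    · rfl
  have h := searchS_sound _ oidW stagesW [] _ searchW hst hpair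
  have h' : (!(basis.all (fun b => inCode (pm (conjCode pwW orbW
      [v14, v17, v0, v2, v1, v3]) b))) ||
        centIdx.any (fun j => Nat.beq (sylE j) (conjCode pwW orbW
          [v14, v17, v0, v2, v1, v3]))) = true := h
  rw [basisAll_of_mem_M24 hc0 hM, Bool.not_true, Bool.false_or] at h'
  obtain ⟨j, hj, hjeq⟩ := List.any_eq_true.mp h'
  refine ⟨j, hj, ?_⟩
  rw [Nat.eq_of_beq_eq_true hjeq]
  exact hc0

/-- The explicit Sylow 2-subgroup is its own normaliser. -/
theorem normalizer_sylP : Subgroup.normalizer (sylP : Set ↥M24) = sylP := by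
  refine le_antisymm ?_ Subgroup.le_normalizer
  intro h hh
  rw [Subgroup.mem_set_normalizer_iff] at hh
  obtain ⟨w, hwP, hw⟩ := sylE_mem (i := iW) (by decide)
  rw [Nat.eq_of_beq_eq_true cW_eq] at hw
  have hx : h * w * h⁻¹ ∈ sylP := (hh w).mp hwP
  obtain ⟨i, hi, hxi⟩ := sylP_sub hx
  have hw4 : (w : Equiv.Perm GolayPt) ^ 4 ≠ 1 := ne_one_of_moves (isTbl_pow hw 4) cW_moves
  have hC := allRange_spec _ 10 0 sylC_ok i (Nat.zero_le _) (by norm_num; exact hi)
  have hxc : ((h * w * h⁻¹ : ↥M24) : Equiv.Perm GolayPt) =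
      (h : Equiv.Perm GolayPt) * w * (h : Equiv.Perm GolayPt)⁻¹ := rfl
  rw [Bool.or_eq_true] at hC
  rcases hC with hC | hC
  · exfalso
    have e1 : IsTbl (((h * w * h⁻¹ : ↥M24) : Equiv.Perm GolayPt) * (h * w * h⁻¹ : ↥M24) *
        (((h * w * h⁻¹ : ↥M24) : Equiv.Perm GolayPt) * (h * w * h⁻¹ : ↥M24)))
        (pow4F (sylE i)) := (hxi.mulF hxi).mulF (hxi.mulF hxi)
    rw [Nat.eq_of_beq_eq_true hC] at e1
    have e2 := e1.eq IsTbl.one
    rw [hxc] at e2
    apply hw4
    have e3 : ((h : Equiv.Perm GolayPt) * w * (h : Equiv.Perm GolayPt)⁻¹) ^ 4 = 1 := by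
      rw [show (4 : ℕ) = 2 + 2 from rfl, pow_add, pow_two]
      exact e2
    rw [conj_pow] at e3
    exact conj_eq_one_iff.mp e3
  · obtain ⟨s, hsP, hs⟩ := sylE_mem (tenA_lt sylC i)
    have e1 : (s : Equiv.Perm GolayPt) * (h * w * h⁻¹ : ↥M24) = w * s :=
      (hs.mulF hxi).eq (by rw [Nat.eq_of_beq_eq_true hC]; exact hw.mulF hs)
    rw [hxc] at e1
    have hy : ((s * h : ↥M24) : Equiv.Perm GolayPt) * w = w * (s * h : ↥M24) := by
      have e5 : ((s * h : ↥M24) : Equiv.Perm GolayPt) * w =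
          (s : Equiv.Perm GolayPt) * ((h : Equiv.Perm GolayPt) * w *
            (h : Equiv.Perm GolayPt)⁻¹) * h := by
        rw [Subgroup.coe_mul]
        group
      rw [e5, e1, Subgroup.coe_mul, mul_assoc]
    obtain ⟨j, hj, hyj⟩ := cent_w (s * h).2 hw hy
    obtain ⟨g, hgP, hg⟩ := sylE_mem (centIdx_lt j hj)
    have e6 : s * h = g := Subtype.ext (hyj.eq hg)
    have e7 : h = s⁻¹ * g := by
      rw [← e6]
      group
    rw [e7]
    exact mul_mem (inv_mem hsP) hgP

/-- Every Sylow 2-subgroup of `M24` is its own normaliser. -/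
theorem sylow2_M24_self_normalizing (S : Sylow 2 ↥M24) :
    Subgroup.normalizer ((S : Subgroup ↥M24) : Set ↥M24) = (S : Subgroup ↥M24) := by
  obtain ⟨g, rfl⟩ := MulAction.exists_smul_eq ↥M24 sylS S
  have h1 : Subgroup.normalizer (((g • sylS : Sylow 2 ↥M24) : Subgroup ↥M24) : Set ↥M24) =
      MulAction.stabilizer ↥M24 (g • sylS) := (Sylow.stabilizer_eq_normalizer _).symm
  have h2 : MulAction.stabilizer ↥M24 sylS = sylP := by
    rw [Sylow.stabilizer_eq_normalizer]
    show Subgroup.normalizer ((sylS : Subgroup ↥M24) : Set ↥M24) = sylP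
    rw [coe_sylS]
    exact normalizer_sylP
  rw [h1, MulAction.stabilizer_smul_eq_stabilizer_map_conj, h2, Sylow.coe_subgroup_smul, coe_sylS]
  rfl

end Cfsg.Agent.Helper7
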